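import Cfsg.Agent.J2Type.FiveSylow

/-!
The centralizer of the second kind of element of order five and the classes of elements of order
five.
-/

set_option autoImplicit false

namespace CfsgLib.J2Type

variable {G : Type*} [Group G] [Finite G]

namespace FiveData

variable {z t s s2 : G} {P : Subgroup G} (V : FiveData z t s s2 P)
include V

theorem ne_one : s ≠ 1 := fun e => by
  have := V.one.ord; rw [e, orderOf_one] at this; norm_num at this

theorem ne_one2 : s2 ≠ 1 := fun e => by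
  have := V.ord2; rw [e, orderOf_one] at this; norm_num at this

theorem coprime_cent {w : G} (hw : w * s = s * w) {q : ℕ} (ho : orderOf w = q) : q ∣ 300 := by
  rw [← ho, ← V.one.card]
  exact Subgroup.orderOf_dvd_natCard _ (mem_cent_iff.2 hw)

theorem card_cent2 (hz : orderOf z = 2) : Nat.card (Subgroup.centralizer ({s2} : Set G)) = 50 := by
  classical
  haveI : Fact (Nat.Prime 2) := ⟨Nat.prime_two⟩
  haveI : Fact (Nat.Prime 3) := ⟨Nat.prime_three⟩
  haveI : Fact (Nat.Prime 5) := ⟨by norm_num⟩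
  haveI : Fact (Nat.Prime 7) := ⟨by norm_num⟩
  set X := Subgroup.centralizer ({s2} : Set G) with hX
  obtain ⟨w, hzw, hws⟩ := V.conj_z2
  obtain ⟨hzz, hz1⟩ := orderOf_two_iff.1 hz
  have hwX : w ∈ X := mem_cent_iff.2 hws
  have hw2 : orderOf w = 2 := orderOf_two_iff.2 ⟨by
    obtain ⟨c, rfl⟩ := isConj_iff.1 hzw; exact conj_sq hzz, by
    obtain ⟨c, rfl⟩ := isConj_iff.1 hzw; exact conj_ne_one hz1⟩
  -- the normal complement of the Sylow subgroup for two
  obtain ⟨T, hT⟩ := (IsPGroup.of_card (p := 2) (n := 1)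
    (show Nat.card (Subgroup.zpowers (⟨w, hwX⟩ : ↥X)) = 2 ^ 1 by
      rw [Nat.card_zpowers, Subgroup.orderOf_mk, hw2]; rfl)).exists_le_sylow
  have hT2 : Nat.card (T : Subgroup ↥X) = 2 := by
    obtain ⟨m, hm⟩ := IsPGroup.iff_card.1 T.isPGroup'
    have h1 := Subgroup.card_dvd_of_le hT
    rw [Nat.card_zpowers, Subgroup.orderOf_mk, hw2, hm] at h1
    have h2 : m < 2 := by
      by_contra hlt
      exact V.four2 ((pow_dvd_pow 2 (show 2 ≤ m by omega)).trans
        (hm ▸ Subgroup.card_subgroup_dvd_card _))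
    have h3 : m ≠ 0 := by rintro rfl; norm_num at h1
    rw [hm, show m = 1 by omega]; norm_num
  have hTz : (T : Subgroup ↥X) = Subgroup.zpowers (⟨w, hwX⟩ : ↥X) :=
    (Subgroup.eq_of_le_of_card_ge hT (by
      rw [hT2, Nat.card_zpowers, Subgroup.orderOf_mk, hw2])).symm
  have hNC : Subgroup.normalizer ((T : Subgroup ↥X) : Set ↥X) ≤
      Subgroup.centralizer ((T : Subgroup ↥X) : Set ↥X) := by
    intro n hn
    refine Subgroup.mem_centralizer_iff.2 fun y hy => ?_
    rw [hTz] at hn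
    have hy' : y ∈ Subgroup.zpowers (⟨w, hwX⟩ : ↥X) := hTz ▸ hy
    have h1 := (Subgroup.mem_normalizer_iff.1 hn _).1 (Subgroup.mem_zpowers (⟨w, hwX⟩ : ↥X))
    obtain ⟨i, hi, e⟩ := mem_zpowers_cases (p := 2) (by norm_num)
      (by rw [Subgroup.orderOf_mk, hw2]) h1
    interval_cases i
    · rw [pow_zero] at e
      exfalso
      refine conj_ne_one ?_ e
      intro e'
      rw [show w = 1 from congrArg Subtype.val e', orderOf_one] at hw2
      norm_num at hw2
    · rw [pow_one] at e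
      exact (commute_of_mem_zpowers (conj_eq_self_iff.1 e) hy').symm
  obtain ⟨K', hK'n, hcompl⟩ : ∃ N : Subgroup ↥X, N.Normal ∧
      Subgroup.IsComplement' N (T : Subgroup ↥X) :=
    ⟨_, MonoidHom.normal_ker _, MonoidHom.ker_transferSylow_isComplement' T hNC⟩
  set K := K'.map X.subtype with hK
  have hK'card : Nat.card X = Nat.card K * 2 := by
    rw [hK, Subgroup.card_map_of_injective X.subtype_injective, ← hT2, hcompl.card_mul]
  have hKodd : Odd (Nat.card K) := by
    rcases Nat.even_or_odd (Nat.card K) with he | ho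
    · exfalso
      refine V.four2 ?_
      rw [← hX, hK'card]
      obtain ⟨a, ha⟩ := he
      exact ⟨a, by rw [ha]; ring⟩
    · exact ho
  have hKn : ∀ x ∈ X, ∀ k ∈ K, x * k * x⁻¹ ∈ K := by
    rintro x hx _ ⟨k, hk, rfl⟩
    exact ⟨⟨x, hx⟩ * k * ⟨x, hx⟩⁻¹, hK'n.conj_mem k hk _, rfl⟩
  have hKX : K ≤ X := Subgroup.map_subtype_le _
  have hPX : P ≤ X := fun x hx => mem_cent_iff.2 (V.comm x hx s2 V.mem2)
  have hidx2 : K'.index = 2 := by
    rw [hcompl.symm.index_eq_card, hT2]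
  have hPK : P ≤ K := by
    intro x hx
    haveI := hK'n
    refine ⟨⟨x, hPX hx⟩, (QuotientGroup.eq_one_iff (N := K') _).1 ?_, rfl⟩
    have h5 : ((⟨x, hPX hx⟩ : ↥X) : ↥X ⧸ K') ^ 25 = 1 := by
      rw [← QuotientGroup.mk_pow, show (⟨x, hPX hx⟩ : ↥X) ^ 25 = 1 from Subtype.ext (by
        show x ^ 25 = 1
        have h := pow_card_eq_one' (x := (⟨x, hx⟩ : ↥P))
        rw [V.card] at h
        exact congrArg Subtype.val h), QuotientGroup.mk_one]
    have h2 : ((⟨x, hPX hx⟩ : ↥X) : ↥X ⧸ K') ^ 2 = 1 := by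
      have h := pow_card_eq_one' (x := ((⟨x, hPX hx⟩ : ↥X) : ↥X ⧸ K'))
      rwa [← Subgroup.index_eq_card, hidx2] at h
    exact orderOf_eq_one_iff.1 (Nat.eq_one_of_dvd_coprimes (by norm_num : Nat.Coprime 25 2)
      (orderOf_dvd_of_pow_eq_one h5) (orderOf_dvd_of_pow_eq_one h2))
  -- the order of `K`
  have hKdvd : Nat.card K ∣ 4725 := by
    have h1 : Nat.card K ∣ 604800 := V.order ▸ Subgroup.card_subgroup_dvd_card K
    have hcop : Nat.Coprime (Nat.card K) 128 := by
      rw [show (128 : ℕ) = 2 ^ 7 by rfl]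
      exact Nat.Coprime.pow_right 7 (Nat.coprime_two_right.2 hKodd)
    exact hcop.dvd_of_dvd_mul_right (show Nat.card K ∣ 4725 * 128 from h1)
  -- inside `K` the group `P` is its own normalizer
  have hKN : ∀ n ∈ K, (∀ x ∈ P, n * x * n⁻¹ ∈ P) → n ∈ P := by
    set A := K ⊓ Subgroup.normalizer (P : Set G) with hA
    have hd1 : Nat.card A ∣ 300 := V.card_normalizer ▸ Subgroup.card_dvd_of_le inf_le_right
    have hd2 : Nat.card A ∣ 4725 := (Subgroup.card_dvd_of_le inf_le_left).trans hKdvd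
    have hd : Nat.card A ∣ 75 := Nat.dvd_gcd hd1 hd2
    have hPA : P ≤ A := le_inf hPK Subgroup.le_normalizer
    have h25 : 25 ∣ Nat.card A := V.card ▸ Subgroup.card_dvd_of_le hPA
    have hA25 : Nat.card A = 25 := by
      obtain ⟨k, hk⟩ := h25
      rw [hk] at hd ⊢
      have hk3 : k ∣ 3 := Nat.dvd_of_mul_dvd_mul_left (by norm_num : 0 < 25) hd
      rcases (Nat.dvd_prime Nat.prime_three).1 hk3 with e | e
      · rw [e]
      exfalso
      obtain ⟨a, ha⟩ := exists_prime_orderOf_dvd_card' (G := ↥A) 3 (by rw [hk, e]; norm_num)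
      rw [← Subgroup.orderOf_coe] at ha
      exact V.no_fix (Or.inl rfl) ha (V.mem_norm.1 a.2.2) V.mem2 V.ne_one2
        (mem_cent_iff.1 (hKX a.2.1))
    intro n hn hnP
    rw [Subgroup.eq_of_le_of_card_ge hPA (by rw [hA25, V.card])]
    exact Subgroup.mem_inf.2 ⟨hn, V.mem_norm.2 hnP⟩
  obtain ⟨S, hS⟩ := V.sylow
  subst hS
  set SK := S.subtype hPK with hSK
  have hcS : (SK : Subgroup ↥K) = (S : Subgroup G).subgroupOf K := Sylow.coe_subtype S hPK
  have hNC5 : Subgroup.normalizer ((SK : Subgroup ↥K) : Set ↥K) ≤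
      Subgroup.centralizer ((SK : Subgroup ↥K) : Set ↥K) := by
    intro n hn
    rw [hcS] at hn ⊢
    have hnP : (n : G) ∈ (S : Subgroup G) := hKN n n.2 fun x hx =>
      (Subgroup.mem_normalizer_iff.1 hn ⟨x, hPK hx⟩).1 hx
    exact Subgroup.mem_centralizer_iff.2 fun y hy => Subtype.ext (V.comm y hy n hnP)
  obtain ⟨M', hM'n, hMc⟩ : ∃ N : Subgroup ↥K, N.Normal ∧
      Subgroup.IsComplement' N (SK : Subgroup ↥K) :=
    ⟨_, MonoidHom.normal_ker _, MonoidHom.ker_transferSylow_isComplement' SK hNC5⟩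
  set M := M'.map K.subtype with hM
  have hMcard : Nat.card K = Nat.card M * 25 := by
    rw [hM, Subgroup.card_map_of_injective K.subtype_injective, ← hMc.card_mul, hcS,
      Nat.card_congr (Subgroup.subgroupOfEquivOfLe hPK).toEquiv, V.card]
  have hMn : ∀ x ∈ K, ∀ k ∈ M, x * k * x⁻¹ ∈ M := by
    rintro x hx _ ⟨k, hk, rfl⟩
    exact ⟨⟨x, hx⟩ * k * ⟨x, hx⟩⁻¹, hM'n.conj_mem k hk _, rfl⟩
  have hMK : M ≤ K := Subgroup.map_subtype_le _
  have hd189 : Nat.card M ∣ 189 :=
    Nat.dvd_of_mul_dvd_mul_right (by norm_num : 0 < 25) (hMcard ▸ hKdvd : _ ∣ 189 * 25)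
  have h3 : Nat.card ↥(M ⊓ Subgroup.centralizer ({s} : Set G)) ∣ 3 :=
    Nat.dvd_gcd ((Subgroup.card_dvd_of_le inf_le_left).trans hd189)
      (V.one.card ▸ Subgroup.card_dvd_of_le inf_le_right)
  have hmod := card_cent_modEq (k := 1) (p := 5) (g := s) (by rw [V.one.ord]; rfl) M
    fun x hx => hMn s (hPK V.mem) x hx
  have hM7 : ¬ 7 ∣ Nat.card M := by
    intro h7
    obtain ⟨S7⟩ : Nonempty (Sylow 7 ↥M) := inferInstance
    have hc7 : Nat.card (S7 : Subgroup ↥M) = 7 := by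
      obtain ⟨m, hm⟩ := IsPGroup.iff_card.1 S7.isPGroup'
      have h1 : 7 ^ 1 ∣ Nat.card (S7 : Subgroup ↥M) :=
        S7.pow_dvd_card_of_pow_dvd_card (by rw [pow_one]; exact h7)
      have h2 : 7 ^ m ∣ 189 := hm ▸ (Subgroup.card_subgroup_dvd_card _).trans hd189
      rw [hm] at h1 ⊢
      have hm1 : 1 ≤ m := (Nat.pow_dvd_pow_iff_le_right (by norm_num)).1 h1
      have hm2 : m < 2 := by
        by_contra hlt
        have := (pow_dvd_pow 7 (show 2 ≤ m by omega)).trans h2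
        norm_num at this
      rw [show m = 1 by omega]; norm_num
    have hn7 : Nat.card (Sylow 7 ↥M) = 1 := by
      have h1 := card_sylow_modEq_one 7 ↥M
      have h2 : Nat.card (Sylow 7 ↥M) ∣ 27 := by
        refine S7.card_dvd_index.trans ?_
        have hi := (S7 : Subgroup ↥M).card_mul_index
        rw [hc7] at hi
        exact Nat.dvd_of_mul_dvd_mul_left (by norm_num : 0 < 7) (hi.symm ▸ hd189 : _ ∣ 7 * 27)
      obtain ⟨i, hi, e⟩ := (Nat.dvd_prime_pow Nat.prime_three).1 (show _ ∣ 3 ^ 3 from h2)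
      rw [e] at h1 ⊢
      interval_cases i <;> simp [Nat.ModEq] at h1 ⊢
    haveI : Subsingleton (Sylow 7 ↥M) := (Nat.card_eq_one_iff_unique.1 hn7).1
    set A := (S7 : Subgroup ↥M).map M.subtype with hA
    have hA7 : Nat.card A = 7 := by
      rw [hA, Subgroup.card_map_of_injective M.subtype_injective, hc7]
    have hAinv : ∀ x ∈ A, s * x * s⁻¹ ∈ A := by
      rintro _ ⟨x, hx, rfl⟩
      have hsx : s * (x : G) * s⁻¹ ∈ M := hMn s (hPK V.mem) x x.2
      refine ⟨⟨_, hsx⟩, ?_, rfl⟩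
      have hp : (⟨_, hsx⟩ : ↥M) ^ 7 = 1 := Subtype.ext (by
        show (s * (x : G) * s⁻¹) ^ 7 = 1
        have h := pow_card_eq_one' (x := (⟨x, hx⟩ : ↥(S7 : Subgroup ↥M)))
        rw [hc7] at h
        rw [conj_pow, show ((x : G)) ^ 7 = 1 from congrArg (fun y : ↥(S7 : Subgroup ↥M) => ((y : ↥M) : G)) h]
        group)
      have hpg : IsPGroup 7 ↥(Subgroup.zpowers (⟨_, hsx⟩ : ↥M)) := by
        obtain ⟨i, -, hi⟩ := (Nat.dvd_prime_pow (by norm_num : Nat.Prime 7)).1
          (show orderOf (⟨_, hsx⟩ : ↥M) ∣ 7 ^ 1 by rw [pow_one]; exact orderOf_dvd_of_pow_eq_one hp)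
        exact IsPGroup.of_card (n := i) (by rw [Nat.card_zpowers, hi])
      obtain ⟨S', hS'⟩ := hpg.exists_le_sylow
      rw [Subsingleton.elim S7 S']
      exact hS' (Subgroup.mem_zpowers _)
    have hmodA := card_cent_modEq (k := 1) (p := 5) (g := s) (by rw [V.one.ord]; rfl) A hAinv
    rw [hA7] at hmodA
    have hd7 : Nat.card ↥(A ⊓ Subgroup.centralizer ({s} : Set G)) ∣ 1 :=
      Nat.dvd_gcd (hA7 ▸ Subgroup.card_dvd_of_le inf_le_left : _ ∣ 7)
        (V.one.card ▸ Subgroup.card_dvd_of_le inf_le_right : _ ∣ 300)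
    rw [Nat.dvd_one.1 hd7] at hmodA
    simp [Nat.ModEq] at hmodA
  have hd27 : Nat.card M ∣ 27 :=
    (Nat.Coprime.dvd_of_dvd_mul_right ((Nat.Prime.coprime_iff_not_dvd (by norm_num)).2 hM7).symm
      (show Nat.card M ∣ 27 * 7 from hd189))
  obtain ⟨i, hi, hMi⟩ := (Nat.dvd_prime_pow Nat.prime_three).1 (show _ ∣ 3 ^ 3 from hd27)
  obtain ⟨j, hj, hCj⟩ := (Nat.dvd_prime_pow Nat.prime_three).1 (show Nat.card ↥(M ⊓ Subgroup.centralizer ({s} : Set G)) ∣ 3 ^ 1 by rw [pow_one]; exact h3)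
  rw [hMi, hCj] at hmod
  have hij : i = j := by
    interval_cases i <;> interval_cases j <;> simp [Nat.ModEq] at hmod ⊢
  subst hij
  have hi0 : i = 0 := by
    by_contra hne
    have hMs : ∀ x ∈ M, x * s = s * x := fun x hx => by
      rw [← Subgroup.eq_of_le_of_card_ge (inf_le_left : M ⊓ Subgroup.centralizer ({s} : Set G) ≤ M)
        (by rw [hMi, hCj])] at hx
      exact mem_cent_iff.1 hx.2
    obtain ⟨a, ha⟩ := exists_prime_orderOf_dvd_card' (G := ↥M) 3
      (by rw [hMi]; exact dvd_pow_self 3 hne)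
    have haP := V.mem_of_centralizes (hMs a a.2) (mem_cent_iff.1 (hKX (hMK a.2)))
    have := Subgroup.orderOf_dvd_natCard (S : Subgroup G) haP
    rw [Subgroup.orderOf_coe, ha, V.card] at this
    norm_num at this
  rw [hi0, pow_zero] at hMi
  rw [hK'card, hMcard, hMi]; norm_num

/-- The centralizer of the second element lies in the normalizer of `P`. -/
theorem cent2_le (hz : orderOf z = 2) :
    Subgroup.centralizer ({s2} : Set G) ≤ Subgroup.normalizer (P : Set G) := by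
  set X := Subgroup.centralizer ({s2} : Set G) with hX
  have hPX : P ≤ X := fun x hx => mem_cent_iff.2 (V.comm x hx s2 V.mem2)
  have hidx : (P.subgroupOf X).index = 2 := by
    have h := (P.subgroupOf X).card_mul_index
    rw [Nat.card_congr (Subgroup.subgroupOfEquivOfLe hPX).toEquiv, V.card,
      show Nat.card ↥X = 50 from V.card_cent2 hz] at h
    omega
  have hn := Subgroup.normal_of_index_eq_two hidx
  intro n hn'
  exact V.mem_norm.2 fun x hx => hn.conj_mem ⟨x, hPX hx⟩ hx ⟨n, hn'⟩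

theorem card_norm_two (hz : orderOf z = 2) :
    Nat.card ↥(Subgroup.normalizer (P : Set G) ⊓ Subgroup.centralizer ({s2} : Set G)) = 50 := by
  rw [inf_eq_right.2 (V.cent2_le hz), V.card_cent2 hz]

theorem ncard_orbit {v : G}
    (hc : Nat.card ↥(Subgroup.normalizer (P : Set G) ⊓ Subgroup.centralizer ({v} : Set G)) = 50) :
    {b : G | ∃ n ∈ Subgroup.normalizer (P : Set G), n * v * n⁻¹ = b}.ncard = 6 := by
  have h := conj_orbit_card_mul (Subgroup.normalizer (P : Set G)) v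
  rw [hc, V.card_normalizer] at h
  omega

theorem not_square {v : G} (hv5 : orderOf v = 5)
    (hc : Nat.card ↥(Subgroup.normalizer (P : Set G) ⊓ Subgroup.centralizer ({v} : Set G)) = 50) :
    ∀ n ∈ Subgroup.normalizer (P : Set G), n * v * n⁻¹ ≠ v ^ 2 := by
  intro n hn e
  set N' := Subgroup.normalizer (P : Set G) ⊓ Subgroup.normalizer (Subgroup.zpowers v : Set G)
    with hN'
  have hv1 : v ≠ 1 := fun e' => by rw [e', orderOf_one] at hv5; norm_num at hv5
  have hv25 : v ^ 5 = 1 := orderOf_dvd_iff_pow_eq_one.1 (dvd_of_eq hv5)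
  have hnv : n ∈ Subgroup.normalizer (Subgroup.zpowers v : Set G) := by
    refine Subgroup.mem_normalizer_iff.2 fun x => ?_
    have hmem : ∀ y ∈ Subgroup.zpowers v, n * y * n⁻¹ ∈ Subgroup.zpowers v := by
      rintro y ⟨j, rfl⟩
      show n * v ^ j * n⁻¹ ∈ _
      rw [← conj_zpow, e]
      exact Subgroup.zpow_mem _ (Subgroup.pow_mem _ (Subgroup.mem_zpowers v) 2) j
    refine ⟨hmem x, fun hx => ?_⟩
    have himg : (fun y => n * y * n⁻¹) '' (Subgroup.zpowers v : Set G) = (Subgroup.zpowers v : Set G) :=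
      Set.eq_of_subset_of_ncard_le (by rintro _ ⟨y, hy, rfl⟩; exact hmem y hy) (by
        rw [Set.ncard_image_of_injective _ fun a b e' => mul_left_cancel (mul_right_cancel e')])
    rw [← SetLike.mem_coe, ← himg] at hx
    obtain ⟨y, hy, e'⟩ := hx
    exact (mul_left_cancel (mul_right_cancel e') : y = x) ▸ hy
  have hinf : N' ⊓ Subgroup.centralizer ({v} : Set G) =
      Subgroup.normalizer (P : Set G) ⊓ Subgroup.centralizer ({v} : Set G) := by
    refine le_antisymm (inf_le_inf_right _ inf_le_left) fun x hx => ?_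
    refine ⟨⟨hx.1, Subgroup.mem_normalizer_iff.2 fun y => ?_⟩, hx.2⟩
    have hxv : ∀ a ∈ Subgroup.zpowers v, x * a = a * x := fun a ha =>
      commute_of_mem_zpowers (mem_cent_iff.1 hx.2) ha
    constructor
    · intro hy
      rw [hxv y hy, mul_inv_cancel_right]; exact hy
    · intro hy
      have h1 := hxv _ hy
      have h2 : x * (x * y * x⁻¹) * x⁻¹ = x * y * x⁻¹ := by rw [h1, mul_inv_cancel_right]
      have h3 := mul_left_cancel (mul_right_cancel h2)
      rwa [h3] at hy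
  have horb := conj_orbit_card_mul N' v
  rw [hinf, hc] at horb
  have hset : {b : G | ∃ m ∈ N', m * v * m⁻¹ = b} = (Subgroup.zpowers v : Set G) \ {1} := by
    ext b
    constructor
    · rintro ⟨m, hm, rfl⟩
      exact ⟨(Subgroup.mem_normalizer_iff.1 hm.2 v).1 (Subgroup.mem_zpowers v), conj_ne_one hv1⟩
    · rintro ⟨hb, hb1⟩
      obtain ⟨i, hi, rfl⟩ := mem_zpowers_cases (by norm_num) hv5 hb
      have hnN' : n ∈ N' := ⟨hn, hnv⟩
      have h4 : n ^ 2 * v * (n ^ 2)⁻¹ = v ^ 4 := by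
        calc n ^ 2 * v * (n ^ 2)⁻¹ = n * (n * v * n⁻¹) * n⁻¹ := by simp only [pow_two]; group
          _ = (n * v * n⁻¹) ^ 2 := by conv_lhs => rw [e]
                                      rw [conj_pow]
          _ = v ^ 4 := by rw [e, ← pow_mul]
      interval_cases i
      · simp at hb1
      · exact ⟨1, N'.one_mem, by group⟩
      · exact ⟨n, hnN', e⟩
      · refine ⟨n ^ 3, pow_mem hnN' 3, ?_⟩
        calc n ^ 3 * v * (n ^ 3)⁻¹ = n * (n ^ 2 * v * (n ^ 2)⁻¹) * n⁻¹ := by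
              rw [pow_succ']; group
          _ = (n * v * n⁻¹) ^ 4 := by rw [h4, conj_pow]
          _ = v ^ (5 + 3) := by rw [e, ← pow_mul]
          _ = v ^ 3 := by rw [pow_add, hv25, one_mul]
      · exact ⟨n ^ 2, pow_mem hnN' 2, h4⟩
  rw [hset, Set.ncard_diff_singleton_of_mem (one_mem _), ← Nat.card_coe_set_eq,
    SetLike.coe_sort_coe, Nat.card_zpowers, hv5] at horb
  have hd : Nat.card N' ∣ 300 := V.card_normalizer ▸ Subgroup.card_dvd_of_le inf_le_left
  rw [← horb] at hd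
  norm_num at hd

/-- Every nonidentity element of `P` is conjugate into one of the two cyclic subgroups. -/
theorem cases_mem (hz : orderOf z = 2) {x : G} (hx : x ∈ P) (hx1 : x ≠ 1) :
    ∃ n ∈ Subgroup.normalizer (P : Set G),
      n * x * n⁻¹ ∈ Subgroup.zpowers s ∨ n * x * n⁻¹ ∈ Subgroup.zpowers s2 := by
  set N := Subgroup.normalizer (P : Set G) with hN
  have hc1 := V.card_norm_one
  have hc2 := V.card_norm_two hz
  have hsq : ∀ v, orderOf v = 5 →
      Subgroup.centralizer ({v ^ 2} : Set G) = Subgroup.centralizer ({v} : Set G) := by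
    intro v hv
    have hne : v ^ 2 ≠ 1 := fun e => by
      have := orderOf_dvd_of_pow_eq_one e; rw [hv] at this; norm_num at this
    have hmem : v ∈ Subgroup.zpowers (v ^ 2) := by
      rw [zpowers_eq_of_prime (by norm_num) hv (Subgroup.pow_mem _ (Subgroup.mem_zpowers v) 2) hne]
      exact Subgroup.mem_zpowers v
    ext y
    rw [mem_cent_iff, mem_cent_iff]
    exact ⟨fun h => commute_of_mem_zpowers h hmem,
      fun h => commute_of_mem_zpowers h (Subgroup.pow_mem _ (Subgroup.mem_zpowers v) 2)⟩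
  have hs2v : s ^ 2 ≠ 1 := fun e => by
    have := orderOf_dvd_of_pow_eq_one e; rw [V.one.ord] at this; norm_num at this
  have hs22 : s2 ^ 2 ≠ 1 := fun e => by
    have := orderOf_dvd_of_pow_eq_one e; rw [V.ord2] at this; norm_num at this
  set O : G → Set G := fun v => {b : G | ∃ n ∈ N, n * v * n⁻¹ = b} with hO
  have h6 : ∀ v, v = s ∨ v = s ^ 2 ∨ v = s2 ∨ v = s2 ^ 2 → (O v).ncard = 6 := by
    rintro v (rfl | rfl | rfl | rfl)
    · exact V.ncard_orbit hc1
    · exact V.ncard_orbit (by rw [hsq _ V.one.ord]; exact hc1)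
    · exact V.ncard_orbit hc2
    · exact V.ncard_orbit (by rw [hsq _ V.ord2]; exact hc2)
  have hdis : ∀ v, (∀ n ∈ N, n * v * n⁻¹ ≠ v ^ 2) → Disjoint (O v) (O (v ^ 2)) := by
    intro v h
    rw [Set.disjoint_left]
    rintro b ⟨n, hn, rfl⟩ ⟨m, hm, e⟩
    refine h (m⁻¹ * n) (mul_mem (inv_mem hm) hn) ?_
    rw [show m⁻¹ * n * v * (m⁻¹ * n)⁻¹ = m⁻¹ * (n * v * n⁻¹) * m by group, ← e]; group
  have hd1 := hdis s (V.not_square V.one.ord hc1)
  have hd2 := hdis s2 (V.not_square V.ord2 hc2)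
  have hz1 := Subgroup.mem_zpowers s
  have hz2 := Subgroup.mem_zpowers s2
  have hp1 := Subgroup.pow_mem _ hz1 2
  have hp2 := Subgroup.pow_mem _ hz2 2
  have hd : Disjoint (O s ∪ O (s ^ 2)) (O s2 ∪ O (s2 ^ 2)) := by
    simp only [Set.disjoint_union_left, Set.disjoint_union_right]
    exact ⟨⟨V.orbit_disjoint hz1 V.ne_one hz2, V.orbit_disjoint hp1 hs2v hz2⟩,
      V.orbit_disjoint hz1 V.ne_one hp2, V.orbit_disjoint hp1 hs2v hp2⟩
  have hcard : ((O s ∪ O (s ^ 2)) ∪ (O s2 ∪ O (s2 ^ 2))).ncard = 24 := by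
    rw [Set.ncard_union_eq hd (Set.toFinite _) (Set.toFinite _),
      Set.ncard_union_eq hd1 (Set.toFinite _) (Set.toFinite _),
      Set.ncard_union_eq hd2 (Set.toFinite _) (Set.toFinite _), h6 _ (Or.inl rfl),
      h6 _ (Or.inr (Or.inl rfl)), h6 _ (Or.inr (Or.inr (Or.inl rfl))),
      h6 _ (Or.inr (Or.inr (Or.inr rfl)))]
  have heq := Set.eq_of_subset_of_ncard_le (Set.union_subset
    (Set.union_subset (V.orbit_sub V.mem V.ne_one) (V.orbit_sub (P.pow_mem V.mem 2) hs2v))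
    (Set.union_subset (V.orbit_sub V.mem2 V.ne_one2) (V.orbit_sub (P.pow_mem V.mem2 2) hs22)))
    (by rw [V.ncard_ne_one]; exact le_of_eq hcard.symm)
  have hxm : x ∈ (P : Set G) \ {1} := ⟨hx, hx1⟩
  rw [← heq] at hxm
  have key : ∀ v, (∃ n ∈ N, n * v * n⁻¹ = x) → ∃ n ∈ N, n * x * n⁻¹ = v := by
    rintro v ⟨n, hn, rfl⟩
    exact ⟨n⁻¹, inv_mem hn, by group⟩
  rcases hxm with (h | h) | (h | h)
  · obtain ⟨n, hn, e⟩ := key _ h; exact ⟨n, hn, Or.inl (e ▸ hz1)⟩
  · obtain ⟨n, hn, e⟩ := key _ h; exact ⟨n, hn, Or.inl (e ▸ hp1)⟩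
  · obtain ⟨n, hn, e⟩ := key _ h; exact ⟨n, hn, Or.inr (e ▸ hz2)⟩
  · obtain ⟨n, hn, e⟩ := key _ h; exact ⟨n, hn, Or.inr (e ▸ hp2)⟩

theorem five_cases (hz : orderOf z = 2) {x : G} (hx : orderOf x = 5) :
    ∃ c, c * x * c⁻¹ ∈ Subgroup.zpowers s ∨ c * x * c⁻¹ ∈ Subgroup.zpowers s2 := by
  haveI : Fact (Nat.Prime 5) := ⟨by norm_num⟩
  obtain ⟨S, hS⟩ := V.sylow
  obtain ⟨Sx, hSx⟩ := (IsPGroup.of_card (p := 5) (n := 1)
    (show Nat.card (Subgroup.zpowers x) = 5 ^ 1 by rw [Nat.card_zpowers, hx]; rfl)).exists_le_sylow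
  obtain ⟨c, hc⟩ := MulAction.exists_smul_eq G Sx S
  have hmem : c * x * c⁻¹ ∈ P := by
    rw [← hS, ← hc, Sylow.coe_subgroup_smul]
    exact ⟨x, hSx (Subgroup.mem_zpowers x), rfl⟩
  have hx1 : x ≠ 1 := fun e => by rw [e, orderOf_one] at hx; norm_num at hx
  obtain ⟨n, -, h⟩ := V.cases_mem hz hmem (conj_ne_one hx1)
  refine ⟨n * c, ?_⟩
  rwa [show n * c * x * (n * c)⁻¹ = n * (c * x * c⁻¹) * n⁻¹ by group]

/-- An element commuting with an element of order five. -/
theorem cent_five (hz : orderOf z = 2) {x w : G} (hx : orderOf x = 5) (hw : w * x = x * w) :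
    (∃ c, c * w * c⁻¹ * s = s * (c * w * c⁻¹)) ∨ orderOf w ∣ 50 := by
  obtain ⟨c, hc⟩ := V.five_cases hz hx
  have h1 : c * w * c⁻¹ * (c * x * c⁻¹) = c * x * c⁻¹ * (c * w * c⁻¹) := by
    calc c * w * c⁻¹ * (c * x * c⁻¹) = c * (w * x) * c⁻¹ := by group
      _ = c * (x * w) * c⁻¹ := by rw [hw]
      _ = _ := by group
  have hne : c * x * c⁻¹ ≠ 1 := conj_ne_one fun e => by rw [e, orderOf_one] at hx; norm_num at hx
  rcases hc with h | h
  · left
    refine ⟨c, commute_of_mem_zpowers h1 ?_⟩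
    rw [zpowers_eq_of_prime (by norm_num) V.one.ord h hne]; exact Subgroup.mem_zpowers s
  · right
    have h2 : c * w * c⁻¹ * s2 = s2 * (c * w * c⁻¹) := commute_of_mem_zpowers h1 (by
      rw [zpowers_eq_of_prime (by norm_num) V.ord2 h hne]; exact Subgroup.mem_zpowers s2)
    have h3 := Subgroup.orderOf_dvd_natCard _ (mem_cent_iff.2 h2)
    rwa [V.card_cent2 hz, show orderOf (c * w * c⁻¹) = orderOf w from
      MulEquiv.orderOf_eq (MulAut.conj c) w] at h3

theorem conclusion (hz : orderOf z = 2) (S : Sylow 5 G) :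
    Subgroup.centralizer ((S : Subgroup G) : Set G) = S ∧ Nat.card S = 25 ∧
      Nat.card (Subgroup.normalizer ((S : Subgroup G) : Set G)) = 300 ∧
      ∃ X Y : Subgroup G, Nat.card X = 5 ∧ Nat.card Y = 5 ∧
        (∀ a : G, X.map (MulAut.conj a).toMonoidHom ≠ Y) ∧
        ∀ W : Subgroup G, Nat.card W = 5 → ∃ a : G,
          W.map (MulAut.conj a).toMonoidHom = X ∨ W.map (MulAut.conj a).toMonoidHom = Y := by
  haveI : Fact (Nat.Prime 5) := ⟨by norm_num⟩
  obtain ⟨S0, hS0⟩ := V.sylow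
  obtain ⟨c, hc⟩ := MulAction.exists_smul_eq G S0 S
  have hS : (S : Subgroup G) = P.map (MulAut.conj c).toMonoidHom := by
    rw [← hc, Sylow.coe_subgroup_smul, ← hS0]; rfl
  have hmem : ∀ y, y ∈ (S : Subgroup G) ↔ c⁻¹ * y * c ∈ P := fun y => by
    rw [hS]; exact LargeExtraspecial.mem_conj_iff P c y
  have hcard : Nat.card S = 25 := by
    show Nat.card (S : Subgroup G) = 25
    rw [hS, Subgroup.card_map_of_injective (f := (MulAut.conj c).toMonoidHom) (MulAut.conj c).injective,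
      V.card]
  refine ⟨?_, hcard, ?_, Subgroup.zpowers s, Subgroup.zpowers s2, ?_, ?_, ?_, ?_⟩
  · refine le_antisymm (fun x hx => (hmem x).2 ?_) fun x hx =>
      Subgroup.mem_centralizer_iff.2 fun y hy => ?_
    · rw [← V.centralizer_eq]
      refine Subgroup.mem_centralizer_iff.2 fun y hy => ?_
      have := Subgroup.mem_centralizer_iff.1 hx (c * y * c⁻¹) ((hmem _).2 (by
        rw [show c⁻¹ * (c * y * c⁻¹) * c = y by group]; exact hy))
      calc y * (c⁻¹ * x * c) = c⁻¹ * (c * y * c⁻¹ * x) * c := by group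
        _ = c⁻¹ * (x * (c * y * c⁻¹)) * c := by rw [this]
        _ = c⁻¹ * x * c * y := by group
    · have := V.comm _ ((hmem y).1 hy) _ ((hmem x).1 hx)
      exact mul_left_cancel (a := c⁻¹) (mul_right_cancel (b := c) (by
        calc c⁻¹ * (y * x) * c = c⁻¹ * y * c * (c⁻¹ * x * c) := by group
          _ = c⁻¹ * x * c * (c⁻¹ * y * c) := this
          _ = c⁻¹ * (x * y) * c := by group))
  · have h1 := S0.card_eq_index_normalizer
    have h2 := S.card_eq_index_normalizer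
    have h3 : (Subgroup.normalizer ((S : Subgroup G) : Set G)).index =
        (Subgroup.normalizer (P : Set G)).index := by rw [← hS0]; exact h2.symm.trans h1
    have h4 := (Subgroup.normalizer ((S : Subgroup G) : Set G)).card_mul_index
    rw [h3, ← (Subgroup.normalizer (P : Set G)).card_mul_index] at h4
    rw [Nat.eq_of_mul_eq_mul_right (Nat.pos_of_ne_zero Subgroup.index_ne_zero_of_finite) h4,
      V.card_normalizer]
  · rw [Nat.card_zpowers, V.one.ord]
  · rw [Nat.card_zpowers, V.ord2]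
  · intro a ha
    have h1 : s2 ∈ (Subgroup.zpowers s).map (MulAut.conj a).toMonoidHom :=
      ha ▸ Subgroup.mem_zpowers s2
    obtain ⟨v, hv, e⟩ := h1
    refine V.no_conj v hv (fun e1 => ?_) s2 (Subgroup.mem_zpowers s2) a⁻¹ ?_
    · subst e1
      exact V.ne_one2 (by rw [← e]; exact map_one _)
    · rw [← e]; show a⁻¹ * (a * v * a⁻¹) * a⁻¹⁻¹ = v; group
  · intro W hW
    obtain ⟨x, hx⟩ := exists_prime_orderOf_dvd_card' (G := ↥W) 5 (by rw [hW])
    rw [← Subgroup.orderOf_coe] at hx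
    obtain ⟨a, ha⟩ := V.five_cases hz hx
    have key : ∀ v, orderOf v = 5 → a * (x : G) * a⁻¹ ∈ Subgroup.zpowers v →
        W.map (MulAut.conj a).toMonoidHom = Subgroup.zpowers v := by
      intro v hv hm
      have hWx : W = Subgroup.zpowers (x : G) := (Subgroup.eq_of_le_of_card_ge
        (Subgroup.zpowers_le.2 x.2) (by rw [hW, Nat.card_zpowers, hx])).symm
      rw [hWx, MonoidHom.map_zpowers]
      exact zpowers_eq_of_prime (by norm_num) hv hm
        (conj_ne_one fun e => by rw [e, orderOf_one] at hx; norm_num at hx)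
    exact ⟨a, ha.imp (key s V.one.ord) (key s2 V.ord2)⟩

end FiveData

end CfsgLib.J2Type
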