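import Cfsg.Agent.J2Type.CentT
import Cfsg.Agent.J2Type.Rigid
import Cfsg.Agent.Transfer.NormalPComplement

/-!
The centralizer of `t` is the direct product of a four group and an alternating group of degree five.
-/

set_option autoImplicit false

namespace CfsgLib.J2Type

variable {G : Type*} [Group G] [Finite G]

/-- The direct decomposition of `C(t)`. -/
structure CTData (z u t : G) (E X0 F : Subgroup G) (g : G) : Prop where
  F_le : F ≤ E
  card_F : Nat.card F = 4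
  t_F : t ∈ F
  g_mem : g ∈ X0
  g_ord : orderOf g = 3
  z_X0 : z ∈ X0
  u_X0 : u ∈ X0
  X0_t : ∀ x ∈ X0, x * t = t * x
  norm : ∀ x, x * t = t * x → ∀ y ∈ X0, x * y * x⁻¹ ∈ X0
  iso : Nonempty (↥X0 ≃* A5)
  comm : ∀ f ∈ F, ∀ y ∈ X0, f * y = y * f
  decomp : ∀ x, x * t = t * x → ∃ f ∈ F, ∃ y ∈ X0, x = f * y
  indep : ∀ x ∈ F, x ∈ X0 → x = 1
  g_E : ∀ x ∈ E, g * x * g⁻¹ ∈ E
  g_moves : g * z * g⁻¹ ≠ z

namespace Data

variable {z u t r : G} {Q E : Subgroup G} {img : G → A5} (D : Data z u t r Q E img)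
include D

theorem exists_gamma : ∃ g, g * t = t * g ∧ (∀ x ∈ E, g * x * g⁻¹ ∈ E) ∧ orderOf g = 3 ∧
    g * z * g⁻¹ ≠ z := by
  classical
  haveI : Fact (Nat.Prime 2) := ⟨Nat.prime_two⟩
  haveI : Fact (Nat.Prime 3) := ⟨Nat.prime_three⟩
  set X := Subgroup.centralizer ({t} : Set G) with hX
  have hEX : E ≤ X := fun x hx => mem_cent_iff.2 ((D.mem_E x).1 hx).2
  set H := X ⊓ Subgroup.normalizer (E : Set G) with hH
  have hmemH : ∀ n, n ∈ H → n * t = t * n ∧ ∀ x ∈ E, n * x * n⁻¹ ∈ E := fun n hn =>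
    ⟨mem_cent_iff.1 hn.1, fun x hx => (Subgroup.mem_normalizer_iff.1 hn.2 x).1 hx⟩
  have hEH : E ≤ H := le_inf hEX Subgroup.le_normalizer
  by_cases hex : ∃ n ∈ H, n ∉ E
  · obtain ⟨n, hn, hnE⟩ := hex
    have horb := conj_orbit_card_mul H z
    have hHz : H ⊓ Subgroup.centralizer ({z} : Set G) = E := by
      refine le_antisymm (fun x hx => (D.mem_E x).2 ⟨mem_cent_iff.1 hx.2, (hmemH x hx.1).1⟩) ?_
      exact le_inf hEH fun x hx => mem_cent_iff.2 ((D.mem_E x).1 hx).1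
    rw [hHz, D.card_E] at horb
    have hle : {b : G | ∃ x ∈ H, x * z * x⁻¹ = b}.ncard ≤ 3 := by
      rw [← D.ncard_W]
      refine Set.ncard_le_ncard ?_ (Set.toFinite _)
      rintro b ⟨x, hx, rfl⟩
      obtain ⟨h1, h2, h3, -⟩ := D.perm (hmemH x hx).2 D.z_E D.setup.z_mem D.setup.z_ne
      exact ⟨h1, h2, h3⟩
    have h2 : 1 < {b : G | ∃ x ∈ H, x * z * x⁻¹ = b}.ncard := by
      refine (Set.one_lt_ncard (Set.toFinite _)).2 ⟨z, ⟨1, H.one_mem, by simp⟩,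
        n * z * n⁻¹, ⟨n, hn, rfl⟩, fun e => hnE ?_⟩
      exact (D.mem_E n).2 ⟨conj_eq_self_iff.1 e.symm, (hmemH n hn).1⟩
    have hne2 : {b : G | ∃ x ∈ H, x * z * x⁻¹ = b}.ncard ≠ 2 := by
      intro e
      rw [e] at horb
      obtain ⟨k, hk⟩ := IsPGroup.iff_orderOf.1
        (IsPGroup.of_card (p := 2) (n := 5) (show Nat.card H = 2 ^ 5 by rw [← horb]; rfl)) ⟨n, hn⟩
      rw [Subgroup.orderOf_mk] at hk
      exact hnE (D.mem_E_of_two hk (hmemH n hn).1 (hmemH n hn).2)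
    have h3 : 3 ∣ Nat.card H := ⟨16, by omega⟩
    obtain ⟨g, hg⟩ := exists_prime_orderOf_dvd_card' (G := ↥H) 3 h3
    rw [← Subgroup.orderOf_coe] at hg
    refine ⟨g, (hmemH g g.2).1, (hmemH g g.2).2, hg, fun e => ?_⟩
    have hgE := (D.mem_E (g : G)).2 ⟨conj_eq_self_iff.1 e, (hmemH g g.2).1⟩
    have := orderOf_dvd_of_pow_eq_one (show (g : G) ^ 2 = 1 by rw [sq]; exact D.E_sq _ hgE)
    rw [hg] at this
    norm_num at this
  push Not at hex
  exfalso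
  obtain ⟨P, hP⟩ : ∃ P : Sylow 2 ↥X, (P : Subgroup ↥X) = E.subgroupOf X := D.exists_sylow
  have hNC : Subgroup.normalizer ((P : Subgroup ↥X) : Set ↥X) ≤
      Subgroup.centralizer ((P : Subgroup ↥X) : Set ↥X) := by
    intro n hn
    have hnE : (n : G) ∈ E := by
      refine hex n (Subgroup.mem_inf.2 ⟨n.2, Subgroup.mem_normalizer_iff.2 fun x => ?_⟩)
      rw [hP] at hn
      constructor
      · intro hx
        exact (Subgroup.mem_normalizer_iff.1 hn ⟨x, hEX hx⟩).1 hx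
      · intro hx
        have := (Subgroup.mem_normalizer_iff.1 (inv_mem hn) ⟨_, hEX hx⟩).1 hx
        simpa [Subgroup.mem_subgroupOf, mul_assoc] using this
    rw [hP]
    exact Subgroup.mem_centralizer_iff.2 fun y hy => Subtype.ext (D.comm_E hy hnE)
  obtain ⟨N, hN, hNc⟩ : ∃ N : Subgroup ↥X, N.Normal ∧ Subgroup.IsComplement' N (P : Subgroup ↥X) :=
    ⟨_, MonoidHom.normal_ker _, MonoidHom.ker_transferSylow_isComplement' P hNC⟩
  set K := N.map X.subtype with hK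
  have hKodd : Odd (Nat.card K) := by
    rw [hK, Subgroup.card_map_of_injective X.subtype_injective, ← hNc.index_eq_card]
    exact Nat.not_even_iff_odd.1 fun he => P.not_dvd_index he.two_dvd
  have hKn : ∀ e ∈ E, ∀ k ∈ K, e * k * e⁻¹ ∈ K := by
    rintro e he k ⟨k', hk', rfl⟩
    exact ⟨⟨e, hEX he⟩ * k' * ⟨e, hEX he⟩⁻¹, hN.conj_mem k' hk' _, rfl⟩
  have hfix : ∀ w, w ∈ E → IsConj z w → ∀ k ∈ K, k * w = w * k → k = 1 := by
    rintro w hw hzw k ⟨k', hk', rfl⟩ hc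
    have hkE := D.mem_E_of_comm hw hzw hc (mem_cent_iff.1 k'.2)
    by_contra h1
    have := Subgroup.orderOf_dvd_natCard K (Subgroup.mem_map_of_mem X.subtype hk')
    rw [orderOf_two_iff.2 ⟨D.E_sq _ hkE, h1⟩] at this
    exact Nat.not_even_iff_odd.2 hKodd (even_iff_two_dvd.2 this)
  have huz : u * z ∈ E := mul_mem D.u_E D.z_E
  have huzc : IsConj z (u * z) := D.conj_of_mem (D.E_sq _ huz) (fun e => D.u_mem.2.2.2 (by
    rw [← inv_of_sq D.setup.z_sq, eq_inv_of_mul_eq_one_left e])) (Q.mul_mem D.u_mem.1 D.setup.z_mem)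
  have hbot := odd_eq_bot D.setup.z_sq D.u_mem.2.1 (D.comm_E D.z_E D.u_E) hKodd (hKn z D.z_E)
    (hKn u D.u_E) (hfix z D.z_E (IsConj.refl z)) (hfix u D.u_E D.u_conj) (hfix _ huz huzc)
  rw [hK, Subgroup.map_eq_bot_iff_of_injective _ X.subtype_injective] at hbot
  have htop : (P : Subgroup ↥X) = ⊤ := by
    refine Subgroup.eq_top_of_card_eq _ ?_
    rw [← hNc.card_mul, hbot, Subgroup.card_bot, one_mul]
  refine D.not_normal fun x hx e he => ?_
  have hxE : x ∈ E := by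
    have : (⟨x, mem_cent_iff.2 hx⟩ : ↥X) ∈ (P : Subgroup ↥X) := htop ▸ Subgroup.mem_top _
    rwa [hP] at this
  exact mul_mem (mul_mem hxE he) (inv_mem hxE)

theorem exists_CT : ∃ (X0 F : Subgroup G) (g : G), CTData z u t E X0 F g := by
  classical
  haveI : Fact (Nat.Prime 2) := ⟨Nat.prime_two⟩
  haveI : Fact (Nat.Prime 3) := ⟨Nat.prime_three⟩
  have h := D.setup
  obtain ⟨g, hgt, hgE, hgo, hgz⟩ := D.exists_gamma
  set X := Subgroup.centralizer ({t} : Set G) with hX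
  have hEX : E ≤ X := fun x hx => mem_cent_iff.2 ((D.mem_E x).1 hx).2
  -- the fixed points of `g` on `E`
  set F := E ⊓ Subgroup.centralizer ({g} : Set G) with hF
  have hmemF : ∀ x, x ∈ F ↔ x ∈ E ∧ x * g = g * x := fun x => by simp [hF, mem_cent_iff]
  have htF : t ∈ F := (hmemF t).2 ⟨D.t_E, hgt.symm⟩
  have hFQ : ∀ x ∈ F, x ∈ Q → x = 1 := by
    intro x hx hxQ
    by_contra hx1
    obtain ⟨hxE, hxg⟩ := (hmemF x).1 hx
    have hgE' := D.mem_E_of_comm hxE (D.conj_of_mem (D.E_sq x hxE) hx1 hxQ) hxg.symm hgt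
    exact hgz (conj_eq_self_iff.2 (D.comm_E hgE' D.z_E))
  have hg2 : g * z * g⁻¹ ∈ E ∧ g * z * g⁻¹ ∈ Q ∧ g * z * g⁻¹ ≠ 1 ∧ IsConj z (g * z * g⁻¹) :=
    D.perm hgE D.z_E h.z_mem h.z_ne
  have hF4 : Nat.card F = 4 := by
    have hmod := card_cent_modEq (k := 1) (p := 3) (g := g) (by rw [hgo]; rfl) E fun x hx => hgE x hx
    rw [D.card_E, ← hF] at hmod
    have hd : Nat.card F ∣ 2 ^ 4 := by
      rw [show (2 : ℕ) ^ 4 = Nat.card E by rw [D.card_E]; rfl]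
      exact Subgroup.card_dvd_of_le inf_le_left
    obtain ⟨i, hi, he⟩ := (Nat.dvd_prime_pow Nat.prime_two).1 hd
    have h2 : i ≠ 0 := by
      rintro rfl
      rw [pow_zero, Subgroup.card_eq_one] at he
      exact D.t_ne (by simpa [he] using htF)
    have h3 : i ≠ 4 := by
      rintro rfl
      have := Subgroup.eq_of_le_of_card_ge (inf_le_left : F ≤ E) (by rw [he, D.card_E]; rfl)
      exact h.z_ne (hFQ z (show z ∈ F by rw [hF, this]; exact D.z_E) h.z_mem)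
    rw [he] at hmod
    interval_cases i <;> simp_all [Nat.ModEq]
  -- the transfer to the Sylow subgroup
  obtain ⟨P, hP⟩ : ∃ P : Sylow 2 ↥X, (P : Subgroup ↥X) = E.subgroupOf X := D.exists_sylow
  haveI hPc : IsMulCommutative (P : Subgroup ↥X) := ⟨⟨fun a b => Subtype.ext (Subtype.ext (by
    have ha : (a : ↥X) ∈ E.subgroupOf X := hP ▸ a.2
    have hb : (b : ↥X) ∈ E.subgroupOf X := hP ▸ b.2
    exact D.comm_E ha hb))⟩⟩
  open scoped IsMulCommutative in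
  set τ : ↥X →* ↥(P : Subgroup ↥X) :=
    MonoidHom.transfer (MonoidHom.id (P : Subgroup ↥X)) with hτ
  have hPsq : ∀ p : ↥(P : Subgroup ↥X), p * p = 1 := fun p =>
    Subtype.ext (Subtype.ext (D.E_sq _ (hP ▸ p.2 : (p : ↥X) ∈ E.subgroupOf X)))
  have hfixN : ∀ f ∈ F, ∀ n : ↥X, n ∈ Subgroup.normalizer ((P : Subgroup ↥X) : Set ↥X) →
      (n : G) * f = f * n := by
    intro f hf n hn
    rw [hP] at hn
    have hnE : ∀ x ∈ E, (n : G) * x * (n : G)⁻¹ ∈ E := fun x hx =>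
      (Subgroup.mem_normalizer_iff.1 hn ⟨x, hEX hx⟩).1 hx
    have hnt : (n : G) * t = t * n := mem_cent_iff.1 n.2
    obtain ⟨h1, h2, h3, -⟩ := D.perm hnE D.z_E h.z_mem h.z_ne
    obtain ⟨hfE, hfg⟩ := (hmemF f).1 hf
    have hfg' : ∀ i : ℕ, g ^ i * f = f * g ^ i := fun i =>
      (Commute.pow_left (show Commute g f from hfg.symm) i).eq
    have hw2 : g ^ 2 * z * (g ^ 2)⁻¹ ∈ {w | w ∈ E ∧ w ∈ Q ∧ w ≠ 1} := by
      obtain ⟨a1, a2, a3, -⟩ := D.perm hgE hg2.1 hg2.2.1 hg2.2.2.1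
      rw [show g ^ 2 * z * (g ^ 2)⁻¹ = g * (g * z * g⁻¹) * g⁻¹ by simp only [pow_two]; group]
      exact ⟨a1, a2, a3⟩
    have hg3 : g ^ 3 = 1 := by rw [← hgo, pow_orderOf_eq_one]
    have hset : ({z, g * z * g⁻¹, g ^ 2 * z * (g ^ 2)⁻¹} : Set G) =
        {w | w ∈ E ∧ w ∈ Q ∧ w ≠ 1} := by
      refine Set.eq_of_subset_of_ncard_le ?_ ?_
      · intro w hw
        rcases hw with e | e | e
        · rw [e]; exact ⟨D.z_E, h.z_mem, h.z_ne⟩
        · rw [e]; exact ⟨hg2.1, hg2.2.1, hg2.2.2.1⟩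
        · rw [Set.mem_singleton_iff.1 e]; exact hw2
      · rw [D.ncard_W, Set.ncard_insert_of_notMem, Set.ncard_pair]
        · intro e
          refine hgz ?_
          rw [show g ^ 2 * z * (g ^ 2)⁻¹ = g * (g * z * g⁻¹) * g⁻¹ by simp only [pow_two]; group] at e
          exact (mul_left_cancel (mul_right_cancel e)).symm
        · simp only [Set.mem_insert_iff, Set.mem_singleton_iff, not_or]
          refine ⟨hgz.symm, fun e => hgz ?_⟩
          calc g * z * g⁻¹ = g * (g ^ 2 * z * (g ^ 2)⁻¹) * g⁻¹ := by rw [← e]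
            _ = g ^ 3 * z * (g ^ 3)⁻¹ := by simp only [pow_succ, pow_zero, one_mul]; group
            _ = z := by rw [hg3]; group
    obtain ⟨i, hi⟩ : ∃ i : ℕ, g ^ i * z * (g ^ i)⁻¹ = (n : G) * z * (n : G)⁻¹ := by
      have : (n : G) * z * (n : G)⁻¹ ∈ ({z, g * z * g⁻¹, g ^ 2 * z * (g ^ 2)⁻¹} : Set G) :=
        hset ▸ ⟨h1, h2, h3⟩
      rcases this with e | e | e
      · exact ⟨0, by rw [e]; simp⟩
      · exact ⟨1, by rw [e, pow_one]⟩
      · exact ⟨2, (Set.mem_singleton_iff.1 e).symm⟩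
    have hm : (g ^ i)⁻¹ * n ∈ E := by
      refine (D.mem_E _).2 ⟨conj_eq_self_iff.1 ?_, ?_⟩
      · calc (g ^ i)⁻¹ * n * z * ((g ^ i)⁻¹ * n)⁻¹
            = (g ^ i)⁻¹ * ((n : G) * z * (n : G)⁻¹) * g ^ i := by group
          _ = z := by rw [← hi]; group
      · exact (Commute.mul_left (Commute.inv_left (Commute.pow_left (show Commute g t from hgt) i))
          (show Commute (n : G) t from hnt)).eq
    calc (n : G) * f = g ^ i * ((g ^ i)⁻¹ * n * f) := by group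
      _ = g ^ i * (f * ((g ^ i)⁻¹ * n)) := by rw [D.comm_E hm hfE]
      _ = g ^ i * f * ((g ^ i)⁻¹ * n) := by group
      _ = f * g ^ i * ((g ^ i)⁻¹ * n) := by rw [hfg' i]
      _ = f * n := by group
  have hτF : ∀ f, ∀ hf : f ∈ F, ((τ ⟨f, hEX hf.1⟩ : ↥X) : G) = f := by
    intro f hf
    have hfP : (⟨f, hEX hf.1⟩ : ↥X) ∈ (P : Subgroup ↥X) := by rw [hP]; exact hf.1
    have hkey : ∀ (k : ℕ) (g₀ : ↥X), g₀⁻¹ * (⟨f, hEX hf.1⟩ : ↥X) ^ k * g₀ ∈ (P : Subgroup ↥X) →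
        g₀⁻¹ * (⟨f, hEX hf.1⟩ : ↥X) ^ k * g₀ = (⟨f, hEX hf.1⟩ : ↥X) ^ k := by
      intro k g₀ hk
      obtain ⟨n, hn, hne⟩ := P.conj_eq_normalizer_conj_of_mem _ g₀ (pow_mem hfP k) hk
      rw [hne]
      have h2 : Commute n (⟨f, hEX hf.1⟩ : ↥X) := Subtype.ext (hfixN f hf n hn)
      rw [mul_assoc, ← (h2.pow_right k).eq, inv_mul_cancel_left]
    rw [hτ, MonoidHom.transfer_eq_pow _ _ hkey, MonoidHom.id_apply]
    show f ^ (P : Subgroup ↥X).index = f
    obtain ⟨m, hm⟩ : Odd (P : Subgroup ↥X).index :=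
      Nat.not_even_iff_odd.1 fun he => P.not_dvd_index he.two_dvd
    rw [hm, pow_succ, pow_mul, sq, D.E_sq f hf.1, one_pow, one_mul]
  have hker : ∀ w ∈ ({z, u} : Set G), ∃ hw : w ∈ X, τ ⟨w, hw⟩ = 1 := by
    have hgX : g ∈ X := mem_cent_iff.2 hgt
    have hconj : ∀ y, ∀ hy : y ∈ X, τ (⟨g * y * g⁻¹, mul_mem (mul_mem hgX hy) (inv_mem hgX)⟩) =
        τ ⟨y, hy⟩ := by
      intro y hy
      rw [show (⟨g * y * g⁻¹, _⟩ : ↥X) = ⟨g, hgX⟩ * ⟨y, hy⟩ * ⟨g, hgX⟩⁻¹ from rfl, map_mul, map_mul,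
        map_inv, hPc.is_comm.comm (τ ⟨g, hgX⟩), mul_inv_cancel_right]
    have hzX := hEX D.z_E
    have hz1 : τ ⟨g * z * g⁻¹, mul_mem (mul_mem hgX hzX) (inv_mem hgX)⟩ = τ ⟨z, hzX⟩ := hconj z hzX
    have hz2 : τ ⟨g * (g * z * g⁻¹) * g⁻¹, mul_mem (mul_mem hgX (hEX hg2.1)) (inv_mem hgX)⟩ =
        τ ⟨z, hzX⟩ := (hconj _ (hEX hg2.1)).trans hz1
    have hprod : z * (g * z * g⁻¹) * (g * (g * z * g⁻¹) * g⁻¹) = 1 := by
      have hw := D.perm hgE hg2.1 hg2.2.1 hg2.2.2.1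
      have hzg : z * (g * z * g⁻¹) ∈ {w | w ∈ E ∧ w ∈ Q ∧ w ≠ 1} :=
        ⟨mul_mem D.z_E hg2.1, Q.mul_mem h.z_mem hg2.2.1, fun e => hgz (by
          rw [eq_inv_of_mul_eq_one_right e, inv_of_sq h.z_sq])⟩
      have hww : g * (g * z * g⁻¹) * g⁻¹ ∈ {w | w ∈ E ∧ w ∈ Q ∧ w ≠ 1} := ⟨hw.1, hw.2.1, hw.2.2.1⟩
      have hz' : z ∈ {w | w ∈ E ∧ w ∈ Q ∧ w ≠ 1} := ⟨D.z_E, h.z_mem, h.z_ne⟩
      have hg' : g * z * g⁻¹ ∈ {w | w ∈ E ∧ w ∈ Q ∧ w ≠ 1} := ⟨hg2.1, hg2.2.1, hg2.2.2.1⟩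
      have hne : g * (g * z * g⁻¹) * g⁻¹ ≠ g * z * g⁻¹ := fun e =>
        hgz (mul_left_cancel (mul_right_cancel e))
      have hne2 : g * (g * z * g⁻¹) * g⁻¹ ≠ z := fun e => hgz (by
        have hg3 : g ^ 3 = 1 := by rw [← hgo, pow_orderOf_eq_one]
        calc g * z * g⁻¹ = g * (g * (g * z * g⁻¹) * g⁻¹) * g⁻¹ := by rw [e]
          _ = g ^ 3 * z * (g ^ 3)⁻¹ := by simp only [pow_succ, pow_zero, one_mul]; group
          _ = z := by rw [hg3]; group)
      by_contra hne3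
      have hsub : ({z, g * z * g⁻¹, g * (g * z * g⁻¹) * g⁻¹, z * (g * z * g⁻¹)} : Set G) ⊆
          {w | w ∈ E ∧ w ∈ Q ∧ w ≠ 1} := by
        intro w hw
        rcases hw with e | e | e | e
        · rw [e]; exact hz'
        · rw [e]; exact hg'
        · rw [e]; exact hww
        · rw [Set.mem_singleton_iff.1 e]; exact hzg
      have := Set.ncard_le_ncard hsub (Set.toFinite _)
      rw [D.ncard_W, Set.ncard_insert_of_notMem, Set.ncard_insert_of_notMem, Set.ncard_pair] at this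
      · omega
      · intro e
        exact hne3 (by rw [← e, D.E_sq _ hw.1])
      · simp only [Set.mem_insert_iff, Set.mem_singleton_iff, not_or]
        exact ⟨hne.symm, fun e => h.z_ne (mul_eq_right.1 e.symm)⟩
      · simp only [Set.mem_insert_iff, Set.mem_singleton_iff, not_or]
        exact ⟨hgz.symm, hne2.symm, fun e => hg2.2.2.1 (mul_eq_left.1 e.symm)⟩
    have htz : τ ⟨z, hzX⟩ = 1 := by
      have h1 : τ (⟨z, hzX⟩ * ⟨g * z * g⁻¹, mul_mem (mul_mem hgX hzX) (inv_mem hgX)⟩ *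
          ⟨g * (g * z * g⁻¹) * g⁻¹, mul_mem (mul_mem hgX (hEX hg2.1)) (inv_mem hgX)⟩) = 1 := by
        rw [show (⟨z, hzX⟩ * ⟨g * z * g⁻¹, mul_mem (mul_mem hgX hzX) (inv_mem hgX)⟩ *
          ⟨g * (g * z * g⁻¹) * g⁻¹, mul_mem (mul_mem hgX (hEX hg2.1)) (inv_mem hgX)⟩ : ↥X) = 1 from
          Subtype.ext hprod, map_one]
      rw [map_mul, map_mul, hz1, hz2, hPsq, one_mul] at h1
      exact h1
    intro w hw
    rcases hw with e | e
    · rw [e]; exact ⟨hzX, htz⟩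
    · rw [Set.mem_singleton_iff.1 e]
      refine ⟨hEX D.u_E, ?_⟩
      have hW : u ∈ ({z, g * z * g⁻¹, g * (g * z * g⁻¹) * g⁻¹} : Set G) := by
        by_contra hu
        simp only [Set.mem_insert_iff, Set.mem_singleton_iff, not_or] at hu
        have hw := D.perm hgE hg2.1 hg2.2.1 hg2.2.2.1
        have hsub : ({z, g * z * g⁻¹, g * (g * z * g⁻¹) * g⁻¹, u} : Set G) ⊆
            {w | w ∈ E ∧ w ∈ Q ∧ w ≠ 1} := by
          intro v hv
          rcases hv with e | e | e | e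
          · rw [e]; exact ⟨D.z_E, h.z_mem, h.z_ne⟩
          · rw [e]; exact ⟨hg2.1, hg2.2.1, hg2.2.2.1⟩
          · rw [e]; exact ⟨hw.1, hw.2.1, hw.2.2.1⟩
          · rw [Set.mem_singleton_iff.1 e]; exact ⟨D.u_E, D.u_mem.1, D.u_mem.2.2.1⟩
        have hle := Set.ncard_le_ncard hsub (Set.toFinite _)
        rw [D.ncard_W, Set.ncard_insert_of_notMem, Set.ncard_insert_of_notMem, Set.ncard_pair] at hle
        · omega
        · exact Ne.symm hu.2.2
        · simp only [Set.mem_insert_iff, Set.mem_singleton_iff, not_or]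
          exact ⟨fun e => hgz (mul_left_cancel (mul_right_cancel e.symm)), Ne.symm hu.2.1⟩
        · simp only [Set.mem_insert_iff, Set.mem_singleton_iff, not_or]
          refine ⟨hgz.symm, fun e => hgz ?_, Ne.symm hu.1⟩
          have hg3 : g ^ 3 = 1 := by rw [← hgo, pow_orderOf_eq_one]
          calc g * z * g⁻¹ = g * (g * (g * z * g⁻¹) * g⁻¹) * g⁻¹ := by rw [← e]
            _ = g ^ 3 * z * (g ^ 3)⁻¹ := by simp only [pow_succ, pow_zero, one_mul]; group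
            _ = z := by rw [hg3]; group
      rcases hW with e | e | e
      · exact absurd e D.u_mem.2.2.2
      · rw [show (⟨u, hEX D.u_E⟩ : ↥X) = ⟨g * z * g⁻¹, mul_mem (mul_mem hgX hzX) (inv_mem hgX)⟩
          from Subtype.ext e, hz1, htz]
      · rw [show (⟨u, hEX D.u_E⟩ : ↥X) =
          ⟨g * (g * z * g⁻¹) * g⁻¹, mul_mem (mul_mem hgX (hEX hg2.1)) (inv_mem hgX)⟩
          from Subtype.ext (Set.mem_singleton_iff.1 e), hz2, htz]
  set X0 := τ.ker.map X.subtype with hX0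
  have hmem0 : ∀ x, x ∈ X0 ↔ ∃ hx : x ∈ X, τ ⟨x, hx⟩ = 1 := by
    intro x
    constructor
    · rintro ⟨a, ha, rfl⟩; exact ⟨a.2, ha⟩
    · rintro ⟨hx, e⟩; exact ⟨⟨x, hx⟩, e, rfl⟩
  have hz0 : z ∈ X0 := (hmem0 z).2 (hker z (Or.inl rfl))
  have hu0 : u ∈ X0 := (hmem0 u).2 (hker u (Or.inr rfl))
  have hindep : ∀ x ∈ F, x ∈ X0 → x = 1 := by
    intro x hx hx0
    obtain ⟨hxX, e⟩ := (hmem0 x).1 hx0
    have := hτF x hx
    rw [e] at this
    exact this.symm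
  have hgX0 : g ∈ X0 := by
    refine (hmem0 g).2 ⟨mem_cent_iff.2 hgt, ?_⟩
    have h3 : τ ⟨g, mem_cent_iff.2 hgt⟩ ^ 3 = 1 := by
      rw [← map_pow, show (⟨g, mem_cent_iff.2 hgt⟩ : ↥X) ^ 3 = 1 from Subtype.ext (by
        show g ^ 3 = 1
        rw [← hgo, pow_orderOf_eq_one]), map_one]
    rw [pow_succ, pow_two, hPsq, one_mul] at h3
    exact h3
  have hnorm0 : ∀ x, x * t = t * x → ∀ y ∈ X0, x * y * x⁻¹ ∈ X0 := by
    intro x hx y hy
    obtain ⟨hyX, e⟩ := (hmem0 y).1 hy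
    refine ⟨⟨x, mem_cent_iff.2 hx⟩ * ⟨y, hyX⟩ * ⟨x, mem_cent_iff.2 hx⟩⁻¹, ?_, rfl⟩
    exact (MonoidHom.normal_ker τ).conj_mem _ e _
  -- orders
  set W := E ⊓ X0 with hW
  have hWQ : ∀ w ∈ W, w ∈ Q ∧ w * w = 1 := by
    have hcardle : Nat.card W ≤ 4 := by
      have hinj : Nat.card (↥W × ↥F) ≤ Nat.card E := by
        refine Nat.card_le_card_of_injective
          (fun p : ↥W × ↥F => (⟨(p.1 : G) * p.2, mul_mem p.1.2.1 p.2.2.1⟩ : ↥E)) ?_
        rintro ⟨a, b⟩ ⟨c, d⟩ e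
        have e' : (a : G) * b = c * d := congrArg Subtype.val e
        have h1 : (c : G)⁻¹ * a = d * (b : G)⁻¹ := by
          calc (c : G)⁻¹ * a = (c : G)⁻¹ * (a * b) * (b : G)⁻¹ := by group
            _ = d * (b : G)⁻¹ := by rw [e']; group
        have h2 : (c : G)⁻¹ * a = 1 := hindep _ (h1 ▸ mul_mem d.2 (inv_mem b.2))
          (mul_mem (inv_mem c.2.2) a.2.2)
        have hac : (a : G) = c := (inv_mul_eq_one.1 h2).symm
        rw [h2] at h1
        exact Prod.ext (Subtype.ext hac) (Subtype.ext (mul_inv_eq_one.1 h1.symm).symm)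
      rw [Nat.card_prod, hF4, D.card_E] at hinj
      omega
    have hsub : ({1, z, u, z * u} : Set G) ⊆ (W : Set G) := by
      intro w hw
      rcases hw with e | e | e | e
      · rw [e]; exact W.one_mem
      · rw [e]; exact ⟨D.z_E, hz0⟩
      · rw [e]; exact ⟨D.u_E, hu0⟩
      · rw [Set.mem_singleton_iff.1 e]; exact ⟨mul_mem D.z_E D.u_E, mul_mem hz0 hu0⟩
    have h4 : ({1, z, u, z * u} : Set G).ncard = 4 := by
      rw [Set.ncard_insert_of_notMem (by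
        intro h1
        have : (1 : G) ∈ {w | w ∈ E ∧ w ∈ Q ∧ w ≠ 1} := D.W_set ▸ h1
        exact this.2.2 rfl), ← D.W_set, D.ncard_W]
    have heq := Set.eq_of_subset_of_ncard_le hsub (by
      rw [h4, ← Nat.card_coe_set_eq (W : Set G), SetLike.coe_sort_coe]; exact hcardle)
    intro w hw
    refine ⟨?_, D.E_sq w hw.1⟩
    have : w ∈ ({1, z, u, z * u} : Set G) := heq ▸ hw
    rcases this with e | e | e | e
    · rw [e]; exact Q.one_mem
    · rw [e]; exact h.z_mem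
    · rw [e]; exact D.u_mem.1
    · rw [Set.mem_singleton_iff.1 e]; exact Q.mul_mem h.z_mem D.u_mem.1
  have hWcard : Nat.card W = 4 := by
    refine le_antisymm ?_ ?_
    · have hle : (W : Set G) ⊆ insert 1 {w | w ∈ E ∧ w ∈ Q ∧ w ≠ 1} := fun w hw => by
        by_cases hw1 : w = 1
        · exact Or.inl hw1
        · exact Or.inr ⟨hw.1, (hWQ w hw).1, hw1⟩
      have := (Set.ncard_le_ncard hle (Set.toFinite _)).trans (Set.ncard_insert_le _ _)
      rwa [D.ncard_W, ← Nat.card_coe_set_eq, SetLike.coe_sort_coe] at this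
    · have hsub : insert 1 {w | w ∈ E ∧ w ∈ Q ∧ w ≠ 1} ⊆ (W : Set G) := by
        rw [D.W_set]
        intro w hw
        rcases hw with e | e | e | e
        · rw [e]; exact W.one_mem
        · rw [e]; exact ⟨D.z_E, hz0⟩
        · rw [e]; exact ⟨D.u_E, hu0⟩
        · rw [Set.mem_singleton_iff.1 e]; exact ⟨mul_mem D.z_E D.u_E, mul_mem hz0 hu0⟩
      have := Set.ncard_le_ncard hsub
      rwa [Set.ncard_insert_of_notMem (fun hh => hh.2.2 rfl), D.ncard_W,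
        ← Nat.card_coe_set_eq (W : Set G), SetLike.coe_sort_coe] at this
  have hrange : Nat.card τ.range = 4 := by
    refine le_antisymm ?_ ?_
    · have h1 := τ.ker.card_mul_index
      rw [Subgroup.index_ker] at h1
      have h4 : 4 ∣ Nat.card τ.ker := by
        rw [← hWcard, ← Subgroup.card_map_of_injective (K := τ.ker) X.subtype_injective]
        exact Subgroup.card_dvd_of_le inf_le_right
      have hPcard : Nat.card (P : Subgroup ↥X) = 16 := by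
        rw [hP, Nat.card_congr (Subgroup.subgroupOfEquivOfLe hEX).toEquiv, D.card_E]
      obtain ⟨i, hi, he⟩ := (Nat.dvd_prime_pow Nat.prime_two).1
        (show Nat.card τ.range ∣ 2 ^ 4 by
          rw [show (2 : ℕ) ^ 4 = Nat.card (P : Subgroup ↥X) by rw [hPcard]; rfl]
          exact Subgroup.card_subgroup_dvd_card _)
      rw [he]
      by_contra hcon
      have hi3 : 3 ≤ i := by
        by_contra hi2
        exact hcon (by interval_cases i <;> norm_num)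
      have h5 : 2 ^ 5 ∣ Nat.card ↥X := by
        rw [← h1, he, show (2 : ℕ) ^ 5 = 4 * 2 ^ 3 by norm_num]
        exact Nat.mul_dvd_mul h4 (pow_dvd_pow 2 hi3)
      have := P.pow_dvd_card_of_pow_dvd_card h5
      rw [hPcard] at this
      norm_num at this
    · rw [← hF4]
      refine Nat.card_le_card_of_injective
        (fun f : ↥F => (⟨τ ⟨f, hEX f.2.1⟩, ⟨_, rfl⟩⟩ : ↥τ.range)) ?_
      intro a b e
      have e' := congrArg (fun p : ↥τ.range => (((p : ↥(P : Subgroup ↥X)) : ↥X) : G)) e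
      simp only [hτF a a.2, hτF b b.2] at e'
      exact Subtype.ext e'
  have hdec : ∀ x, x * t = t * x → ∃ f ∈ F, ∃ y ∈ X0, x = f * y := by
    intro x hx
    let φ : ↥F → ↥τ.range := fun f => ⟨τ ⟨f, hEX f.2.1⟩, ⟨_, rfl⟩⟩
    have hφ : Function.Injective φ := by
      intro a b e
      have e' := congrArg (fun p : ↥τ.range => (((p : ↥(P : Subgroup ↥X)) : ↥X) : G)) e
      simp only [φ, hτF a a.2, hτF b b.2] at e'
      exact Subtype.ext e'
    obtain ⟨f, hf⟩ := ((Nat.bijective_iff_injective_and_card φ).2 ⟨hφ, by rw [hrange, hF4]⟩).2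
      ⟨τ ⟨x, mem_cent_iff.2 hx⟩, ⟨_, rfl⟩⟩
    have hf' : τ ⟨f, hEX f.2.1⟩ = τ ⟨x, mem_cent_iff.2 hx⟩ := congrArg Subtype.val hf
    refine ⟨f, f.2, (f : G)⁻¹ * x, (hmem0 _).2 ⟨mul_mem (inv_mem (hEX f.2.1)) (mem_cent_iff.2 hx), ?_⟩,
      by group⟩
    rw [show (⟨(f : G)⁻¹ * x, _⟩ : ↥X) = ⟨f, hEX f.2.1⟩⁻¹ * ⟨x, mem_cent_iff.2 hx⟩ from rfl,
      map_mul, map_inv, hf', inv_mul_cancel]
  have h0t : ∀ x ∈ X0, x * t = t * x := fun x hx => mem_cent_iff.1 ((hmem0 x).1 hx).1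
  have hcentW : ∀ w ∈ W, w ≠ 1 → ∀ y ∈ X0, y * w = w * y → y ∈ W := fun w hw hw1 y hy hyw =>
    ⟨D.mem_E_of_comm hw.1 (D.conj_of_mem (hWQ w hw).2 hw1 (hWQ w hw).1) hyw (h0t y hy), hy⟩
  have hgW : g ∉ W := fun hgW => hgz (conj_eq_self_iff.2 (D.comm_E hgW.1 D.z_E))
  have hiso : Nonempty (↥X0 ≃* A5) := by
    rcases klein_cases (W.subgroupOf X0)
      (by rw [Nat.card_congr (Subgroup.subgroupOfEquivOfLe inf_le_right).toEquiv, hWcard])
      (fun w hw => Subtype.ext ((hWQ _ hw).2))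
      (fun w hw hw1 y e => hcentW _ hw (fun e' => hw1 (Subtype.ext e')) y y.2 (congrArg Subtype.val e))
      (n := ⟨g, hgX0⟩) (fun w hw => ⟨hgE _ hw.1, hnorm0 g hgt _ hw.2⟩) hgW with ⟨-, hnorm⟩ | e
    · exfalso
      refine D.not_normal fun x hx e he => ?_
      obtain ⟨f, hf, y, hy, rfl⟩ := hdec x hx
      have hyW : y * z * y⁻¹ ∈ W := hnorm ⟨y, hy⟩ ⟨z, hz0⟩ ⟨D.z_E, hz0⟩
      have hye : y * e * y⁻¹ ∈ E := by
        refine D.mem_E_of_comm hyW.1 (isConj_iff.2 ⟨y, rfl⟩) ?_ ?_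
        · calc y * e * y⁻¹ * (y * z * y⁻¹) = y * (e * z) * y⁻¹ := by group
            _ = y * (z * e) * y⁻¹ := by rw [D.comm_E he D.z_E]
            _ = _ := by group
        · exact ((Commute.mul_left (Commute.mul_left (show Commute y t from h0t y hy)
            (show Commute e t from ((D.mem_E e).1 he).2))
            (Commute.inv_left (show Commute y t from h0t y hy)))).eq
      rw [show f * y * e * (f * y)⁻¹ = f * (y * e * y⁻¹) * f⁻¹ by group]
      exact mul_mem (mul_mem hf.1 hye) (inv_mem hf.1)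
    · exact e
  refine ⟨X0, F, g, inf_le_left, hF4, htF, hgX0, hgo, hz0, hu0, h0t, hnorm0, hiso, ?_, hdec, hindep,
    hgE, hgz⟩
  intro f hf y hy
  obtain ⟨e⟩ := hiso
  obtain ⟨hfE, hfg⟩ := (hmemF f).1 hf
  have hft := ((D.mem_E f).1 hfE).2
  have hft' : f⁻¹ * t = t * f⁻¹ := (Commute.inv_left (show Commute f t from hft)).eq
  let φ : ↥X0 ≃* ↥X0 :=
    { toFun := fun x => ⟨f * x * f⁻¹, hnorm0 f hft x x.2⟩
      invFun := fun x => ⟨f⁻¹ * x * f⁻¹⁻¹, hnorm0 f⁻¹ hft' x x.2⟩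
      left_inv := fun x => Subtype.ext (by group)
      right_inv := fun x => Subtype.ext (by group)
      map_mul' := fun a b => Subtype.ext (by
        show f * ((a : G) * b) * f⁻¹ = f * a * f⁻¹ * (f * b * f⁻¹)
        group) }
  have hg3 : g ^ 3 = 1 := by rw [← hgo, pow_orderOf_eq_one]
  have key := eq_self_of_fixed e φ (r := ⟨g, hgX0⟩) (w := ⟨z, hz0⟩) (Subtype.ext hg3)
    (fun e' => by rw [show g = 1 from congrArg Subtype.val e', orderOf_one] at hgo; omega)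
    (Subtype.ext h.z_sq) (fun e' => h.z_ne (congrArg Subtype.val e'))
    (Subtype.ext (D.comm_E D.z_E hg2.1))
    (Subtype.ext (conj_eq_self_iff.2 hfg)) (Subtype.ext (conj_eq_self_iff.2 (D.comm_E hfE D.z_E)))
    ⟨y, hy⟩
  exact conj_eq_self_iff.1 (congrArg Subtype.val key)

end Data

end CfsgLib.J2Type
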