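import Cfsg.Agent.J2Type.Util
import Cfsg.Agent.J2Type.Alt5
import Cfsg.Agent.S3277
import Cfsg.Agent.LargeExtraspecial.FourGroup
import Cfsg.Agent.LargeExtraspecial.Basic
import Cfsg.Agent.Transfer.NormalPComplement

/-!
A group with a four group that contains the centralizer of each of its involutions and is not
self-normalizing has order twelve or is the alternating group of degree five.
-/

set_option autoImplicit false

namespace CfsgLib.J2Type

variable {Y : Type*} [Group Y] [Finite Y]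

/-- A fixed-point-free four group acts only on the trivial group of odd order. -/
theorem odd_eq_bot {z b : Y} (hz : z * z = 1) (hb : b * b = 1) (hzb : z * b = b * z)
    {K : Subgroup Y} (hK : Odd (Nat.card K)) (hzK : ∀ k ∈ K, z * k * z⁻¹ ∈ K)
    (hbK : ∀ k ∈ K, b * k * b⁻¹ ∈ K) (h0 : ∀ k ∈ K, k * z = z * k → k = 1)
    (h1 : ∀ k ∈ K, k * b = b * k → k = 1) (h2 : ∀ k ∈ K, k * (b * z) = b * z * k → k = 1) :
    K = ⊥ := by
  have hzi := inv_of_sq hz
  have hbi := inv_of_sq hb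
  have hall := LargeExtraspecial.commute_of_four_group hz hb hzb hK
    (fun k hk => by rw [show z * k * z = z * k * z⁻¹ by rw [hzi]]; exact hzK k hk)
    (fun k hk => by rw [show b * k * b = b * k * b⁻¹ by rw [hbi]]; exact hbK k hk)
    (fun k hk e => by
      rw [h1 k hk (conj_eq_self_iff.1 (show b * k * b⁻¹ = k by rw [hbi]; exact e)).symm, mul_one, hz])
    (fun k hk e => by
      rw [h2 k hk (conj_eq_self_iff.1 (show b * z * k * (b * z)⁻¹ = k by
        rw [mul_inv_rev, hzi, hbi]; exact e)).symm, mul_one, hz])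
  rw [Subgroup.eq_bot_iff_forall]
  intro k hk
  refine h0 k hk (conj_eq_self_iff.1 (show z * k * z⁻¹ = k by rw [hzi]; exact hall k hk)).symm

/-- A Klein four group is named by two of its involutions. -/
theorem exists_pair_of_four (W : Subgroup Y) (hW4 : Nat.card W = 4) :
    ∃ a b, a ∈ W ∧ b ∈ W ∧ a ≠ 1 ∧ b ≠ 1 ∧ a ≠ b := by
  by_contra hcon
  push Not at hcon
  have h : ∃ a : Y, (W : Set Y) ⊆ {1, a} := by
    by_cases h : ∃ a ∈ W, a ≠ 1
    · obtain ⟨a, ha, ha1⟩ := h
      refine ⟨a, fun x hx => ?_⟩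
      by_cases hx1 : x = 1
      · exact Or.inl hx1
      · exact Or.inr (hcon a x ha hx ha1 hx1).symm
    · push Not at h
      exact ⟨1, fun x hx => Or.inl (h x hx)⟩
  obtain ⟨a, ha⟩ := h
  have h1 := (Set.ncard_le_ncard ha (Set.toFinite _)).trans (Set.ncard_insert_le _ _)
  rw [Set.ncard_singleton, ← Nat.card_coe_set_eq, SetLike.coe_sort_coe, hW4] at h1
  omega

theorem sylow_of_cent (W : Subgroup Y) (hW4 : Nat.card W = 4)
    (hcent : ∀ w ∈ W, w ≠ 1 → ∀ y, y * w = w * y → y ∈ W) :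
    ∃ P : Sylow 2 Y, (P : Subgroup Y) = W := by
  haveI : Fact (Nat.Prime 2) := ⟨Nat.prime_two⟩
  obtain ⟨P, hP⟩ := (IsPGroup.of_card (p := 2) (n := 2) (show Nat.card W = 2 ^ 2 by
    rw [hW4]; rfl)).exists_le_sylow
  refine ⟨P, le_antisymm ?_ hP⟩
  obtain ⟨a, -, ha, -, ha1, -⟩ := exists_pair_of_four W hW4
  have hne : (P : Subgroup Y) ≠ ⊥ := fun e => ha1 (by simpa [e] using hP ha)
  haveI : Nontrivial ↥(P : Subgroup Y) := (Subgroup.nontrivial_iff_ne_bot _).2 hne
  haveI := P.isPGroup'.center_nontrivial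
  obtain ⟨c, hc⟩ := exists_ne (1 : Subgroup.center ↥(P : Subgroup Y))
  have hc' : ∀ x ∈ (P : Subgroup Y), x * ((c : ↥(P : Subgroup Y)) : Y) = (c : ↥(P : Subgroup Y)) * x :=
    fun x hx => congrArg Subtype.val (Subgroup.mem_center_iff.1 c.2 ⟨x, hx⟩)
  have hcW : ((c : ↥(P : Subgroup Y)) : Y) ∈ W := hcent a ha ha1 _ (hc' a (hP ha)).symm
  intro x hx
  exact hcent _ hcW (fun e => hc (Subtype.ext (Subtype.ext e))) x (hc' x hx)

theorem klein_cases (W : Subgroup Y) (hW4 : Nat.card W = 4) (hsq : ∀ w ∈ W, w * w = 1)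
    (hcent : ∀ w ∈ W, w ≠ 1 → ∀ y, y * w = w * y → y ∈ W)
    {n : Y} (hn : ∀ w ∈ W, n * w * n⁻¹ ∈ W) (hnW : n ∉ W) :
    (Nat.card Y = 12 ∧ ∀ y, ∀ w ∈ W, y * w * y⁻¹ ∈ W) ∨ Nonempty (Y ≃* A5) := by
  haveI : Fact (Nat.Prime 2) := ⟨Nat.prime_two⟩
  obtain ⟨P, hP⟩ := sylow_of_cent W hW4 hcent
  obtain ⟨a, b, ha, hb, ha1, hb1, hab⟩ := exists_pair_of_four W hW4
  have hcomm : ∀ x ∈ W, ∀ y ∈ W, x * y = y * x := fun x hx y hy => by
    calc x * y = (x * y)⁻¹ := (inv_of_sq (hsq _ (mul_mem hx hy))).symm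
      _ = y * x := by rw [mul_inv_rev, inv_of_sq (hsq x hx), inv_of_sq (hsq y hy)]
  have hCa : Subgroup.centralizer ({a} : Set Y) = W := le_antisymm
    (fun y hy => hcent a ha ha1 y (mem_cent_iff.1 hy))
    (fun y hy => mem_cent_iff.2 (hcomm y hy a ha))
  by_cases hnorm : ∀ y, ∀ w ∈ W, y * w * y⁻¹ ∈ W
  · refine Or.inl ⟨?_, hnorm⟩
    have horb := conj_orbit_card_mul (⊤ : Subgroup Y) a
    rw [top_inf_eq, hCa, hW4, Subgroup.card_top] at horb
    have hsub : {x : Y | ∃ y ∈ (⊤ : Subgroup Y), y * a * y⁻¹ = x} ⊆ (W : Set Y) \ {1} := by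
      rintro x ⟨y, -, rfl⟩
      exact ⟨hnorm y a ha, conj_ne_one ha1⟩
    have hle := Set.ncard_le_ncard hsub
    rw [Set.ncard_diff_singleton_of_mem W.one_mem, ← Nat.card_coe_set_eq (W : Set Y), SetLike.coe_sort_coe,
      hW4] at hle
    have h2 : 2 ≤ {x : Y | ∃ y ∈ (⊤ : Subgroup Y), y * a * y⁻¹ = x}.ncard := by
      refine (Set.one_lt_ncard (Set.toFinite _)).2 ⟨a, ⟨1, Subgroup.mem_top _, by simp⟩,
        n * a * n⁻¹, ⟨n, Subgroup.mem_top _, rfl⟩, fun e => hnW ?_⟩
      exact hcent a ha ha1 n (conj_eq_self_iff.1 e.symm)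
    have hodd : ¬ 2 ∣ W.index := hP ▸ P.not_dvd_index
    have hidx := W.card_mul_index
    rw [hW4] at hidx
    omega
  refine Or.inr (Cfsg.Agent.S3277.result a (orderOf_two_iff.2 ⟨hsq a ha, ha1⟩)
    (by rw [hCa, hW4]) (fun c hc => by rw [hCa] at hc; rw [sq]; exact hsq c hc) ?_ ?_)
  · rintro ⟨P', N, hN, hcompl⟩
    apply hnorm
    have hNodd : Odd (Nat.card N) := by
      rw [← hcompl.index_eq_card]
      exact Nat.not_even_iff_odd.1 fun he => P'.not_dvd_index he.two_dvd
    have hfix : ∀ w ∈ W, w ≠ 1 → ∀ k ∈ N, k * w = w * k → k = 1 := by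
      intro w hw hw1 k hk hkw
      have hkW := hcent w hw hw1 k hkw
      by_contra hk1
      have h2 : orderOf k = 2 := orderOf_two_iff.2 ⟨hsq k hkW, hk1⟩
      have := Subgroup.orderOf_dvd_natCard N hk
      rw [h2] at this
      exact Nat.not_even_iff_odd.2 hNodd (even_iff_two_dvd.2 this)
    have hbot := odd_eq_bot (hsq a ha) (hsq b hb) (hcomm a ha b hb) hNodd
      (fun k hk => hN.conj_mem k hk a) (fun k hk => hN.conj_mem k hk b) (hfix a ha ha1)
      (hfix b hb hb1) (hfix _ (mul_mem hb ha) fun e => hab (by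
        rw [← inv_of_sq (hsq a ha), ← eq_inv_of_mul_eq_one_left e]))
    have htop : W = ⊤ := by
      rw [← hP]
      refine Subgroup.eq_top_of_card_eq _ ?_
      have h1 := hcompl.card_mul
      rw [hbot, Subgroup.card_bot, one_mul] at h1
      rw [← h1, P.card_eq_multiplicity, P'.card_eq_multiplicity]
    intro y w _
    rw [htop]; exact Subgroup.mem_top _
  · intro M hM hMel
    constructor
    · intro hM2
      obtain ⟨m, hm⟩ := exists_prime_orderOf_dvd_card' (G := ↥M) 2 (by rw [hM2])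
      have hm1 : (m : Y) ≠ 1 := fun e => by
        rw [← Subgroup.orderOf_coe, e, orderOf_one] at hm; omega
      have hMP : M ≤ W := hP ▸ LargeExtraspecial.normal_pSubgroup_le_sylow
        (IsPGroup.of_card (p := 2) (n := 1) (by rw [hM2]; rfl)) P
      have hcen : ∀ y : Y, y * m = m * y := by
        intro y
        have h1 := hM.conj_mem m m.2 y
        obtain ⟨p, q, -, huniv⟩ := Nat.card_eq_two_iff.1 hM2
        have h2 : ∀ s : ↥M, s = p ∨ s = q := fun s => by
          have : s ∈ ({p, q} : Set ↥M) := huniv ▸ Set.mem_univ s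
          simpa using this
        refine conj_eq_self_iff.1 ?_
        rcases h2 ⟨_, h1⟩ with e1 | e1 <;> rcases h2 m with e2 | e2 <;> rcases h2 1 with e3 | e3
        all_goals first
          | exact congrArg Subtype.val (e1.trans e2.symm)
          | exact absurd (congrArg Subtype.val (e2.trans e3.symm)) hm1
          | exact absurd (congrArg Subtype.val (e1.trans e3.symm)) (conj_ne_one hm1)
      apply hnorm
      intro y w _
      exact hcent m (hMP m.2) hm1 _ (hcen _)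
    · intro hM4
      have hMP : M ≤ W := hP ▸ LargeExtraspecial.normal_pSubgroup_le_sylow
        (IsPGroup.of_card (p := 2) (n := 2) (by rw [hM4]; rfl)) P
      have e := Subgroup.eq_of_le_of_card_ge hMP (by rw [hM4, hW4])
      exact hnorm fun y w hw => e ▸ hM.conj_mem w (e ▸ hw) y

end CfsgLib.J2Type
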