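import Cfsg.Agent.J2Type.Counts
import Cfsg.Agent.J2Type.Klein
import Cfsg.Agent.BaerSuzuki.Classes

/-!
The centralizer of `t`: `E` is a Sylow subgroup of it and is not normal in it.
-/

set_option autoImplicit false

namespace CfsgLib.J2Type

variable {G : Type*} [Group G] [Finite G]

namespace Data

variable {z u t r : G} {Q E : Subgroup G} {img : G → A5} (D : Data z u t r Q E img)
include D

/-- The involutions of `E ∩ Q`. -/
theorem W_set : {w | w ∈ E ∧ w ∈ Q ∧ w ≠ 1} = {z, u, z * u} := by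
  ext w
  constructor
  · rintro ⟨hw, hwQ, hw1⟩
    rcases D.E_Q w hw hwQ with e | e | e | e
    · exact absurd e hw1
    · exact Or.inl e
    · exact Or.inr (Or.inl e)
    · exact Or.inr (Or.inr e)
  · rintro (e | e | e)
    · rw [e]; exact ⟨D.z_E, D.setup.z_mem, D.setup.z_ne⟩
    · rw [e]; exact ⟨D.u_E, D.u_mem.1, D.u_mem.2.2.1⟩
    · rw [Set.mem_singleton_iff.1 e]
      exact ⟨mul_mem D.z_E D.u_E, Q.mul_mem D.setup.z_mem D.u_mem.1,
        (D.setup.zmul_noncentral D.u_mem).2.2.1⟩

theorem ncard_W : {w | w ∈ E ∧ w ∈ Q ∧ w ≠ 1}.ncard = 3 := by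
  rw [D.W_set, Set.ncard_insert_of_notMem, Set.ncard_pair]
  · exact fun e => D.setup.z_ne (mul_eq_right.1 e.symm)
  · simp only [Set.mem_insert_iff, Set.mem_singleton_iff, not_or]
    exact ⟨D.u_mem.2.2.2.symm, fun e => D.u_mem.2.2.1 (mul_eq_left.1 e.symm)⟩

theorem mem_E_of_two {n : G} {k : ℕ} (hk : orderOf n = 2 ^ k) (hnt : n * t = t * n)
    (hn : ∀ x ∈ E, n * x * n⁻¹ ∈ E) : n ∈ E := by
  haveI : Fact (Nat.Prime 2) := ⟨Nat.prime_two⟩
  have hmod := ncard_modEq_fixed hk {w | w ∈ E ∧ w ∈ Q ∧ w ≠ 1} fun w hw => by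
    obtain ⟨h1, h2, h3, -⟩ := D.perm hn hw.1 hw.2.1 hw.2.2
    exact ⟨h1, h2, h3⟩
  rw [D.ncard_W] at hmod
  have hne : {x | x ∈ {w | w ∈ E ∧ w ∈ Q ∧ w ≠ 1} ∧ n * x = x * n}.ncard ≠ 0 := fun e => by
    rw [e] at hmod; simp [Nat.ModEq] at hmod
  obtain ⟨w, ⟨hwE, hwQ, hw1⟩, hc⟩ := Set.nonempty_of_ncard_ne_zero hne
  exact D.mem_E_of_comm hwE (D.conj_of_mem (D.E_sq w hwE) hw1 hwQ) hc hnt

/-- `E` is a Sylow subgroup of `C(t)`. -/
theorem exists_sylow : ∃ P : Sylow 2 ↥(Subgroup.centralizer ({t} : Set G)),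
    (P : Subgroup ↥(Subgroup.centralizer ({t} : Set G))) =
      E.subgroupOf (Subgroup.centralizer ({t} : Set G)) := by
  haveI : Fact (Nat.Prime 2) := ⟨Nat.prime_two⟩
  have hE : IsPGroup 2 ↥E := IsPGroup.of_card (n := 4) (by rw [D.card_E]; norm_num)
  set X := Subgroup.centralizer ({t} : Set G) with hX
  obtain ⟨P, hP⟩ := (hE.comap_subtype (K := X)).exists_le_sylow
  refine ⟨P, le_antisymm ?_ hP⟩
  set EP := (E.subgroupOf X).subgroupOf (P : Subgroup ↥X) with hEP
  haveI := P.isPGroup'.isNilpotent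
  by_contra hne
  have hlt : EP < ⊤ := lt_top_iff_ne_top.2 fun e => hne fun x hx => by
    have : (⟨x, hx⟩ : ↥(P : Subgroup ↥X)) ∈ EP := e ▸ Subgroup.mem_top _
    exact this
  have hnc : NormalizerCondition ↥(P : Subgroup ↥X) := Group.normalizerCondition_of_isNilpotent
  obtain ⟨x, hxN, hx⟩ := SetLike.exists_of_lt (hnc EP hlt)
  apply hx
  obtain ⟨k, hk⟩ := IsPGroup.iff_orderOf.1 P.isPGroup' x
  refine D.mem_E_of_two (k := k) ?_ (mem_cent_iff.1 (x : ↥X).2) ?_
  · rw [← hk]; exact (Subgroup.orderOf_coe _).trans (Subgroup.orderOf_coe _)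
  · intro e he
    have heX : e ∈ X := mem_cent_iff.2 ((D.mem_E e).1 he).2
    have h1 := (Subgroup.mem_normalizer_iff.1 hxN ⟨⟨e, heX⟩, hP he⟩).1 he
    exact h1

theorem five_cent {s w : G} (hs : s * z = z * s) (hso : orderOf s = 5) (hw : w * z = z * w)
    (hww : w * w = 1) (hw1 : w ≠ 1) (hc : s * w = w * s) : w = z := by
  have hwQ : w ∈ Q := by
    refine (D.setup.ker w hw).1 ?_
    have h5 : img s ^ 5 = 1 := by
      have hs5 : s ^ 5 = 1 := orderOf_dvd_iff_pow_eq_one.1 (dvd_of_eq hso)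
      rw [← D.setup.img_pow hs, hs5, D.setup.img_one]
    have h1 : img s ≠ 1 := fun e => by
      have hsQ := (D.setup.ker s hs).1 e
      have := orderOf_dvd_of_pow_eq_one (D.setup.pow_four hsQ)
      rw [hso] at this
      norm_num at this
    set K := Subgroup.centralizer ({img s} : Set A5) with hK
    have hK5 : Nat.card K = 5 := by
      haveI := Fintype.ofFinite ↥K
      classical
      refine Eq.trans ?_ (A5Facts.cent_five _ h5 h1)
      rw [Nat.card_eq_fintype_card, Fintype.card_subtype]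
      exact congrArg Finset.card (Finset.ext fun x => by simp [hK, mem_cent_iff])
    have hwK : img w ∈ K := mem_cent_iff.2 (by rw [← D.setup.mul _ _ hw hs, ← hc, D.setup.mul _ _ hs hw])
    have h2 := pow_card_eq_one' (x := (⟨img w, hwK⟩ : ↥K))
    rw [hK5] at h2
    have h3 : img w ^ 5 = 1 := congrArg Subtype.val h2
    have h4 : img w * img w = 1 := by rw [← D.setup.mul _ _ hw hw, hww, D.setup.img_one]
    calc img w = img w ^ 5 * ((img w * img w) * (img w * img w))⁻¹ := by group
      _ = 1 := by rw [h3, h4]; simp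
  exact (D.setup.five_fixed hs hso w hwQ hc).resolve_left hw1

theorem order_formula :
    Nat.card G = Nat.card (Subgroup.centralizer ({t} : Set G)) * 960 + 1920 *
      Nat.card {p : G × G // IsConj z p.1 ∧ IsConj t p.2 ∧ t ∈ Subgroup.zpowers (p.1 * p.2)} := by
  rw [BaerSuzuki.order_formula D.z_ord D.t_ord D.nc fun x hx => D.hall hx, D.count_z,
    D.setup.card_cent]

theorem class_card :
    {x : G | IsConj z x}.ncard * 1920 = Nat.card G := by
  have h1 := conj_orbit_card_mul (⊤ : Subgroup G) z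
  rw [top_inf_eq, D.setup.card_cent, Subgroup.card_top] at h1
  rw [← h1]
  congr 2
  ext x
  simp [isConj_iff]

/-- `E` is not normal in `C(t)`. -/
theorem not_normal : ¬ ∀ x, x * t = t * x → ∀ e ∈ E, x * e * x⁻¹ ∈ E := by
  classical
  haveI : Fact (Nat.Prime 2) := ⟨Nat.prime_two⟩
  haveI : Fact (Nat.Prime 5) := ⟨by norm_num⟩
  intro hN
  have h := D.setup
  set X := Subgroup.centralizer ({t} : Set G) with hX
  have hmemE : ∀ a, a * t = t * a → a * a = 1 → a ∈ E := fun a ha haa => by
    by_cases ha1 : a = 1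
    · exact ha1 ▸ E.one_mem
    exact D.mem_E_of_two (k := 1) (by rw [orderOf_two_iff.2 ⟨haa, ha1⟩]; rfl) ha (hN a ha)
  have hnt : Nat.card {p : G × G //
      IsConj z p.1 ∧ IsConj t p.2 ∧ t ∈ Subgroup.zpowers (p.1 * p.2)} = 3 := by
    have hset : {p : G × G | IsConj z p.1 ∧ IsConj t p.2 ∧ t ∈ Subgroup.zpowers (p.1 * p.2)} =
        (fun w => (w, w * t)) '' {w | w ∈ E ∧ w ∈ Q ∧ w ≠ 1} := by
      ext ⟨a, b⟩
      constructor
      · rintro ⟨ha, hb, ht⟩
        have haa := sq_of_isConj h.z_sq ha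
        have hbb := sq_of_isConj D.t_sq hb
        obtain ⟨hat, hbt⟩ := commute_of_mem_zpowers_mul haa hbb D.t_sq ht
        have haE := hmemE a hat haa
        have hbE := hmemE b hbt hbb
        refine ⟨a, ⟨haE, D.mem_of_conj_z ((D.mem_E a).1 haE).1 ha, ne_one_of_isConj h.z_ne ha⟩, ?_⟩
        have hsq : a * b * (a * b) = 1 := D.E_sq _ (mul_mem haE hbE)
        obtain ⟨k, hk⟩ := Subgroup.mem_zpowers_iff.1 ht
        rcases Int.even_or_odd k with ⟨i, hi⟩ | ⟨i, hi⟩
        · rw [hi, ← two_mul, zpow_mul, zpow_two, hsq, one_zpow] at hk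
          exact absurd hk.symm D.t_ne
        · rw [hi, zpow_add, zpow_mul, zpow_two, hsq, one_zpow, one_mul, zpow_one] at hk
          refine Prod.ext rfl ?_
          show a * t = b
          rw [← hk, ← mul_assoc, haa, one_mul]
      · rintro ⟨w, ⟨hwE, hwQ, hw1⟩, e⟩
        obtain ⟨rfl, rfl⟩ := Prod.mk.injEq _ _ _ _ ▸ e
        refine ⟨D.conj_of_mem (D.E_sq w hwE) hw1 hwQ, D.conj_t_of_not_mem
          ((D.mem_E _).1 (mul_mem hwE D.t_E)).1 (D.E_sq _ (mul_mem hwE D.t_E))
          (fun hQ => D.t_not ?_), ?_⟩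
        · rw [show t = w⁻¹ * (w * t) by group]
          exact Q.mul_mem (Q.inv_mem hwQ) hQ
        · show t ∈ Subgroup.zpowers (w * (w * t))
          rw [← mul_assoc, D.E_sq w hwE, one_mul]
          exact Subgroup.mem_zpowers t
    rw [← Set.coe_setOf, hset, Nat.card_coe_set_eq, Set.ncard_image_of_injective _
      (fun a b e => congrArg Prod.fst e), D.ncard_W]
  have hG := D.order_formula
  rw [hnt, ← hX] at hG
  have hcl := D.class_card
  -- the order of `C(t)`
  have horb := conj_orbit_card_mul X z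
  have hXz : X ⊓ Subgroup.centralizer ({z} : Set G) = E := by
    ext x; simp [hX, D.mem_E, mem_cent_iff, and_comm]
  rw [hXz, D.card_E] at horb
  have hs3 : {b : G | ∃ x ∈ X, x * z * x⁻¹ = b}.ncard ≤ 3 := by
    rw [← D.ncard_W]
    refine Set.ncard_le_ncard ?_ (Set.toFinite _)
    rintro b ⟨x, hx, rfl⟩
    obtain ⟨h1, h2, h3, -⟩ := D.perm (hN x (mem_cent_iff.1 hx)) D.z_E h.z_mem h.z_ne
    exact ⟨h1, h2, h3⟩
  have hs0 : 0 < {b : G | ∃ x ∈ X, x * z * x⁻¹ = b}.ncard :=
    (Set.ncard_pos).2 ⟨z, 1, X.one_mem, by simp⟩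
  have hodd : ¬ 2 ∣ {b : G | ∃ x ∈ X, x * z * x⁻¹ = b}.ncard := by
    obtain ⟨P, hP⟩ := D.exists_sylow
    have h1 : (P : Subgroup ↥X).index = {b : G | ∃ x ∈ X, x * z * x⁻¹ = b}.ncard := by
      have h2 := (P : Subgroup ↥X).card_mul_index
      rw [← horb] at h2
      rw [hP] at h2 ⊢
      rw [Nat.card_congr (Subgroup.subgroupOfEquivOfLe (show E ≤ X from
        fun x hx => mem_cent_iff.2 ((D.mem_E x).1 hx).2)).toEquiv, D.card_E, mul_comm] at h2
      omega
    rw [← h1]
    exact P.not_dvd_index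
  obtain hs | hs : {b : G | ∃ x ∈ X, x * z * x⁻¹ = b}.ncard = 1 ∨
      {b : G | ∃ x ∈ X, x * z * x⁻¹ = b}.ncard = 3 := by omega
  · -- all conjugates of `z` centralize `z`
    have h11 : {x : G | IsConj z x}.ncard = 11 := by omega
    have hsub : insert z (noncentral z Q) ⊆ {x : G | IsConj z x} := by
      rintro x (rfl | hx)
      · exact IsConj.refl _
      · exact D.conj_of_mem hx.2.1 hx.2.2.1 hx.1
    have heq := Set.eq_of_subset_of_ncard_le hsub (by
      rw [h11, Set.ncard_insert_of_notMem (fun hz => hz.2.2.2 rfl), h.card_noncentral])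
    have hall : ∀ x, IsConj z x → x * z = z * x := by
      intro x hx
      have : x ∈ insert z (noncentral z Q) := by rw [heq]; exact hx
      rcases this with rfl | hx'
      · rfl
      · exact h.comm_Q hx'.1
    obtain ⟨g, hg⟩ := isConj_iff.1 D.u_conj
    have hsub2 : noncentral z Q ⊆ {u, z * u} := by
      intro a ha
      have hga : IsConj z (g⁻¹ * a * g) :=
        (D.conj_of_mem ha.2.1 ha.2.2.1 ha.1).trans (isConj_iff.2 ⟨g⁻¹, by group⟩)
      have hcomm : u * a = a * u := by
        calc u * a = g * (z * (g⁻¹ * a * g)) * g⁻¹ := by rw [← hg]; group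
          _ = g * ((g⁻¹ * a * g) * z) * g⁻¹ := by rw [hall _ hga]
          _ = a * u := by rw [← hg]; group
      exact h.eq_of_commute D.u_mem ha hcomm
    have h2 := (Set.ncard_le_ncard hsub2 (Set.toFinite _)).trans (Set.ncard_insert_le _ _)
    rw [h.card_noncentral, Set.ncard_singleton] at h2
    omega
  · have h27 : {x : G | IsConj z x}.ncard = 27 := by omega
    obtain ⟨s, hsz, hso⟩ := h.exists_five
    set F := {x | x ∈ {x : G | IsConj z x} ∧ s * x = x * s} with hF
    have hmod : {x : G | IsConj z x}.ncard ≡ F.ncard [MOD 5] :=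
      ncard_modEq_fixed (k := 1) (p := 5) (g := s) (by rw [hso]; rfl) _
        fun x (hx : IsConj z x) => (hx.trans (isConj_iff.2 ⟨s, rfl⟩) : IsConj z _)
    have hFnc : Disjoint F (noncentral z Q) := by
      rw [Set.disjoint_left]
      intro x hx hxn
      rcases h.five_fixed hsz hso x hxn.1 hx.2 with e | e
      · exact hxn.2.2.1 e
      · exact hxn.2.2.2 e
    have h17 : F.ncard ≤ 17 := by
      have h1 := Set.ncard_union_eq hFnc (Set.toFinite _) (Set.toFinite _)
      have h2 : (F ∪ noncentral z Q).ncard ≤ 27 := by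
        rw [← h27]
        refine Set.ncard_le_ncard ?_ (Set.toFinite _)
        rintro x (hx | hx)
        · exact hx.1
        · exact D.conj_of_mem hx.2.1 hx.2.2.1 hx.1
      rw [h.card_noncentral] at h1
      omega
    have hzfix : ∀ x ∈ F, z * x = x * z → x = z := fun x hx hc =>
      D.five_cent hsz hso hc.symm (sq_of_isConj h.z_sq hx.1) (ne_one_of_isConj h.z_ne hx.1) hx.2
    have hFodd : F.ncard % 2 = 1 := by
      have hmod2 := ncard_modEq_fixed (k := 1) (p := 2) (g := z) (by rw [D.z_ord]; rfl) F ?_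
      · rw [show {x | x ∈ F ∧ z * x = x * z} = {z} from Set.ext fun x =>
          ⟨fun hx => hzfix x hx.1 hx.2, fun hx => by
            rw [Set.mem_singleton_iff.1 hx]; exact ⟨⟨IsConj.refl _, hsz⟩, rfl⟩⟩,
          Set.ncard_singleton] at hmod2
        exact hmod2
      · intro x hx
        refine ⟨hx.1.trans (isConj_iff.2 ⟨z, rfl⟩), ?_⟩
        calc s * (z * x * z⁻¹) = z * (s * x) * z⁻¹ := by rw [← mul_assoc, ← mul_assoc, hsz]; group
          _ = z * (x * s) * z⁻¹ := by rw [hx.2]
          _ = z * x * (s * z⁻¹) := by group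
          _ = z * x * (z⁻¹ * s) := by rw [(Commute.inv_right (show Commute s z from hsz)).eq]
          _ = _ := by group
    have horbF : {b : G | ∃ c ∈ Subgroup.centralizer ({s} : Set G), c * z * c⁻¹ = b} = F := by
      ext x
      constructor
      · rintro ⟨c, hc, rfl⟩
        refine ⟨isConj_iff.2 ⟨c, rfl⟩, ?_⟩
        exact ((Commute.mul_left (Commute.mul_left (show Commute c s from mem_cent_iff.1 hc)
          (show Commute z s from hsz.symm)) (Commute.inv_left (mem_cent_iff.1 hc))).symm).eq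
      · intro hx
        by_cases hxz : x = z
        · exact ⟨1, one_mem _, by simp [hxz]⟩
        set d := z * x with hd
        have hxx := sq_of_isConj h.z_sq hx.1
        have hds : Commute d s := Commute.mul_left (show Commute z s from hsz.symm)
          (show Commute x s from hx.2.symm)
        have hinv : z * d * z⁻¹ = d⁻¹ := by
          rw [hd, mul_inv_rev, inv_of_sq h.z_sq, inv_of_sq hxx, ← mul_assoc z z x, h.z_sq, one_mul]
        rcases Nat.even_or_odd (orderOf d) with ⟨m, hm⟩ | ⟨m, hm⟩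
        · exfalso
          have hpos := orderOf_pos d
          set w := d ^ m with hw
          have hww : w * w = 1 := by rw [hw, ← pow_add, ← hm, pow_orderOf_eq_one]
          have hw1 : w ≠ 1 := fun e => by
            have := Nat.le_of_dvd (by omega) (orderOf_dvd_of_pow_eq_one e)
            omega
          have hwpow : w ∈ Subgroup.zpowers (z * x) := Subgroup.pow_mem _ (Subgroup.mem_zpowers _) m
          obtain ⟨hzw, -⟩ := commute_of_mem_zpowers_mul h.z_sq hxx hww hwpow
          have hwz := D.five_cent hsz hso hzw.symm hww hw1 (hds.pow_left m).symm.eq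
          have hzx := (commute_of_mem_zpowers_mul h.z_sq hxx h.z_sq (hwz ▸ hwpow)).2
          exact hxz (hzfix x hx hzx.symm)
        · refine ⟨d ^ m, mem_cent_iff.2 (hds.pow_left m).eq, ?_⟩
          have h1 : z * d ^ m * z⁻¹ = (d ^ m)⁻¹ := by rw [← conj_pow, hinv, inv_pow]
          have h2 : d ^ m * z = z * (d ^ m)⁻¹ := by
            calc d ^ m * z = z * z * d ^ m * z⁻¹ * z * z := by rw [h.z_sq]; group
              _ = z * (z * d ^ m * z⁻¹) * (z * z) := by group
              _ = _ := by rw [h1, h.z_sq, mul_one]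
          calc d ^ m * z * (d ^ m)⁻¹ = z * ((d ^ m)⁻¹ * (d ^ m)⁻¹) := by rw [h2, mul_assoc]
            _ = z * (d * (d ^ orderOf d)⁻¹) := by rw [hm]; group
            _ = x := by rw [pow_orderOf_eq_one, inv_one, mul_one, hd, ← mul_assoc, h.z_sq, one_mul]
    have hd1 := conj_orbit_card_mul (Subgroup.centralizer ({s} : Set G)) z
    rw [horbF] at hd1
    have hdvd : F.ncard ∣ 51840 := by
      have hG' : Nat.card G = 51840 := by omega
      rw [← hG']
      exact (Dvd.intro _ hd1).trans (Subgroup.card_subgroup_dvd_card _)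
    rw [h27] at hmod
    have h7 : F.ncard = 7 ∨ F.ncard = 17 := by
      unfold Nat.ModEq at hmod
      omega
    rcases h7 with e | e <;> rw [e] at hdvd <;> norm_num at hdvd

end Data

end CfsgLib.J2Type
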