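import Cfsg.Agent.J2Type.NormF

/-!
The centralizer of an element of order five lying in the alternating factor of `C(t)`, and general
lemmas on subgroups of prime order and on conjugation into a Sylow subgroup.
-/

set_option autoImplicit false

namespace CfsgLib.J2Type

variable {G : Type*} [Group G] [Finite G]

theorem zpowers_eq_of_prime {p : ℕ} (hp : p.Prime) {s w : G} (hs : orderOf s = p)
    (hw : w ∈ Subgroup.zpowers s) (hw1 : w ≠ 1) : Subgroup.zpowers w = Subgroup.zpowers s := by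
  refine Subgroup.eq_of_le_of_card_ge (Subgroup.zpowers_le.2 hw) ?_
  rw [Nat.card_zpowers, Nat.card_zpowers, hs]
  have hd := Subgroup.orderOf_dvd_natCard _ hw
  rw [Nat.card_zpowers, hs] at hd
  rcases (Nat.dvd_prime hp).1 hd with e | e
  · exact absurd (orderOf_eq_one_iff.1 e) hw1
  · rw [e]

theorem mem_zpowers_cases {p : ℕ} {s w : G} (hp : 0 < p) (hs : orderOf s = p)
    (hw : w ∈ Subgroup.zpowers s) : ∃ i < p, w = s ^ i := by
  classical
  obtain ⟨i, hi, rfl⟩ := Finset.mem_image.1 (mem_zpowers_iff_mem_range_orderOf.1 hw)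
  exact ⟨i, by simpa [hs] using Finset.mem_range.1 hi, rfl⟩

theorem commute_of_mem_zpowers {x s w : G} (h : x * s = s * x) (hw : w ∈ Subgroup.zpowers s) :
    x * w = w * x := by
  obtain ⟨j, rfl⟩ := Subgroup.mem_zpowers_iff.1 hw
  exact (Commute.zpow_right (show Commute x s from h) j).eq

theorem card_cent_conj (c s : G) :
    Nat.card (Subgroup.centralizer ({c * s * c⁻¹} : Set G)) =
      Nat.card (Subgroup.centralizer ({s} : Set G)) := by
  refine Nat.card_eq_of_bijective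
    (fun x : ↥(Subgroup.centralizer ({c * s * c⁻¹} : Set G)) =>
      (⟨c⁻¹ * x * c, mem_cent_iff.2 ?_⟩ : ↥(Subgroup.centralizer ({s} : Set G)))) ⟨?_, ?_⟩
  · calc c⁻¹ * (x : G) * c * s = c⁻¹ * ((x : G) * (c * s * c⁻¹)) * c := by group
      _ = c⁻¹ * (c * s * c⁻¹ * x) * c := by rw [mem_cent_iff.1 x.2]
      _ = _ := by group
  · exact fun a b hab => Subtype.ext (mul_left_cancel (mul_right_cancel (congrArg Subtype.val hab :)))
  · rintro ⟨y, hy⟩
    refine ⟨⟨c * y * c⁻¹, mem_cent_iff.2 ?_⟩, Subtype.ext (show c⁻¹ * (c * y * c⁻¹) * c = y by group)⟩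
    calc c * y * c⁻¹ * (c * s * c⁻¹) = c * (y * s) * c⁻¹ := by group
      _ = c * (s * y) * c⁻¹ := by rw [mem_cent_iff.1 hy]
      _ = _ := by group

theorem card_cent_A5_five {a : A5} (h5 : a ^ 5 = 1) (h1 : a ≠ 1) :
    Subgroup.centralizer ({a} : Set A5) = Subgroup.zpowers a := by
  classical
  haveI := Fintype.ofFinite ↥(Subgroup.centralizer ({a} : Set A5))
  refine (Subgroup.eq_of_le_of_card_ge (Subgroup.zpowers_le.2 (mem_cent_iff.2 rfl)) ?_).symm
  haveI : Fact (Nat.Prime 5) := ⟨by norm_num⟩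
  rw [Nat.card_zpowers, orderOf_eq_prime h5 h1]
  refine le_of_eq (Eq.trans ?_ (A5Facts.cent_five _ h5 h1))
  rw [Nat.card_eq_fintype_card, Fintype.card_subtype]
  exact congrArg Finset.card (Finset.ext fun x => by simp [mem_cent_iff])

/-- Conjugation inside `H` into a subgroup of largest prime power order. -/
theorem conj_into {p n : ℕ} [Fact p.Prime] {H F : Subgroup G} (hFH : F ≤ H)
    (hF : Nat.card F = p ^ n) (hnd : ¬ p ^ (n + 1) ∣ Nat.card H) {x : G} (hx : x ∈ H) {k : ℕ}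
    (ho : orderOf x = p ^ k) : ∃ c ∈ H, c * x * c⁻¹ ∈ F := by
  have hF' : Nat.card (F.subgroupOf H) = p ^ n := by
    rw [Nat.card_congr (Subgroup.subgroupOfEquivOfLe hFH).toEquiv, hF]
  obtain ⟨P, hP⟩ := (IsPGroup.of_card hF').exists_le_sylow
  have hPF : (P : Subgroup ↥H) = F.subgroupOf H := by
    refine (Subgroup.eq_of_le_of_card_ge hP ?_).symm
    obtain ⟨m, hm⟩ := IsPGroup.iff_card.1 P.isPGroup'
    rw [hF', hm]
    refine Nat.pow_le_pow_right (Fact.out (p := p.Prime)).pos ?_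
    by_contra hlt
    exact hnd ((pow_dvd_pow p (by omega : n + 1 ≤ m)).trans (hm ▸ Subgroup.card_subgroup_dvd_card _))
  obtain ⟨Px, hPx⟩ := (IsPGroup.of_card (p := p) (n := k)
    (show Nat.card (Subgroup.zpowers (⟨x, hx⟩ : ↥H)) = p ^ k by
      rw [Nat.card_zpowers, Subgroup.orderOf_mk, ho])).exists_le_sylow
  obtain ⟨c, hc⟩ := MulAction.exists_smul_eq ↥H Px P
  refine ⟨c, c.2, ?_⟩
  have : c * ⟨x, hx⟩ * c⁻¹ ∈ (P : Subgroup ↥H) := by
    rw [← hc, Sylow.coe_subgroup_smul]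
    exact ⟨_, hPx (Subgroup.mem_zpowers _), rfl⟩
  rw [hPF] at this
  exact this

/-- An element of order five in the alternating factor, with its centralizer. -/
structure FiveOne (z t s : G) : Prop where
  ord : orderOf s = 5
  card : Nat.card (Subgroup.centralizer ({s} : Set G)) = 300
  hom : ∃ φ : ↥(Subgroup.centralizer ({s} : Set G)) →* A5, Function.Surjective φ ∧
    ∀ a, φ a = 1 ↔ (a : G) ∈ Subgroup.zpowers s
  invol : ∀ x, x * s = s * x → x * x = 1 → x ≠ 1 → IsConj t x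
  inverted : ∃ c, c * s * c⁻¹ = s⁻¹

namespace CTData

variable {z u t r g : G} {Q E X0 F : Subgroup G} {img : G → A5}
variable (D : Data z u t r Q E img) (T : CTData z u t E X0 F g)
include D T

theorem exists_five_X0 : ∃ s ∈ X0, orderOf s = 5 ∧ ∃ c, c * s * c⁻¹ = s⁻¹ := by
  obtain ⟨e⟩ := T.iso
  haveI : Fact (Nat.Prime 5) := ⟨by norm_num⟩
  obtain ⟨a, ha⟩ := exists_prime_orderOf_dvd_card' (G := A5) 5 (by rw [A5Facts.card]; norm_num)
  have ha1 : a ≠ 1 := fun e' => by rw [e', orderOf_one] at ha; norm_num at ha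
  obtain ⟨j, -, -, hj⟩ := A5Facts.invert_five a (orderOf_dvd_iff_pow_eq_one.1 (dvd_of_eq ha)) ha1
  refine ⟨(e.symm a : G), (e.symm a).2, ?_, (e.symm j : G), ?_⟩
  · rw [Subgroup.orderOf_coe, MulEquiv.orderOf_eq, ha]
  · have := congrArg (fun p => ((e.symm p : ↥X0) : G)) hj
    simpa using this

theorem mem_zpowers_of_comm {s y : G} (hs : s ∈ X0) (hs5 : orderOf s = 5) (hy : y ∈ X0)
    (hc : y * s = s * y) : y ∈ Subgroup.zpowers s := by
  obtain ⟨e⟩ := T.iso
  have ho : orderOf (e ⟨s, hs⟩) = 5 := by rw [MulEquiv.orderOf_eq, Subgroup.orderOf_mk, hs5]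
  have h1 : e ⟨s, hs⟩ ≠ 1 := fun e' => by rw [e', orderOf_one] at ho; norm_num at ho
  have hmem : e ⟨y, hy⟩ ∈ Subgroup.centralizer ({e ⟨s, hs⟩} : Set A5) := mem_cent_iff.2 (by
    rw [← map_mul, ← map_mul]; exact congrArg e (Subtype.ext hc))
  rw [card_cent_A5_five (orderOf_dvd_iff_pow_eq_one.1 (dvd_of_eq ho)) h1] at hmem
  obtain ⟨j, hj⟩ := Subgroup.mem_zpowers_iff.1 hmem
  rw [← map_zpow] at hj
  refine Subgroup.mem_zpowers_iff.2 ⟨j, ?_⟩
  simpa using congrArg Subtype.val (e.injective hj)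

theorem fiveOne {s : G} (hs : s ∈ X0) (hs5 : orderOf s = 5) (hinv : ∃ c, c * s * c⁻¹ = s⁻¹) :
    FiveOne z t s := by
  classical
  haveI : Fact (Nat.Prime 5) := ⟨by norm_num⟩
  haveI : Fact (Nat.Prime 2) := ⟨Nat.prime_two⟩
  obtain ⟨eta, -, -, -, hcX, hetaF, hfree⟩ := exists_eta D T
  set H := Subgroup.centralizer ({s} : Set G) with hH
  have hsX : ∀ {x}, x ∈ Subgroup.zpowers s → x ∈ X0 := fun {x} hx => Subgroup.zpowers_le.2 hs hx
  have hFH : F ≤ H := fun f hf => mem_cent_iff.2 (T.comm f hf s hs)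
  have hetaH : eta ∈ H := mem_cent_iff.2 (hcX s hs)
  set Z := (Subgroup.zpowers s).subgroupOf H with hZ
  haveI hZn : Z.Normal := ⟨fun a (ha : (a : G) ∈ Subgroup.zpowers s) b => by
    show (b : G) * a * (b : G)⁻¹ ∈ Subgroup.zpowers s
    rw [commute_of_mem_zpowers (mem_cent_iff.1 b.2) ha, mul_inv_cancel_right]; exact ha⟩
  have hZcard : Nat.card Z = 5 := by
    rw [hZ, Nat.card_congr (Subgroup.subgroupOfEquivOfLe
      (Subgroup.zpowers_le.2 (mem_cent_iff.2 rfl))).toEquiv, Nat.card_zpowers, hs5]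
  let mk : ↥H →* ↥H ⧸ Z := QuotientGroup.mk' Z
  have hmk1 : ∀ a : ↥H, mk a = 1 ↔ (a : G) ∈ Subgroup.zpowers s := fun a => by
    rw [QuotientGroup.mk'_apply, QuotientGroup.eq_one_iff]; rfl
  set W := (F.subgroupOf H).map mk with hW
  have hFinj : ∀ f ∈ F, f ∈ Subgroup.zpowers s → f = 1 := fun f hf hfz => T.indep f hf (hsX hfz)
  have hW4 : Nat.card W = 4 := by
    rw [← T.card_F]
    refine (Nat.card_eq_of_bijective (fun f : ↥F =>
      (⟨mk ⟨f, hFH f.2⟩, Subgroup.mem_map_of_mem mk (show (⟨(f : G), hFH f.2⟩ : ↥H) ∈ F.subgroupOf H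
        from f.2)⟩ : ↥W)) ⟨?_, ?_⟩).symm
    · intro a b hab
      have h1 : mk ((⟨a, hFH a.2⟩ : ↥H)⁻¹ * ⟨b, hFH b.2⟩) = 1 := by
        rw [map_mul, map_inv, show mk ⟨a, hFH a.2⟩ = mk ⟨b, hFH b.2⟩ from congrArg Subtype.val hab,
          inv_mul_cancel]
      exact Subtype.ext (inv_mul_eq_one.1 (hFinj _ (mul_mem (inv_mem a.2) b.2) ((hmk1 _).1 h1)))
    · rintro ⟨_, f, hf, rfl⟩
      exact ⟨⟨(f : G), hf⟩, rfl⟩
  have hsq : ∀ w ∈ W, w * w = 1 := by
    rintro _ ⟨f, (hf : (f : G) ∈ F), rfl⟩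
    rw [← map_mul, show f * f = 1 from Subtype.ext (F_sq D T hf), map_one]
  have hcent : ∀ w ∈ W, w ≠ 1 → ∀ y, y * w = w * y → y ∈ W := by
    rintro _ ⟨f, (hf : (f : G) ∈ F), rfl⟩ hne y hy
    obtain ⟨a, rfl⟩ := QuotientGroup.mk'_surjective Z y
    have hf1 : (f : G) ≠ 1 := fun e => hne (by rw [show f = 1 from Subtype.ext e, map_one])
    have h1 : (a : G) * f * (a : G)⁻¹ * (f : G)⁻¹ ∈ Subgroup.zpowers s := (hmk1 (a * f * a⁻¹ * f⁻¹)).1 (by
      simp only [map_mul, map_inv]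
      rw [show mk a * mk f = mk f * mk a from hy]; group)
    set c := (a : G) * f * (a : G)⁻¹ * (f : G)⁻¹ with hc
    have hcf : (f : G) * c = c * f := T.comm f hf c (hsX h1)
    have hcc : c * c = 1 := by
      calc c * c = c * c * ((f : G) * f) := by rw [F_sq D T hf, mul_one]
        _ = c * (c * f) * f := by group
        _ = c * (f * c) * f := by rw [hcf]
        _ = (c * f) * (c * f) := by group
        _ = (a : G) * ((f : G) * f) * (a : G)⁻¹ := by rw [hc]; group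
        _ = 1 := by rw [F_sq D T hf]; group
    have hc5 : c ^ 5 = 1 := by
      obtain ⟨j, hj⟩ := Subgroup.mem_zpowers_iff.1 h1
      rw [← hj, ← zpow_natCast, ← zpow_mul, mul_comm, zpow_mul, zpow_natCast,
        show s ^ 5 = 1 by rw [← hs5, pow_orderOf_eq_one], one_zpow]
    have hc1 : c = 1 := by
      calc c = c ^ 5 * ((c * c) * (c * c))⁻¹ := by group
        _ = 1 := by rw [hc5, hcc]; simp
    have hcomm : (a : G) * f = f * a := conj_eq_self_iff.1 (mul_inv_eq_one.1 (hc ▸ hc1))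
    have hat : (a : G) * t = t * a := by
      have : (a : G) ∈ Subgroup.centralizer ({(f : G)} : Set G) := mem_cent_iff.2 hcomm
      rw [cent_eq D T hf hf1] at this
      exact mem_cent_iff.1 this
    obtain ⟨f', hf', w, hw, e⟩ := T.decomp _ hat
    have hws : w * s = s * w := by
      rw [show w = f'⁻¹ * a by rw [e]; group]
      exact (Commute.mul_left (Commute.inv_left (T.comm f' hf' s hs))
        (show Commute (a : G) s from mem_cent_iff.1 a.2)).eq
    have h2 : mk (⟨f', hFH hf'⟩⁻¹ * a) = 1 := (hmk1 _).2 (by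
      show f'⁻¹ * (a : G) ∈ _
      rw [e, inv_mul_cancel_left]; exact mem_zpowers_of_comm D T hs hs5 hw hws)
    rw [map_mul, map_inv, inv_mul_eq_one] at h2
    exact ⟨⟨f', hFH hf'⟩, hf', h2⟩
  set n := mk ⟨eta, hetaH⟩ with hn
  have hnW : n ∉ W := by
    rintro ⟨f, hf, e⟩
    have h1 : (f : G)⁻¹ * eta ∈ Subgroup.zpowers s := (hmk1 (f⁻¹ * ⟨eta, hetaH⟩)).1 (by
      rw [map_mul, map_inv, e, hn, inv_mul_cancel])
    refine hfree t T.t_F D.t_ne (conj_eq_self_iff.2 ?_)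
    rw [show eta = f * ((f : G)⁻¹ * eta) by group]
    exact (Commute.mul_left (show Commute (f : G) t from F_t D T hf)
      (show Commute ((f : G)⁻¹ * eta) t from T.X0_t _ (hsX h1))).eq
  have hnn : ∀ w ∈ W, n * w * n⁻¹ ∈ W := by
    rintro _ ⟨f, (hf : (f : G) ∈ F), rfl⟩
    rw [hn, ← map_inv, ← map_mul, ← map_mul]
    exact Subgroup.mem_map_of_mem mk (hetaF f hf)
  have hcard : Nat.card ↥H = Nat.card (↥H ⧸ Z) * 5 := by
    rw [Subgroup.card_eq_card_quotient_mul_card_subgroup Z, hZcard]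
  have h25 : 25 ∣ Nat.card ↥H := by
    obtain ⟨P, hP⟩ := (IsPGroup.of_card (p := 5) (n := 1)
      (show Nat.card (Subgroup.zpowers s) = 5 ^ 1 by rw [Nat.card_zpowers, hs5]; rfl)).exists_le_sylow
    have hP25 : Nat.card (P : Subgroup G) = 5 ^ 2 := by
      obtain ⟨m, hm⟩ := IsPGroup.iff_card.1 P.isPGroup'
      have h1 : 5 ^ 2 ∣ Nat.card (P : Subgroup G) :=
        P.pow_dvd_card_of_pow_dvd_card (by rw [card_G D T]; norm_num)
      have h2 : 5 ^ m ∣ 604800 := by rw [← hm, ← card_G D T]; exact Subgroup.card_subgroup_dvd_card _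
      rw [hm] at h1 ⊢
      have hm2 : 2 ≤ m := (Nat.pow_dvd_pow_iff_le_right (by norm_num)).1 h1
      have hm3 : m < 3 := by
        by_contra hlt
        have := (pow_dvd_pow 5 (show 3 ≤ m by omega)).trans h2
        norm_num at this
      rw [show m = 2 by omega]
    haveI := IsPGroup.isMulCommutative_of_card_eq_prime_sq hP25
    have hle : (P : Subgroup G) ≤ H := fun x hx => mem_cent_iff.2
      (congrArg Subtype.val ((IsMulCommutative.is_comm (M := ↥(P : Subgroup G))).comm ⟨x, hx⟩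
        ⟨s, hP (Subgroup.mem_zpowers s)⟩))
    have := Subgroup.card_dvd_of_le hle
    rw [hP25] at this
    exact this
  rcases klein_cases W hW4 hsq hcent hnn hnW with ⟨h12, -⟩ | ⟨⟨e⟩⟩
  · rw [hcard, h12] at h25
    norm_num at h25
  have h300 : Nat.card ↥H = 300 := by rw [hcard, Nat.card_congr e.toEquiv, A5Facts.card]
  refine ⟨hs5, h300, ⟨e.toMonoidHom.comp mk, e.surjective.comp (QuotientGroup.mk'_surjective Z),
    fun a => ?_⟩, ?_, hinv⟩
  · show e (mk a) = 1 ↔ _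
    rw [map_eq_one_iff e e.injective]
    exact hmk1 a
  · intro x hxs hxx hx1
    obtain ⟨c, hc, hcf⟩ := conj_into (p := 2) (n := 2) hFH (by rw [T.card_F]; rfl)
      (by rw [h300]; norm_num) (mem_cent_iff.2 hxs : x ∈ H) (k := 1)
      (by rw [orderOf_two_iff.2 ⟨hxx, hx1⟩]; rfl)
    have h1 := conj_t_of_mul D T hcf (conj_ne_one hx1) X0.one_mem (one_mul 1)
    rw [mul_one] at h1
    exact h1.trans (isConj_iff.2 ⟨c, rfl⟩ : IsConj x (c * x * c⁻¹)).symm

end CTData

end CfsgLib.J2Type
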