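import Cfsg.Agent.J2Type.Five

/-!
The Sylow subgroups for the prime five, their normalizers, and the two classes of subgroups of
order five.
-/

set_option autoImplicit false

namespace CfsgLib.J2Type

variable {G : Type*} [Group G] [Finite G]

/-- A Sylow subgroup for five with an element of each of the two classes. -/
structure FiveData (z t s s2 : G) (P : Subgroup G) : Prop where
  one : FiveOne z t s
  sylow : ∃ S : Sylow 5 G, (S : Subgroup G) = P
  card : Nat.card P = 25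
  comm : ∀ x ∈ P, ∀ y ∈ P, x * y = y * x
  mem : s ∈ P
  mem2 : s2 ∈ P
  ord2 : orderOf s2 = 5
  conj_z2 : ∃ w, IsConj z w ∧ w * s2 = s2 * w
  four2 : ¬ 4 ∣ Nat.card (Subgroup.centralizer ({s2} : Set G))
  decomp : ∀ x ∈ P, ∃ a ∈ Subgroup.zpowers s, ∃ b ∈ Subgroup.zpowers s2, x = a * b
  no_conj : ∀ v ∈ Subgroup.zpowers s, v ≠ 1 → ∀ w ∈ Subgroup.zpowers s2, ∀ c, c * w * c⁻¹ ≠ v
  indep : ∀ x ∈ Subgroup.zpowers s, x ∈ Subgroup.zpowers s2 → x = 1
  order : Nat.card G = 604800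

theorem Setup.four_not_dvd_cent {z : G} {Q : Subgroup G} {img : G → A5} (h : Setup z Q img) {v : G}
    (hvz : v * z = z * v) (hv5 : orderOf v = 5) :
    ¬ 4 ∣ Nat.card (Subgroup.centralizer ({v} : Set G)) := by
  classical
  haveI : Fact (Nat.Prime 2) := ⟨Nat.prime_two⟩
  intro hd
  set Cv := Subgroup.centralizer ({v} : Set G) with hCv
  have hzC : z ∈ Cv := mem_cent_iff.2 hvz.symm
  obtain ⟨K, hK4, hle⟩ := Sylow.exists_subgroup_card_pow_succ (p := 2) (n := 1)
    (H := Subgroup.zpowers (⟨z, hzC⟩ : ↥Cv)) (by exact hd)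
    (by rw [Nat.card_zpowers, Subgroup.orderOf_mk, h.setting.order]; rfl)
  haveI := IsPGroup.isMulCommutative_of_card_eq_prime_sq hK4
  set M := K.map Cv.subtype with hM
  have hM4 : Nat.card M = 4 := by
    rw [hM, Subgroup.card_map_of_injective Cv.subtype_injective, hK4]; rfl
  have hMz : ∀ x ∈ M, x * z = z * x ∧ x * v = v * x := by
    rintro _ ⟨x, hx, rfl⟩
    exact ⟨congrArg Subtype.val (congrArg Subtype.val ((IsMulCommutative.is_comm (M := ↥K)).comm
      ⟨x, hx⟩ ⟨⟨z, hzC⟩, hle (Subgroup.mem_zpowers _)⟩)), mem_cent_iff.1 x.2⟩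
  obtain ⟨Tm, hT, hcard⟩ := h.card_sub M fun x hx => (hMz x hx).1
  have hv1 : img v ^ 5 = 1 ∧ img v ≠ 1 := by
    refine ⟨by rw [← h.img_pow hvz, orderOf_dvd_iff_pow_eq_one.1 (dvd_of_eq hv5), h.img_one],
      fun e => ?_⟩
    have := orderOf_dvd_of_pow_eq_one (h.pow_four ((h.ker v hvz).1 e))
    rw [hv5] at this
    norm_num at this
  have hT5 : Nat.card Tm ∣ 5 := by
    have hle : Tm ≤ Subgroup.zpowers (img v) := by
      rw [← card_cent_A5_five hv1.1 hv1.2]
      intro y hy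
      obtain ⟨x, hx, rfl⟩ := (hT y).1 hy
      exact mem_cent_iff.2 (by rw [← h.mul _ _ (hMz x hx).1 hvz, (hMz x hx).2, h.mul _ _ hvz (hMz x hx).1])
    haveI : Fact (Nat.Prime 5) := ⟨by norm_num⟩
    have := Subgroup.card_dvd_of_le hle
    rwa [Nat.card_zpowers, orderOf_eq_prime hv1.1 hv1.2] at this
  have hMQ : Nat.card ↥(M ⊓ Q) ≤ 2 := by
    have hsub : ((M ⊓ Q : Subgroup G) : Set G) ⊆ {1, z} := fun x hx =>
      h.five_fixed hvz hv5 x hx.2 (hMz x hx.1).2.symm
    have := (Set.ncard_le_ncard hsub (Set.toFinite _)).trans (Set.ncard_insert_le _ _)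
    rwa [Set.ncard_singleton, ← Nat.card_coe_set_eq, SetLike.coe_sort_coe] at this
  rw [hM4] at hcard
  rcases (Nat.dvd_prime (by norm_num : Nat.Prime 5)).1 hT5 with e | e <;> rw [e] at hcard <;> omega

namespace CTData

variable {z u t r g : G} {Q E X0 F : Subgroup G} {img : G → A5}
variable (D : Data z u t r Q E img) (T : CTData z u t E X0 F g)
include D T

theorem exists_fiveData : ∃ (s s2 : G) (P : Subgroup G), s ∈ X0 ∧ FiveData z t s s2 P := by
  classical
  haveI : Fact (Nat.Prime 5) := ⟨by norm_num⟩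
  obtain ⟨s, hsX, hs5, hinv⟩ := exists_five_X0 D T
  have O := fiveOne D T hsX hs5 hinv
  obtain ⟨v, hvz, hv5⟩ := D.setup.exists_five
  have hsyl : ∀ S : Sylow 5 G, Nat.card (S : Subgroup G) = 25 := by
    intro S
    obtain ⟨m, hm⟩ := IsPGroup.iff_card.1 S.isPGroup'
    have h1 : 5 ^ 2 ∣ Nat.card (S : Subgroup G) :=
      S.pow_dvd_card_of_pow_dvd_card (by rw [card_G D T]; norm_num)
    have h2 : 5 ^ m ∣ 604800 := by rw [← hm, ← card_G D T]; exact Subgroup.card_subgroup_dvd_card _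
    rw [hm] at h1 ⊢
    have hm2 : 2 ≤ m := (Nat.pow_dvd_pow_iff_le_right (by norm_num)).1 h1
    have hm3 : m < 3 := by
      by_contra hlt
      have := (pow_dvd_pow 5 (show 3 ≤ m by omega)).trans h2
      norm_num at this
    rw [show m = 2 by omega]; norm_num
  obtain ⟨S, hS⟩ := (IsPGroup.of_card (p := 5) (n := 1)
    (show Nat.card (Subgroup.zpowers s) = 5 ^ 1 by rw [Nat.card_zpowers, hs5]; rfl)).exists_le_sylow
  obtain ⟨Sv, hSv⟩ := (IsPGroup.of_card (p := 5) (n := 1)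
    (show Nat.card (Subgroup.zpowers v) = 5 ^ 1 by rw [Nat.card_zpowers, hv5]; rfl)).exists_le_sylow
  obtain ⟨c, hc⟩ := MulAction.exists_smul_eq G Sv S
  set P := (S : Subgroup G) with hP
  set s2 := c * v * c⁻¹ with hs2
  have hs2P : s2 ∈ P := by
    rw [hP, ← hc, Sylow.coe_subgroup_smul]
    exact ⟨v, hSv (Subgroup.mem_zpowers v), rfl⟩
  have hs25 : orderOf s2 = 5 := (MulEquiv.orderOf_eq (MulAut.conj c) v).trans hv5
  have hw2 : ∃ w, IsConj z w ∧ w * s2 = s2 * w := by
    refine ⟨c * z * c⁻¹, isConj_iff.2 ⟨c, rfl⟩, ?_⟩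
    calc c * z * c⁻¹ * s2 = c * (z * v) * c⁻¹ := by rw [hs2]; group
      _ = c * (v * z) * c⁻¹ := by rw [hvz]
      _ = s2 * (c * z * c⁻¹) := by rw [hs2]; group
  have hno : ∀ x ∈ Subgroup.zpowers s, x ≠ 1 → ∀ w ∈ Subgroup.zpowers s2, ∀ d, d * w * d⁻¹ ≠ x := by
    intro x hx hx1 w hw d e
    obtain ⟨wz, hwz, hwz2⟩ := hw2
    have h1 : d * wz * d⁻¹ * x = x * (d * wz * d⁻¹) := by
      rw [← e]
      calc d * wz * d⁻¹ * (d * w * d⁻¹) = d * (wz * w) * d⁻¹ := by group
        _ = d * (w * wz) * d⁻¹ := by rw [commute_of_mem_zpowers hwz2 hw]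
        _ = _ := by group
    have hsx : s ∈ Subgroup.zpowers x := by
      rw [zpowers_eq_of_prime (by norm_num) hs5 hx hx1]; exact Subgroup.mem_zpowers s
    exact D.nc (hwz.trans ((isConj_iff.2 ⟨d, rfl⟩ : IsConj wz (d * wz * d⁻¹)).trans
      (O.invol _ (commute_of_mem_zpowers h1 hsx) (conj_sq (sq_of_isConj D.setup.z_sq hwz))
        (conj_ne_one (ne_one_of_isConj D.setup.z_ne hwz))).symm))
  have hindep : ∀ x ∈ Subgroup.zpowers s, x ∈ Subgroup.zpowers s2 → x = 1 := fun x hx hx2 =>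
    by_contra fun hx1 => hno x hx hx1 x hx2 1 (by simp)
  have hcomm : ∀ x ∈ P, ∀ y ∈ P, x * y = y * x := by
    haveI := IsPGroup.isMulCommutative_of_card_eq_prime_sq (p := 5) (G := ↥P) (by rw [hsyl S]; rfl)
    exact fun x hx y hy => congrArg Subtype.val
      ((IsMulCommutative.is_comm (M := ↥P)).comm ⟨x, hx⟩ ⟨y, hy⟩)
  have hdec : ∀ x ∈ P, ∃ a ∈ Subgroup.zpowers s, ∃ b ∈ Subgroup.zpowers s2, x = a * b := by
    have hbij : Function.Bijective (fun p : ↥(Subgroup.zpowers s) × ↥(Subgroup.zpowers s2) =>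
        (⟨(p.1 : G) * p.2, mul_mem (Subgroup.zpowers_le.2 (hS (Subgroup.mem_zpowers s)) p.1.2)
          (Subgroup.zpowers_le.2 hs2P p.2.2)⟩ : ↥P)) := by
      refine (Nat.bijective_iff_injective_and_card _).2 ⟨?_, ?_⟩
      · rintro ⟨a, b⟩ ⟨a', b'⟩ h
        have h' : (a : G) * b = a' * b' := congrArg Subtype.val h
        have e1 : (a' : G)⁻¹ * a = b' * (b : G)⁻¹ := by
          calc (a' : G)⁻¹ * a = (a' : G)⁻¹ * (a * b) * (b : G)⁻¹ := by group
            _ = b' * (b : G)⁻¹ := by rw [h']; group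
        have e2 := hindep _ (mul_mem (inv_mem a'.2) a.2) (e1 ▸ mul_mem b'.2 (inv_mem b.2))
        rw [e2] at e1
        exact Prod.ext (Subtype.ext (inv_mul_eq_one.1 e2).symm)
          (Subtype.ext (mul_inv_eq_one.1 e1.symm).symm)
      · rw [Nat.card_prod, Nat.card_zpowers, Nat.card_zpowers, hs5, hs25, hsyl S]
    intro x hx
    obtain ⟨⟨a, b⟩, e⟩ := hbij.2 ⟨x, hx⟩
    exact ⟨a, a.2, b, b.2, (congrArg Subtype.val e).symm⟩
  refine ⟨s, s2, P, hsX, O, ⟨S, rfl⟩, hsyl S, hcomm, hS (Subgroup.mem_zpowers s), hs2P, hs25, hw2,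
    ?_, hdec, hno, hindep, card_G D T⟩
  rw [hs2, card_cent_conj]
  exact D.setup.four_not_dvd_cent hvz hv5

end CTData

namespace FiveData

variable {z t s s2 : G} {P : Subgroup G} (V : FiveData z t s s2 P)
include V

theorem commute_P {x : G} (h1 : x * s = s * x) (h2 : x * s2 = s2 * x) :
    ∀ y ∈ P, x * y = y * x := by
  intro y hy
  obtain ⟨a, ha, b, hb, rfl⟩ := V.decomp y hy
  exact (Commute.mul_right (show Commute x a from commute_of_mem_zpowers h1 ha)
    (show Commute x b from commute_of_mem_zpowers h2 hb)).eq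

theorem mem_of_centralizes {x : G} (h1 : x * s = s * x) (h2 : x * s2 = s2 * x) : x ∈ P := by
  set H := Subgroup.centralizer ({s} : Set G) with hH
  obtain ⟨φ, -, hker⟩ := V.one.hom
  change ↥H →* A5 at φ
  have h2H : s2 ∈ H := mem_cent_iff.2 (V.comm _ V.mem2 _ V.mem)
  have hb5 : φ ⟨s2, h2H⟩ ^ 5 = 1 := by
    rw [← map_pow, show (⟨s2, h2H⟩ : ↥H) ^ 5 = 1 from Subtype.ext (by
      show s2 ^ 5 = 1
      exact orderOf_dvd_iff_pow_eq_one.1 (dvd_of_eq V.ord2)), map_one]
  have hb1 : φ ⟨s2, h2H⟩ ≠ 1 := fun e => by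
    have := V.indep s2 ((hker _).1 e) (Subgroup.mem_zpowers s2)
    have h5 := V.ord2
    rw [this, orderOf_one] at h5
    norm_num at h5
  have hx : φ ⟨x, mem_cent_iff.2 h1⟩ ∈ Subgroup.centralizer ({φ ⟨s2, h2H⟩} : Set A5) :=
    mem_cent_iff.2 (by rw [← map_mul, ← map_mul]; exact congrArg φ (Subtype.ext h2))
  rw [card_cent_A5_five hb5 hb1] at hx
  obtain ⟨j, hj⟩ := Subgroup.mem_zpowers_iff.1 hx
  have hk : φ ((⟨s2, h2H⟩ ^ j)⁻¹ * ⟨x, mem_cent_iff.2 h1⟩) = 1 := by
    rw [map_mul, map_inv, map_zpow, hj, inv_mul_cancel]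
  have hmem := Subgroup.zpowers_le.2 V.mem ((hker _).1 hk)
  simp only [Subgroup.coe_mul, Subgroup.coe_inv, Subgroup.coe_zpow] at hmem
  rw [show x = s2 ^ j * ((s2 ^ j)⁻¹ * x) by group]
  exact mul_mem (zpow_mem V.mem2 j) hmem

theorem centralizer_eq : Subgroup.centralizer (P : Set G) = P := by
  refine le_antisymm (fun x hx => ?_) fun x hx =>
    Subgroup.mem_centralizer_iff.2 fun y hy => V.comm y hy x hx
  exact V.mem_of_centralizes (Subgroup.mem_centralizer_iff.1 hx s V.mem).symm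
    (Subgroup.mem_centralizer_iff.1 hx s2 V.mem2).symm

/-- An element of order three or seven normalizing `P` fixes only the identity in `P`. -/
theorem no_fix {q : ℕ} (hq : q = 3 ∨ q = 7) {w v : G} (hw : orderOf w = q)
    (hn : ∀ x ∈ P, w * x * w⁻¹ ∈ P) (hv : v ∈ P) (hv1 : v ≠ 1) (hc : w * v = v * w) : False := by
  haveI : Fact q.Prime := ⟨by rcases hq with rfl | rfl <;> norm_num⟩
  have hmod := card_cent_modEq (k := 1) (p := q) (g := w) (by rw [hw, pow_one]) P hn
  set K := P ⊓ Subgroup.centralizer ({w} : Set G) with hK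
  have hd : Nat.card K ∣ 5 ^ 2 := by
    rw [show (5 : ℕ) ^ 2 = Nat.card P by rw [V.card]; rfl]
    exact Subgroup.card_dvd_of_le inf_le_left
  obtain ⟨i, hi, he⟩ := (Nat.dvd_prime_pow (by norm_num : Nat.Prime 5)).1 hd
  rw [V.card, he] at hmod
  have hi0 : i ≠ 0 := by
    rintro rfl
    rw [pow_zero, Subgroup.card_eq_one] at he
    have hvK : v ∈ K := ⟨hv, mem_cent_iff.2 hc.symm⟩
    rw [he] at hvK
    exact hv1 hvK
  have hi2 : i = 2 := by
    interval_cases i
    · exact absurd rfl hi0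
    · exfalso; rcases hq with rfl | rfl <;> simp [Nat.ModEq] at hmod
    · rfl
  subst hi2
  have heq := Subgroup.eq_of_le_of_card_ge (inf_le_left : K ≤ P) (by rw [he, V.card]; norm_num)
  have hall : ∀ x ∈ P, w * x = x * w := fun x hx => by
    rw [← heq] at hx
    exact (mem_cent_iff.1 hx.2).symm
  have hwP := V.mem_of_centralizes (hall s V.mem) (hall s2 V.mem2)
  have hdd := Subgroup.orderOf_dvd_natCard P hwP
  rw [hw, V.card] at hdd
  rcases hq with rfl | rfl <;> norm_num at hdd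

theorem mem_norm {n : G} :
    n ∈ Subgroup.normalizer (P : Set G) ↔ ∀ x ∈ P, n * x * n⁻¹ ∈ P := by
  refine ⟨fun hn f hf => (Subgroup.mem_normalizer_iff.1 hn f).1 hf, fun hn => ?_⟩
  refine Subgroup.mem_normalizer_iff.2 fun x => ⟨hn x, fun hx => ?_⟩
  have himg : (fun y => n * y * n⁻¹) '' (P : Set G) = (P : Set G) :=
    Set.eq_of_subset_of_ncard_le (by rintro _ ⟨y, hy, rfl⟩; exact hn y hy) (by
      rw [Set.ncard_image_of_injective _ fun a b e => mul_left_cancel (mul_right_cancel e)])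
  rw [← SetLike.mem_coe, ← himg] at hx
  obtain ⟨y, hy, e⟩ := hx
  exact (mul_left_cancel (mul_right_cancel e) : y = x) ▸ hy

theorem fusion {x y c : G} (hx : x ∈ P) (hy : y ∈ P) (h : c * x * c⁻¹ = y) :
    ∃ n ∈ Subgroup.normalizer (P : Set G), n * x * n⁻¹ = y := by
  haveI : Fact (Nat.Prime 5) := ⟨by norm_num⟩
  obtain ⟨S, rfl⟩ := V.sylow
  haveI : IsMulCommutative (S : Subgroup G) := ⟨⟨fun a b => Subtype.ext (V.comm a a.2 b b.2)⟩⟩
  obtain ⟨n, hn, e⟩ := S.conj_eq_normalizer_conj_of_mem x c⁻¹ hx (by rw [inv_inv, h]; exact hy)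
  refine ⟨n⁻¹, inv_mem hn, ?_⟩
  rw [inv_inv, ← e, inv_inv, h]

theorem le_cent : P ≤ Subgroup.centralizer ({s} : Set G) := fun x hx =>
  mem_cent_iff.2 (V.comm x hx s V.mem)

theorem card_norm_one :
    Nat.card ↥(Subgroup.normalizer (P : Set G) ⊓ Subgroup.centralizer ({s} : Set G)) = 50 := by
  classical
  haveI : Fact (Nat.Prime 5) := ⟨by norm_num⟩
  set H := Subgroup.centralizer ({s} : Set G) with hH
  obtain ⟨φ, hφ, hker⟩ := V.one.hom
  obtain ⟨S, hS⟩ := V.sylow
  subst hS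
  set SH := S.subtype V.le_cent with hSH
  have hcS : (SH : Subgroup ↥H) = (S : Subgroup G).subgroupOf H := Sylow.coe_subtype S V.le_cent
  set N' := Subgroup.normalizer ((SH : Subgroup ↥H) : Set ↥H) with hN'
  have hmap : N'.map H.subtype = Subgroup.normalizer ((S : Subgroup G) : Set G) ⊓ H := by
    ext x
    constructor
    · rintro ⟨a, ha, rfl⟩
      refine ⟨V.mem_norm.2 fun y hy => ?_, a.2⟩
      have := (Subgroup.mem_normalizer_iff.1 ha ⟨y, V.le_cent hy⟩).1 (by rw [hcS]; exact hy)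
      rw [hcS] at this
      exact this
    · rintro ⟨hx, hxH⟩
      refine ⟨⟨x, hxH⟩, Subgroup.mem_normalizer_iff.2 fun y => ?_, rfl⟩
      rw [hcS]
      exact Subgroup.mem_normalizer_iff.1 hx (y : G)
  rw [← hmap, Subgroup.card_map_of_injective H.subtype_injective]
  have hidx := N'.card_mul_index
  rw [V.one.card] at hidx
  have hmod : N'.index ≡ 1 [MOD 5] := by
    have h := card_sylow_modEq_one 5 ↥H
    rw [SH.card_eq_index_normalizer] at h
    exact h
  have hdvd : N'.index ∣ 12 := by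
    refine (Subgroup.index_dvd_of_le Subgroup.le_normalizer).trans ?_
    have h1 := (SH : Subgroup ↥H).card_mul_index
    rw [V.one.card, hcS, Nat.card_congr (Subgroup.subgroupOfEquivOfLe V.le_cent).toEquiv, V.card,
      ← hcS] at h1
    exact dvd_of_eq (by omega)
  have hne : N'.index ≠ 1 := by
    intro e
    rw [Subgroup.index_eq_one, hN', Subgroup.normalizer_eq_top_iff] at e
    haveI : IsSimpleGroup A5 := alternatingGroup.isSimpleGroup (by simp)
    have hn : ((SH : Subgroup ↥H).map φ).Normal := e.map φ hφ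
    have h2H : s2 ∈ H := V.le_cent V.mem2
    rcases hn.eq_bot_or_eq_top with hb | hb
    · have : φ ⟨s2, h2H⟩ ∈ (SH : Subgroup ↥H).map φ :=
        Subgroup.mem_map_of_mem φ (by rw [hcS]; exact V.mem2)
      rw [hb, Subgroup.mem_bot, hker] at this
      have h1 := V.indep s2 this (Subgroup.mem_zpowers s2)
      have h5 := V.ord2
      rw [h1, orderOf_one] at h5
      norm_num at h5
    · have h1 := (SH : Subgroup ↥H).card_map_dvd φ
      rw [hb, Subgroup.card_top, A5Facts.card, hcS,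
        Nat.card_congr (Subgroup.subgroupOfEquivOfLe V.le_cent).toEquiv, V.card] at h1
      norm_num at h1
  have h6 : N'.index = 6 := by
    unfold Nat.ModEq at hmod
    have := Nat.le_of_dvd (by norm_num) hdvd
    have : N'.index = 6 ∨ N'.index = 11 := by omega
    rcases this with e | e
    · exact e
    · rw [e] at hdvd; norm_num at hdvd
  rw [h6] at hidx
  omega

/-- The conjugates of an element of `P` under the normalizer. -/
theorem orbit_sub {v : G} (hv : v ∈ P) (hv1 : v ≠ 1) :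
    {b : G | ∃ n ∈ Subgroup.normalizer (P : Set G), n * v * n⁻¹ = b} ⊆ (P : Set G) \ {1} := by
  rintro b ⟨n, hn, rfl⟩
  exact ⟨(V.mem_norm.1 hn) v hv, conj_ne_one hv1⟩

theorem ncard_ne_one : ((P : Set G) \ {1}).ncard = 24 := by
  rw [Set.ncard_diff_singleton_of_mem P.one_mem, ← Nat.card_coe_set_eq, SetLike.coe_sort_coe, V.card]

theorem orbit_disjoint {v w : G} (hv : v ∈ Subgroup.zpowers s) (hv1 : v ≠ 1)
    (hw : w ∈ Subgroup.zpowers s2) :
    Disjoint {b : G | ∃ n ∈ Subgroup.normalizer (P : Set G), n * v * n⁻¹ = b}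
      {b : G | ∃ n ∈ Subgroup.normalizer (P : Set G), n * w * n⁻¹ = b} := by
  rw [Set.disjoint_left]
  rintro b ⟨n, -, rfl⟩ ⟨m, -, e⟩
  refine V.no_conj v hv hv1 w hw (n⁻¹ * m) ?_
  rw [show n⁻¹ * m * w * (n⁻¹ * m)⁻¹ = n⁻¹ * (m * w * m⁻¹) * n by group, e]; group

theorem card_normalizer : Nat.card (Subgroup.normalizer (P : Set G)) = 300 := by
  classical
  haveI : Fact (Nat.Prime 5) := ⟨by norm_num⟩
  set N := Subgroup.normalizer (P : Set G) with hN
  have horb := conj_orbit_card_mul N s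
  rw [V.card_norm_one] at horb
  have hs1 : s ≠ 1 := fun e => by
    have := V.one.ord; rw [e, orderOf_one] at this; norm_num at this
  set o := {b : G | ∃ n ∈ N, n * s * n⁻¹ = b}.ncard with ho
  have ho24 : o ≤ 24 := (Set.ncard_le_ncard (V.orbit_sub V.mem hs1)).trans_eq V.ncard_ne_one
  have ho2 : 2 ≤ o := by
    obtain ⟨c, hc⟩ := V.one.inverted
    obtain ⟨n, hn, hne⟩ := V.fusion V.mem (inv_mem V.mem) hc
    refine (Set.one_lt_ncard (Set.toFinite _)).2 ⟨s, ⟨1, N.one_mem, by simp⟩, s⁻¹, ⟨n, hn, hne⟩,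
      fun e => ?_⟩
    have h5 := orderOf_dvd_of_pow_eq_one (show s ^ 2 = 1 by rw [sq]; nth_rw 2 [e]; simp)
    rw [V.one.ord] at h5
    norm_num at h5
  have hidx : Nat.card N * N.index = 604800 := by rw [N.card_mul_index, V.order]
  have hmod : N.index % 5 = 1 := by
    obtain ⟨S, hS⟩ := V.sylow
    have h := card_sylow_modEq_one 5 G
    rw [S.card_eq_index_normalizer] at h
    rw [hN, ← hS]
    exact h
  rw [← horb, mul_right_comm] at hidx
  have hom : o * N.index = 12096 := by omega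
  have hod : o ∣ 12096 := ⟨_, hom.symm⟩
  have hmul : o * N.index % 5 = 1 := by rw [hom]
  rw [Nat.mul_mod, hmod, mul_one, Nat.mod_mod] at hmul
  have h3 : o = 6 ∨ o = 11 ∨ o = 16 ∨ o = 21 := by omega
  rcases h3 with e | e | e | e
  · rw [← horb, e]
  · rw [e] at hod; norm_num at hod
  · exfalso
    have hN800 : Nat.card N = 800 := by rw [← horb, e]
    have horb2 := conj_orbit_card_mul N s2
    set m := Nat.card ↥(N ⊓ Subgroup.centralizer ({s2} : Set G)) with hm
    have h4 : ¬ 4 ∣ m := fun h => V.four2 (h.trans (Subgroup.card_dvd_of_le inf_le_right))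
    have hm800 : m ∣ 800 := hN800 ▸ Subgroup.card_dvd_of_le inf_le_left
    have hm50 : m ≤ 50 := by
      have h50 : m ∣ 50 := by
        have hle : m ≤ 800 := Nat.le_of_dvd (by norm_num) hm800
        obtain ⟨j, hj⟩ := hm800
        rcases Nat.even_or_odd m with ⟨i, hi⟩ | hodd
        · have hio : i % 2 = 1 := by
            rcases Nat.mod_two_eq_zero_or_one i with h0 | h0
            · exact absurd (by omega) h4
            · exact h0
          have hij : i * j = 400 := by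
            rw [hi, ← two_mul, mul_assoc] at hj; omega
          have hcop : Nat.Coprime i 16 := by
            rw [show (16 : ℕ) = 2 ^ 4 by rfl]
            exact Nat.Coprime.pow_right 4 (Nat.coprime_two_right.2 (Nat.odd_iff.2 hio))
          have : i ∣ 25 := hcop.dvd_of_dvd_mul_right ⟨j, by rw [hij]⟩
          rw [hi, ← two_mul, show (50 : ℕ) = 2 * 25 by rfl]
          exact mul_dvd_mul_left 2 this
        · have hcop : Nat.Coprime m 32 := by
            rw [show (32 : ℕ) = 2 ^ 5 by rfl]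
            exact Nat.Coprime.pow_right 5 (Nat.coprime_two_right.2 hodd)
          exact (hcop.dvd_of_dvd_mul_right (show m ∣ 25 * 32 from ⟨j, hj⟩)).trans (by norm_num)
      exact Nat.le_of_dvd (by norm_num) h50
    rw [hN800] at horb2
    have hd := Set.ncard_union_eq (V.orbit_disjoint (Subgroup.mem_zpowers s) hs1
      (Subgroup.mem_zpowers s2)) (Set.toFinite _) (Set.toFinite _)
    have hs21 : s2 ≠ 1 := fun e => by
      have := V.ord2; rw [e, orderOf_one] at this; norm_num at this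
    have hu := Set.ncard_le_ncard (Set.union_subset (V.orbit_sub V.mem hs1) (V.orbit_sub V.mem2 hs21))
    rw [V.ncard_ne_one, hd, ← ho, e] at hu
    set o2 := {b : G | ∃ n ∈ N, n * s2 * n⁻¹ = b}.ncard
    have : o2 * m ≤ 8 * 50 := Nat.mul_le_mul (by omega) hm50
    omega
  · exfalso
    haveI : Fact (Nat.Prime 7) := ⟨by norm_num⟩
    obtain ⟨w, hw⟩ := exists_prime_orderOf_dvd_card' (G := ↥N) 7 (by rw [← horb, e]; norm_num)
    rw [← Subgroup.orderOf_coe] at hw
    -- some nonidentity element of `P` is fixed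
    have hmod7 := card_cent_modEq (k := 1) (p := 7) (g := (w : G)) (by rw [hw]; rfl) P
      (V.mem_norm.1 w.2)
    rw [V.card] at hmod7
    obtain ⟨v, hv, hv1⟩ : ∃ v ∈ P ⊓ Subgroup.centralizer ({(w : G)} : Set G), v ≠ 1 := by
      by_contra hall
      push Not at hall
      rw [(Subgroup.eq_bot_iff_forall _).2 hall, Subgroup.card_bot] at hmod7
      simp [Nat.ModEq] at hmod7
    exact V.no_fix (Or.inr rfl) hw (V.mem_norm.1 w.2) hv.1 hv1 (mem_cent_iff.1 hv.2).symm

end FiveData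

end CfsgLib.J2Type
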