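import Cfsg.Agent.J2Type.NormF

/-!
Transport of the standing data by conjugation, and the isomorphism types of `C(t)` and of the
normalizer of its largest normal 2-subgroup.
-/

set_option autoImplicit false

namespace CfsgLib.J2Type

variable {G : Type*} [Group G] [Finite G] {z u t r g : G} {Q E X0 F : Subgroup G} {img : G → A5}

theorem Data.conj (D : Data z u t r Q E img) (c : G) :
    Data (c * z * c⁻¹) (c * u * c⁻¹) (c * t * c⁻¹) (c * r * c⁻¹)
      (Q.map (MulAut.conj c).toMonoidHom) (E.map (MulAut.conj c).toMonoidHom)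
      (fun a => img (c⁻¹ * a * c)) := by
  have hcomm : ∀ a b : G, a * (c * b * c⁻¹) = c * b * c⁻¹ * a ↔
      c⁻¹ * a * c * b = b * (c⁻¹ * a * c) := fun a b => by
    constructor
    · intro h
      calc c⁻¹ * a * c * b = c⁻¹ * (a * (c * b * c⁻¹)) * c := by group
        _ = c⁻¹ * (c * b * c⁻¹ * a) * c := by rw [h]
        _ = _ := by group
    · intro h
      calc a * (c * b * c⁻¹) = c * (c⁻¹ * a * c * b) * c⁻¹ := by group
        _ = c * (b * (c⁻¹ * a * c)) * c⁻¹ := by rw [h]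
        _ = _ := by group
  have hmem : ∀ (S : Subgroup G) (a : G),
      a ∈ S.map (MulAut.conj c).toMonoidHom ↔ c⁻¹ * a * c ∈ S := fun S a =>
    LargeExtraspecial.mem_conj_iff S c a
  have hback : ∀ a : G, c⁻¹ * (c * a * c⁻¹) * c = a := fun a => by group
  have hconj : ∀ a, IsConj a (c * a * c⁻¹) := fun a => isConj_iff.2 ⟨c, rfl⟩
  have hinj : ∀ a b : G, c⁻¹ * a * c = c⁻¹ * b * c → a = b := fun a b h =>
    mul_left_cancel (mul_right_cancel h)
  refine ⟨D.setup.conj c, ⟨(hmem _ _).2 (by rw [hback]; exact D.u_mem.1), conj_sq D.u_mem.2.1,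
    conj_ne_one D.u_mem.2.2.1, fun e => D.u_mem.2.2.2 (mul_left_cancel (mul_right_cancel e))⟩,
    (hconj z).symm.trans (D.u_conj.trans (hconj u)), conj_sq D.t_sq,
    (hcomm _ z).2 (by rw [hback]; exact D.t_z), (hcomm _ u).2 (by rw [hback]; exact D.t_u),
    fun h => D.t_not (by have := (hmem _ _).1 h; rwa [hback] at this),
    (hcomm _ z).2 (by rw [hback]; exact D.r_z), (hcomm _ u).2 (by rw [hback]; exact D.r_u), ?_,
    fun x => by rw [hmem, D.mem_E, hcomm x z, hcomm x t], ?_, ?_, ?_, ?_, ?_, ?_, D.two_part, ?_⟩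
  · exact (MulEquiv.orderOf_eq (MulAut.conj c) r).trans D.r_ord
  · rw [Subgroup.card_map_of_injective (f := (MulAut.conj c).toMonoidHom) (MulAut.conj c).injective,
      D.card_E]
  · rintro _ ⟨x, hx, rfl⟩; exact conj_sq (D.E_sq x hx)
  · rintro x hxE hxQ
    rcases D.E_Q _ ((hmem _ _).1 hxE) ((hmem _ _).1 hxQ) with e | e | e | e
    · exact Or.inl (hinj x 1 (by rw [e]; group))
    · exact Or.inr (Or.inl (hinj x _ (by rw [e, hback])))
    · exact Or.inr (Or.inr (Or.inl (hinj x _ (by rw [e, hback]))))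
    · exact Or.inr (Or.inr (Or.inr (hinj x _ (by rw [e]; group))))
  · intro x hx
    rw [hmem]
    rw [show c⁻¹ * (c * r * c⁻¹ * x * (c * r * c⁻¹)⁻¹) * c = r * (c⁻¹ * x * c) * r⁻¹ by group]
    exact D.r_E _ ((hmem _ _).1 hx)
  · intro b hb hbb hbQ
    obtain ⟨d, hd, hde⟩ := D.outside (c⁻¹ * b * c) ((hcomm b z).1 hb)
      (by rw [show c⁻¹ * b * c * (c⁻¹ * b * c) = c⁻¹ * (b * b) * c by group, hbb]; group)
      (fun h => hbQ ((hmem _ _).2 h))
    refine ⟨c * d * c⁻¹, (hcomm _ z).2 (by rw [hback]; exact hd), ?_⟩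
    rw [show c * d * c⁻¹ * (c * t * c⁻¹) * (c * d * c⁻¹)⁻¹ = c * (d * t * d⁻¹) * c⁻¹ by group, hde]
    group
  · intro x hx
    obtain ⟨g', hg'⟩ := D.into_C x hx
    refine ⟨c * g', (hcomm _ z).2 ?_⟩
    rw [show c⁻¹ * (c * g' * x * (c * g')⁻¹) * c = g' * x * g'⁻¹ by group]
    exact hg'
  · exact fun h => D.nc ((hconj z).trans (h.trans (hconj t).symm))

namespace CTData

variable (D : Data z u t r Q E img) (T : CTData z u t E X0 F g)
include D T

theorem nonempty_iso : Nonempty (↥(Subgroup.centralizer ({t} : Set G)) ≃*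
    (Multiplicative (ZMod 2) × Multiplicative (ZMod 2)) × alternatingGroup (Fin 5)) := by
  obtain ⟨e⟩ := T.iso
  haveI hK1 : IsKleinFour ↥F := by
    refine ⟨T.card_F, ?_⟩
    refine Nat.dvd_antisymm (Monoid.exponent_dvd_of_forall_pow_eq_one fun a => Subtype.ext (by
      show ((a : G)) ^ 2 = 1
      rw [sq]; exact F_sq D T a.2)) ?_
    have hlt : 1 < Monoid.exponent ↥F := by
      by_contra hcon
      push Not at hcon
      have h0 : Monoid.exponent ↥F ≠ 0 := Monoid.exponent_ne_zero_of_finite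
      have h1 : Monoid.exponent ↥F = 1 := by omega
      have h2 := Monoid.pow_exponent_eq_one (⟨t, T.t_F⟩ : ↥F)
      rw [h1, pow_one] at h2
      exact D.t_ne (congrArg Subtype.val h2)
    have hd : Monoid.exponent ↥F ∣ 2 := Monoid.exponent_dvd_of_forall_pow_eq_one fun a =>
      Subtype.ext (by show ((a : G)) ^ 2 = 1; rw [sq]; exact F_sq D T a.2)
    rcases (Nat.dvd_prime Nat.prime_two).1 hd with e' | e'
    · omega
    · rw [e']
  haveI hK2 : IsKleinFour (Multiplicative (ZMod 2) × Multiplicative (ZMod 2)) :=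
    ⟨by simp, by simp [Monoid.exponent_prod]⟩
  obtain ⟨e1⟩ := IsKleinFour.nonempty_mulEquiv (G₁ := ↥F)
    (G₂ := Multiplicative (ZMod 2) × Multiplicative (ZMod 2))
  let φ : ↥F × ↥X0 →* ↥(Subgroup.centralizer ({t} : Set G)) :=
    { toFun := fun p => ⟨(p.1 : G) * p.2,
        mul_mem (mem_cent_iff.2 (F_t D T p.1.2)) (mem_cent_iff.2 (T.X0_t _ p.2.2))⟩
      map_one' := Subtype.ext (one_mul 1)
      map_mul' := fun p q => Subtype.ext (by
        show ((p.1 : G) * q.1) * (p.2 * q.2) = p.1 * p.2 * (q.1 * q.2)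
        calc ((p.1 : G) * q.1) * (p.2 * q.2) = (p.1 : G) * ((q.1 : G) * p.2) * q.2 := by group
          _ = (p.1 : G) * ((p.2 : G) * q.1) * q.2 := by rw [T.comm _ q.1.2 _ p.2.2]
          _ = _ := by group) }
  have hsurj : Function.Surjective φ := by
    rintro ⟨x, hx⟩
    obtain ⟨f, hf, y, hy, rfl⟩ := T.decomp x (mem_cent_iff.1 hx)
    exact ⟨(⟨f, hf⟩, ⟨y, hy⟩), rfl⟩
  have hbij : Function.Bijective φ := (Nat.bijective_iff_surjective_and_card φ).2
    ⟨hsurj, by rw [card_centralizer D T, Nat.card_prod, T.card_F, Nat.card_congr e.toEquiv, A5Facts.card]⟩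
  exact ⟨(MulEquiv.ofBijective φ hbij).symm.trans (e1.prodCongr e)⟩

theorem norm_F {n : G} : n ∈ Subgroup.normalizer (F : Set G) ↔ ∀ f ∈ F, n * f * n⁻¹ ∈ F := by
  refine ⟨fun hn f hf => (Subgroup.mem_normalizer_iff.1 hn f).1 hf, fun hn => ?_⟩
  refine Subgroup.mem_normalizer_iff.2 fun x => ⟨hn x, fun hx => ?_⟩
  have himg : (fun y => n * y * n⁻¹) '' (F : Set G) = (F : Set G) :=
    Set.eq_of_subset_of_ncard_le (by rintro _ ⟨y, hy, rfl⟩; exact hn y hy) (by
      rw [Set.ncard_image_of_injective _ fun a b e => mul_left_cancel (mul_right_cancel e)])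
  rw [← SetLike.mem_coe, ← himg] at hx
  obtain ⟨y, hy, e⟩ := hx
  exact (mul_left_cancel (mul_right_cancel e) : y = x) ▸ hy

theorem norm_decomp {eta : G} (ho : orderOf eta = 3) (hF : ∀ f ∈ F, eta * f * eta⁻¹ ∈ F)
    (hfree : ∀ f ∈ F, f ≠ 1 → eta * f * eta⁻¹ ≠ f) {n : G}
    (hn : ∀ f ∈ F, n * f * n⁻¹ ∈ F) :
    ∃ i < 3, (eta ^ i)⁻¹ * n * t = t * ((eta ^ i)⁻¹ * n) := by
  have h3 : eta ^ 3 = 1 := by rw [← ho, pow_orderOf_eq_one]
  set a := eta * t * eta⁻¹ with ha
  set b := eta ^ 2 * t * (eta ^ 2)⁻¹ with hb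
  have hb' : b = eta * a * eta⁻¹ := by rw [hb, ha]; simp only [pow_two]; group
  have hsub : ({1, t, a, b} : Set G) ⊆ (F : Set G) := by
    intro x hx
    rcases hx with e | e | e | e
    · rw [e]; exact F.one_mem
    · rw [e]; exact T.t_F
    · rw [e]; exact hF t T.t_F
    · rw [Set.mem_singleton_iff.1 e, hb']; exact hF _ (hF t T.t_F)
  have hab : a ≠ b := by rw [hb']; exact fun e => hfree a (hF t T.t_F) (conj_ne_one D.t_ne) e.symm
  have htb : t ≠ b := fun e => by
    refine hfree t T.t_F D.t_ne ?_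
    calc eta * t * eta⁻¹ = eta * b * eta⁻¹ := by rw [← e]
      _ = eta ^ 3 * t * (eta ^ 3)⁻¹ := by rw [hb]; simp only [pow_succ, pow_zero, one_mul]; group
      _ = t := by rw [h3]; group
  have heq := Set.eq_of_subset_of_ncard_le hsub (by
    rw [← Nat.card_coe_set_eq (F : Set G), SetLike.coe_sort_coe, T.card_F, Set.ncard_insert_of_notMem,
      Set.ncard_insert_of_notMem, Set.ncard_pair hab]
    · simp only [Set.mem_insert_iff, Set.mem_singleton_iff, not_or]
      exact ⟨(hfree t T.t_F D.t_ne).symm, htb⟩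
    · simp only [Set.mem_insert_iff, Set.mem_singleton_iff, not_or]
      exact ⟨D.t_ne.symm, (conj_ne_one D.t_ne).symm, by rw [hb]; exact (conj_ne_one D.t_ne).symm⟩)
  have hnt : n * t * n⁻¹ ∈ ({1, t, a, b} : Set G) := heq ▸ hn t T.t_F
  obtain ⟨i, hi, e⟩ : ∃ i < 3, eta ^ i * t * (eta ^ i)⁻¹ = n * t * n⁻¹ := by
    rcases hnt with e | e | e | e
    · exact absurd e (conj_ne_one D.t_ne)
    · exact ⟨0, by norm_num, by rw [e]; simp⟩
    · exact ⟨1, by norm_num, by rw [e, ha, pow_one]⟩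
    · exact ⟨2, by norm_num, by rw [Set.mem_singleton_iff.1 e, hb]⟩
  refine ⟨i, hi, conj_eq_self_iff.1 ?_⟩
  calc (eta ^ i)⁻¹ * n * t * ((eta ^ i)⁻¹ * n)⁻¹
      = (eta ^ i)⁻¹ * (n * t * n⁻¹) * eta ^ i := by group
    _ = t := by rw [← e]; group

theorem nonempty_iso_normalizer : Nonempty (↥(Subgroup.normalizer (F : Set G)) ≃*
    alternatingGroup (Fin 4) × alternatingGroup (Fin 5)) := by
  obtain ⟨eta, ho, -, -, hcX, hF, hfree⟩ := exists_eta D T
  obtain ⟨e5⟩ := T.iso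
  set N := Subgroup.normalizer (F : Set G) with hN
  set M := N ⊓ Subgroup.centralizer (X0 : Set G) with hM
  have hetaM : eta ∈ M := Subgroup.mem_inf.2 ⟨(norm_F D T).2 hF,
    Subgroup.mem_centralizer_iff.2 fun y hy => (hcX y hy).symm⟩
  have hFM : ∀ f ∈ F, f ∈ M := fun f hf => Subgroup.mem_inf.2 ⟨(norm_F D T).2 fun f' hf' => by
      rw [D.comm_E (T.F_le hf) (T.F_le hf'), mul_inv_cancel_right]; exact hf',
    Subgroup.mem_centralizer_iff.2 fun y hy => (T.comm f hf y hy).symm⟩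
  have hX0N : ∀ y ∈ X0, y ∈ N := fun y hy => (norm_F D T).2 fun f hf => by
    rw [← T.comm f hf y hy, mul_inv_cancel_right]; exact hf
  have hsplit : ∀ n ∈ N, ∃ m ∈ M, ∃ y ∈ X0, n = m * y := by
    intro n hn
    obtain ⟨i, -, hi⟩ := norm_decomp D T ho hF hfree ((norm_F D T).1 hn)
    obtain ⟨f, hf, y, hy, e⟩ := T.decomp _ hi
    exact ⟨eta ^ i * f, mul_mem (pow_mem hetaM i) (hFM f hf), y, hy, by rw [mul_assoc, ← e]; group⟩
  have hM0 : ∀ m ∈ M, m ∈ X0 → m = 1 := fun m hm hm0 => eq_one_of_central D T hm0 fun x hx =>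
    Subgroup.mem_centralizer_iff.1 hm.2 x hx
  have hMcard : Nat.card ↥M = 12 := by
    rw [show (12 : ℕ) = Nat.card (Fin 3 × ↥F) by
      rw [Nat.card_prod, T.card_F, Nat.card_eq_fintype_card, Fintype.card_fin]]
    refine (Nat.card_eq_of_bijective (fun p : Fin 3 × ↥F =>
      (⟨eta ^ (p.1 : ℕ) * p.2, mul_mem (pow_mem hetaM _) (hFM _ p.2.2)⟩ : ↥M)) ⟨?_, ?_⟩).symm
    · rintro ⟨i, a⟩ ⟨j, b⟩ e
      have e' : eta ^ (i : ℕ) * a = eta ^ (j : ℕ) * b := congrArg Subtype.val e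
      have hinj : ∀ i j : Fin 3, (i : ℕ) ≤ j → ∀ a b : ↥F,
          eta ^ (i : ℕ) * (a : G) = eta ^ (j : ℕ) * b → i = j := by
        intro i j hij a b e'
        by_contra hne
        have hlt : (i : ℕ) < j := lt_of_le_of_ne hij fun h => hne (Fin.ext h)
        have hmem : eta ^ ((j : ℕ) - i) ∈ F := by
          rw [show eta ^ ((j : ℕ) - i) = (a : G) * (b : G)⁻¹ by
            calc eta ^ ((j : ℕ) - i) = (eta ^ (i : ℕ))⁻¹ * (eta ^ (j : ℕ) * b) * (b : G)⁻¹ := by
                  rw [show eta ^ (j : ℕ) = eta ^ (i : ℕ) * eta ^ ((j : ℕ) - i) by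
                    rw [← pow_add, Nat.add_sub_cancel' hij]]
                  group
              _ = (a : G) * (b : G)⁻¹ := by rw [← e']; group]
          exact mul_mem a.2 (inv_mem b.2)
        have hsq := F_sq D T hmem
        rw [← pow_add] at hsq
        have hd := orderOf_dvd_of_pow_eq_one hsq
        rw [ho] at hd
        have := j.isLt
        omega
      rcases le_total (i : ℕ) j with hij | hij
      · have hij' := hinj i j hij a b e'
        subst hij'
        exact Prod.ext rfl (Subtype.ext (mul_left_cancel e'))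
      · have hij' := hinj j i hij b a e'.symm
        subst hij'
        exact Prod.ext rfl (Subtype.ext (mul_left_cancel e'))
    · rintro ⟨m, hm⟩
      obtain ⟨i, hi, hit⟩ := norm_decomp D T ho hF hfree ((norm_F D T).1 hm.1)
      obtain ⟨f, hf, y, hy, e⟩ := T.decomp _ hit
      have hy' : y = 1 := hM0 y (by
        rw [show y = f⁻¹ * ((eta ^ i)⁻¹ * m) by rw [e]; group]
        exact mul_mem (inv_mem (hFM f hf)) (mul_mem (inv_mem (pow_mem hetaM i)) hm)) hy
      refine ⟨(⟨i, hi⟩, ⟨f, hf⟩), Subtype.ext ?_⟩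
      show eta ^ i * f = m
      rw [show f = f * y by rw [hy', mul_one], ← e]; group
  obtain ⟨e4⟩ := CfsgLib.Involution.order_twelve_alternating hMcard (fun m hm hc => by
    have hmord : orderOf (m : G) = 2 := by rw [Subgroup.orderOf_coe, hm]
    obtain ⟨i, hi, hit⟩ := norm_decomp D T ho hF hfree ((norm_F D T).1 m.2.1)
    obtain ⟨hmm, hm1⟩ := orderOf_two_iff.1 hmord
    have hmeta : (m : G) * eta = eta * m :=
      congrArg Subtype.val (Subgroup.mem_center_iff.1 hc ⟨eta, hetaM⟩).symm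
    have hmF' : ∀ f ∈ F, (m : G) * f = f * m := fun f hf =>
      congrArg Subtype.val (Subgroup.mem_center_iff.1 hc ⟨f, hFM f hf⟩).symm
    obtain ⟨f, hf, y, hy, e⟩ := T.decomp (m : G) (hmF' t T.t_F)
    have hy' : y = 1 := hM0 y (by
      rw [show y = f⁻¹ * (m : G) by rw [e]; group]
      exact mul_mem (inv_mem (hFM f hf)) m.2) hy
    rw [hy', mul_one] at e
    refine hfree f hf (fun e1 => hm1 (e.trans e1)) ?_
    rw [← e, ← hmeta, mul_inv_cancel_right])
  let φ : ↥M × ↥X0 →* ↥N :=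
    { toFun := fun p => ⟨(p.1 : G) * p.2, mul_mem p.1.2.1 (hX0N _ p.2.2)⟩
      map_one' := Subtype.ext (one_mul 1)
      map_mul' := fun p q => Subtype.ext (by
        show ((p.1 : G) * q.1) * (p.2 * q.2) = p.1 * p.2 * (q.1 * q.2)
        calc ((p.1 : G) * q.1) * (p.2 * q.2) = (p.1 : G) * ((q.1 : G) * p.2) * q.2 := by group
          _ = (p.1 : G) * ((p.2 : G) * q.1) * q.2 := by
              rw [Subgroup.mem_centralizer_iff.1 q.1.2.2 _ p.2.2]
          _ = _ := by group) }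
  have hbij : Function.Bijective φ := by
    constructor
    · rw [← MonoidHom.ker_eq_bot_iff, Subgroup.eq_bot_iff_forall]
      rintro ⟨m, y⟩ hp
      have e : (m : G) * y = 1 := congrArg Subtype.val (MonoidHom.mem_ker.1 hp)
      have hy1 : (y : G) = 1 := hM0 _ (by
        rw [eq_inv_of_mul_eq_one_right e]; exact inv_mem m.2) y.2
      rw [hy1, mul_one] at e
      exact Prod.ext (Subtype.ext e) (Subtype.ext hy1)
    · rintro ⟨n, hn⟩
      obtain ⟨m, hm, y, hy, rfl⟩ := hsplit n hn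
      exact ⟨(⟨m, hm⟩, ⟨y, hy⟩), rfl⟩
  exact ⟨(MulEquiv.ofBijective φ hbij).symm.trans (e4.prodCongr e5)⟩

end CTData

end CfsgLib.J2Type
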