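import Cfsg.Agent.J2Type.Order
import Cfsg.Agent.Eq.Def_Solvable
import Cfsg.Agent.Involution.OrderTwelve

/-!
The normalizer of the four group in the centre of `C(t)`: an element of order three centralizing the
alternating factor permutes the three involutions.
-/

set_option autoImplicit false

namespace CfsgLib.J2Type

variable {G : Type*} [Group G] [Finite G] {z u t r g : G} {Q E X0 F : Subgroup G} {img : G → A5}

namespace CTData

variable (D : Data z u t r Q E img) (T : CTData z u t E X0 F g)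
include D T

theorem eq_one_of_central {y : G} (hy : y ∈ X0) (hc : ∀ x ∈ X0, x * y = y * x) : y = 1 := by
  obtain ⟨e⟩ := T.iso
  have h : e ⟨y, hy⟩ ∈ Subgroup.center A5 := Subgroup.mem_center_iff.2 fun a => by
    obtain ⟨b, rfl⟩ := e.surjective a
    rw [← map_mul, ← map_mul]
    exact congrArg e (Subtype.ext (hc b b.2))
  rw [InvolChar.alt5_center, Subgroup.mem_bot] at h
  exact congrArg Subtype.val (e.injective (h.trans e.map_one.symm))

theorem F_comm {f : G} (hf : f ∈ F) {x : G} (hx : x * t = t * x) : f * x = x * f := by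
  obtain ⟨f', hf', y, hy, rfl⟩ := T.decomp x hx
  calc f * (f' * y) = (f * f') * y := by group
    _ = (f' * f) * y := by rw [D.comm_E (T.F_le hf) (T.F_le hf')]
    _ = f' * (f * y) := by group
    _ = f' * (y * f) := by rw [T.comm f hf y hy]
    _ = f' * y * f := by group

theorem mem_F_iff {x : G} :
    x ∈ F ↔ x * t = t * x ∧ ∀ y, y * t = t * y → x * y = y * x := by
  refine ⟨fun hx => ⟨F_t D T hx, fun y hy => F_comm D T hx hy⟩, fun ⟨hx, hall⟩ => ?_⟩
  obtain ⟨f, hf, y, hy, rfl⟩ := T.decomp x hx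
  have hy1 : y = 1 := eq_one_of_central D T hy fun a ha => by
    refine mul_left_cancel (a := f) ?_
    calc f * (a * y) = (f * a) * y := by group
      _ = (a * f) * y := by rw [T.comm f hf a ha]
      _ = a * (f * y) := by group
      _ = (f * y) * a := (hall a (T.X0_t a ha)).symm
      _ = f * (y * a) := by group
  rw [hy1, mul_one]; exact hf

theorem cent_eq {f : G} (hf : f ∈ F) (hf1 : f ≠ 1) :
    Subgroup.centralizer ({f} : Set G) = Subgroup.centralizer ({t} : Set G) := by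
  have hle : Subgroup.centralizer ({t} : Set G) ≤ Subgroup.centralizer ({f} : Set G) := fun x hx =>
    mem_cent_iff.2 (F_comm D T hf (mem_cent_iff.1 hx)).symm
  refine (Subgroup.eq_of_le_of_card_ge hle ?_).symm
  have hct : IsConj t f := by
    have := conj_t_of_mul D T hf hf1 X0.one_mem (one_mul 1)
    rwa [mul_one] at this
  obtain ⟨h, hh⟩ := isConj_iff.1 hct
  subst hh
  refine Nat.card_le_card_of_injective
    (fun x : ↥(Subgroup.centralizer ({h * t * h⁻¹} : Set G)) =>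
      (⟨h⁻¹ * x * h, mem_cent_iff.2 ?_⟩ : ↥(Subgroup.centralizer ({t} : Set G)))) ?_
  · calc h⁻¹ * (x : G) * h * t = h⁻¹ * ((x : G) * (h * t * h⁻¹)) * h := by group
      _ = h⁻¹ * (h * t * h⁻¹ * x) * h := by rw [mem_cent_iff.1 x.2]
      _ = t * (h⁻¹ * x * h) := by group
  · intro a b hab
    exact Subtype.ext (mul_left_cancel (mul_right_cancel (congrArg Subtype.val hab :)))

theorem pCore_eq : (Cfsg.pCore 2 ↥(Subgroup.centralizer ({t} : Set G))).map
    (Subgroup.centralizer ({t} : Set G)).subtype = F := by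
  classical
  haveI : Fact (Nat.Prime 2) := ⟨Nat.prime_two⟩
  set X := Subgroup.centralizer ({t} : Set G) with hX
  have hFX : F ≤ X := fun f hf => mem_cent_iff.2 (F_t D T hf)
  refine le_antisymm ?_ ?_
  · rintro _ ⟨m, hm, rfl⟩
    have hN : (Cfsg.pCore 2 ↥X).Normal := Cfsg.pCore_normal 2 ↥X
    have hp : IsPGroup 2 ↥(Cfsg.pCore 2 ↥X) := LargeExtraspecial.isPGroup_pCore 2
    set K := (Cfsg.pCore 2 ↥X).map X.subtype with hK
    have hKp : IsPGroup 2 ↥K := hp.map _
    have hKn : ∀ a, a * t = t * a → ∀ k ∈ K, a * k * a⁻¹ ∈ K := by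
      rintro a ha _ ⟨k, hk, rfl⟩
      exact ⟨⟨a, mem_cent_iff.2 ha⟩ * k * ⟨a, mem_cent_iff.2 ha⟩⁻¹, hN.conj_mem k hk _, rfl⟩
    have hbot : ∀ k ∈ K, k ∈ X0 → k = 1 := by
      obtain ⟨e⟩ := T.iso
      haveI hs : IsSimpleGroup ↥X0 :=
        haveI : IsSimpleGroup A5 := alternatingGroup.isSimpleGroup (by simp)
        e.isSimpleGroup
      have hn : (K.subgroupOf X0).Normal := ⟨fun k hk a => hKn a (T.X0_t a a.2) k hk⟩
      rcases hn.eq_bot_or_eq_top with hb | hb
      · intro k hk hk0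
        have : (⟨k, hk0⟩ : ↥X0) ∈ K.subgroupOf X0 := hk
        rw [hb, Subgroup.mem_bot] at this
        exact congrArg Subtype.val this
      · exfalso
        obtain ⟨j, hj⟩ := IsPGroup.iff_orderOf.1 hKp ⟨g, Subgroup.subgroupOf_eq_top.1 hb T.g_mem⟩
        rw [Subgroup.orderOf_mk, T.g_ord] at hj
        have : 2 ∣ 3 ∨ j = 0 := by
          rcases Nat.eq_zero_or_pos j with e | e
          · exact Or.inr e
          · exact Or.inl (hj ▸ dvd_pow_self 2 e.ne')
        rcases this with e | e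
        · norm_num at e
        · rw [e] at hj; norm_num at hj
    have hmt : (m : G) * t = t * m := mem_cent_iff.1 m.2
    refine (mem_F_iff D T).2 ⟨hmt, fun y hy => ?_⟩
    obtain ⟨f, hf, w, hw, rfl⟩ := T.decomp y hy
    have hmw : (m : G) * w = w * m := by
      refine mul_inv_eq_iff_eq_mul.1 ?_
      refine mul_inv_eq_one.1 (hbot _ ?_ ?_)
      · rw [show (m : G) * w * (m : G)⁻¹ * w⁻¹ = m * (w * (m : G)⁻¹ * w⁻¹) by group]
        exact mul_mem (Subgroup.mem_map_of_mem _ hm)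
          (hKn w (T.X0_t w hw) _ (inv_mem (Subgroup.mem_map_of_mem _ hm)))
      · exact mul_mem (T.norm m hmt w hw) (inv_mem hw)
    calc (m : G) * (f * w) = ((m : G) * f) * w := by group
      _ = (f * m) * w := by rw [F_comm D T hf hmt]
      _ = f * (m * w) := by group
      _ = f * (w * m) := by rw [hmw]
      _ = f * w * m := by group
  · intro f hf
    refine ⟨⟨f, hFX hf⟩, ?_, rfl⟩
    have hn : (F.subgroupOf X).Normal := ⟨fun k hk a => by
      show (a : G) * (k : G) * (a : G)⁻¹ ∈ F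
      have := F_comm D T (show (k : G) ∈ F from hk) (mem_cent_iff.1 a.2)
      rw [← this, mul_inv_cancel_right]; exact hk⟩
    have hp : IsPGroup 2 ↥(F.subgroupOf X) :=
      (IsPGroup.of_card (p := 2) (n := 2) (by rw [T.card_F]; rfl)).comap_subtype
    have hle : F.subgroupOf X ≤ Cfsg.pCore 2 ↥X := le_sSup ⟨hn, hp⟩
    exact hle hf

theorem stabilize {h f : G} (hh : h * t * h⁻¹ = f) (hf : f ∈ F) (hf1 : f ≠ 1) :
    (∀ x, x * t = t * x ↔ h * x * h⁻¹ * t = t * (h * x * h⁻¹)) ∧ (∀ x ∈ F, h * x * h⁻¹ ∈ F) := by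
  have key : ∀ x, x * t = t * x ↔ h * x * h⁻¹ * t = t * (h * x * h⁻¹) := by
    intro x
    have e := cent_eq D T hf hf1
    constructor
    · intro hx
      have : h * x * h⁻¹ ∈ Subgroup.centralizer ({f} : Set G) := mem_cent_iff.2 (by
        rw [← hh]
        calc h * x * h⁻¹ * (h * t * h⁻¹) = h * (x * t) * h⁻¹ := by group
          _ = h * (t * x) * h⁻¹ := by rw [hx]
          _ = _ := by group)
      rw [e] at this
      exact mem_cent_iff.1 this
    · intro hx
      have : h * x * h⁻¹ ∈ Subgroup.centralizer ({f} : Set G) := by rw [e]; exact mem_cent_iff.2 hx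
      have h2 := mem_cent_iff.1 this
      rw [← hh] at h2
      calc x * t = h⁻¹ * (h * x * h⁻¹ * (h * t * h⁻¹)) * h := by group
        _ = h⁻¹ * (h * t * h⁻¹ * (h * x * h⁻¹)) * h := by rw [h2]
        _ = t * x := by group
  refine ⟨key, fun x hx => (mem_F_iff D T).2 ⟨(key x).1 (F_t D T hx), fun y hy => ?_⟩⟩
  have hy' : h⁻¹ * y * h * t = t * (h⁻¹ * y * h) := (key _).2 (by
    rw [show h * (h⁻¹ * y * h) * h⁻¹ = y by group]; exact hy)
  calc h * x * h⁻¹ * y = h * (x * (h⁻¹ * y * h)) * h⁻¹ := by group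
    _ = h * (h⁻¹ * y * h * x) * h⁻¹ := by rw [F_comm D T hx hy']
    _ = y * (h * x * h⁻¹) := by group

theorem exists_eta : ∃ n : G, orderOf n = 3 ∧ n * z = z * n ∧ n * u = u * n ∧
    (∀ y ∈ X0, n * y = y * n) ∧ (∀ f ∈ F, n * f * n⁻¹ ∈ F) ∧ (∀ f ∈ F, f ≠ 1 → n * f * n⁻¹ ≠ f) := by
  classical
  haveI : Fact (Nat.Prime 3) := ⟨Nat.prime_three⟩
  have h := D.setup
  -- an element moving `t` inside `F`
  obtain ⟨f, hf, hf1, hft⟩ : ∃ f ∈ F, f ≠ 1 ∧ f ≠ t := by
    obtain ⟨a, b, ha, hb, ha1, hb1, hab⟩ := exists_pair_of_four F T.card_F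
    by_cases hat : a = t
    · exact ⟨b, hb, hb1, fun e => hab (hat.trans e.symm)⟩
    · exact ⟨a, ha, ha1, hat⟩
  have hct : IsConj t f := by
    have := conj_t_of_mul D T hf hf1 X0.one_mem (one_mul 1)
    rwa [mul_one] at this
  obtain ⟨h0, hh0⟩ := isConj_iff.1 hct
  -- move the image of `z` back to `z`
  obtain ⟨hX, -⟩ := stabilize D T hh0 hf hf1
  have hzt : h0 * z * h0⁻¹ * t = t * (h0 * z * h0⁻¹) := (hX z).1 (T.X0_t z T.z_X0)
  have hz0 : h0 * z * h0⁻¹ ∈ X0 := by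
    obtain ⟨f', hf', y, hy, e⟩ := T.decomp _ hzt
    have hsq : f' * y * (f' * y) = 1 := e ▸ conj_sq h.z_sq
    have hyy := (sq_iff D T hf' hy).1 hsq
    by_cases hf'1 : f' = 1
    · rw [e, hf'1, one_mul]; exact hy
    · exact absurd ((e ▸ conj_t_of_mul D T hf' hf'1 hy hyy : IsConj t (h0 * z * h0⁻¹)).trans
        (isConj_iff.2 ⟨h0, rfl⟩ : IsConj z (h0 * z * h0⁻¹)).symm).symm D.nc
  obtain ⟨c, hc, hcz⟩ := exists_conj_z D T hz0 (conj_sq h.z_sq) (conj_ne_one h.z_ne)
  set h1 := c⁻¹ * h0 with hh1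
  have h1z : h1 * z * h1⁻¹ = z := by
    calc h1 * z * h1⁻¹ = c⁻¹ * (h0 * z * h0⁻¹) * c := by rw [hh1]; group
      _ = z := by rw [← hcz]; group
  have h1t : h1 * t * h1⁻¹ = f := by
    calc h1 * t * h1⁻¹ = c⁻¹ * (h0 * t * h0⁻¹) * c := by rw [hh1]; group
      _ = c⁻¹ * (f * c) := by rw [hh0]; group
      _ = c⁻¹ * (c * f) := by rw [T.comm f hf c hc]
      _ = f := by group
  obtain ⟨hX1, hF1⟩ := stabilize D T h1t hf hf1
  have h1zc : h1 * z = z * h1 := conj_eq_self_iff.1 h1z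
  have hfree : ∀ x ∈ F, x ≠ 1 → h1 * x * h1⁻¹ ≠ x := by
    intro x hx hx1 e
    have : h1 ∈ Subgroup.centralizer ({x} : Set G) := mem_cent_iff.2 (conj_eq_self_iff.1 e)
    rw [cent_eq D T hx hx1] at this
    exact hft (h1t.symm.trans (conj_eq_self_iff.2 (mem_cent_iff.1 this)))
  -- odd part
  obtain ⟨k, m, hmodd, hord⟩ := Nat.exists_eq_two_pow_mul_odd (orderOf_pos h1).ne'
  set n := h1 ^ (2 ^ k) with hn
  have hnm : n ^ m = 1 := by rw [hn, ← pow_mul, ← hord, pow_orderOf_eq_one]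
  have hpowF : ∀ j : ℕ, ∀ x ∈ F, h1 ^ j * x * (h1 ^ j)⁻¹ ∈ F := by
    intro j
    induction j with
    | zero => intro x hx; simpa using hx
    | succ j ih =>
      intro x hx
      rw [show h1 ^ (j + 1) * x * (h1 ^ (j + 1))⁻¹ = h1 * (h1 ^ j * x * (h1 ^ j)⁻¹) * h1⁻¹ by
        rw [pow_succ']; group]
      exact hF1 _ (ih x hx)
  have h3 : h1 ^ 3 * t * (h1 ^ 3)⁻¹ = t := by
    have hf2 := hF1 f hf
    have hne1 : h1 * f * h1⁻¹ ≠ f := hfree f hf hf1
    have hne2 : h1 * f * h1⁻¹ ≠ t := fun e => by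
      -- a transposition fixes the third involution
      have hftF : f * t ∈ F := mul_mem hf T.t_F
      refine hfree (f * t) hftF (fun e' => hft ((eq_inv_of_mul_eq_one_left e').trans (inv_of_sq D.t_sq))) ?_
      calc h1 * (f * t) * h1⁻¹ = (h1 * f * h1⁻¹) * (h1 * t * h1⁻¹) := by group
        _ = t * f := by rw [e, h1t]
        _ = f * t := (F_t D T hf).symm
    rw [show h1 ^ 3 * t * (h1 ^ 3)⁻¹ = h1 * (h1 * (h1 * t * h1⁻¹) * h1⁻¹) * h1⁻¹ by
      simp only [pow_succ, pow_zero, one_mul]; group, h1t]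
    -- the image of the third involution
    by_contra hne3
    have hg2 := hF1 _ hf2
    have hg2ne : h1 * (h1 * f * h1⁻¹) * h1⁻¹ ≠ h1 * f * h1⁻¹ := fun e =>
      hne1 (mul_left_cancel (mul_right_cancel e))
    have hg2nf : h1 * (h1 * f * h1⁻¹) * h1⁻¹ ≠ f := fun e => hne2 (by
      rw [← h1t] at e
      have := mul_left_cancel (mul_right_cancel e)
      rwa [h1t] at this)
    have hsub : ({1, t, f, h1 * f * h1⁻¹, h1 * (h1 * f * h1⁻¹) * h1⁻¹} : Set G) ⊆ (F : Set G) := by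
      intro x hx
      rcases hx with e | e | e | e | e
      · rw [e]; exact F.one_mem
      · rw [e]; exact T.t_F
      · rw [e]; exact hf
      · rw [e]; exact hf2
      · rw [Set.mem_singleton_iff.1 e]; exact hg2
    have hle := Set.ncard_le_ncard hsub
    rw [← Nat.card_coe_set_eq (F : Set G), SetLike.coe_sort_coe, T.card_F,
      Set.ncard_insert_of_notMem, Set.ncard_insert_of_notMem, Set.ncard_insert_of_notMem,
      Set.ncard_pair hg2ne.symm] at hle
    · omega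
    · simp only [Set.mem_insert_iff, Set.mem_singleton_iff, not_or]
      exact ⟨hne1.symm, hg2nf.symm⟩
    · simp only [Set.mem_insert_iff, Set.mem_singleton_iff, not_or]
      exact ⟨hft.symm, hne2.symm, Ne.symm hne3⟩
    · simp only [Set.mem_insert_iff, Set.mem_singleton_iff, not_or]
      exact ⟨D.t_ne.symm, hf1.symm, (conj_ne_one hf1).symm, (conj_ne_one (conj_ne_one hf1)).symm⟩
  have hnfree : ∀ x ∈ F, x ≠ 1 → n * x * n⁻¹ ≠ x := by
    intro x hx hx1 e
    have hnx : n * t = t * n := by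
      have : n ∈ Subgroup.centralizer ({x} : Set G) := mem_cent_iff.2 (conj_eq_self_iff.1 e)
      rw [cent_eq D T hx hx1] at this
      exact mem_cent_iff.1 this
    have h3' : h1 ^ 3 * t = t * h1 ^ 3 := conj_eq_self_iff.1 h3
    have hcop : Nat.Coprime (2 ^ k) 3 := Nat.Coprime.pow_left k (by norm_num)
    obtain ⟨j, hj⟩ := Nat.exists_mul_mod_eq_one_of_coprime hcop (by norm_num)
    have hcm : Commute (h1 ^ ((2 ^ k) * j)) t := by
      rw [pow_mul]; exact Commute.pow_left hnx j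
    have hdiv : 2 ^ k * j = 3 * ((2 ^ k * j) / 3) + 1 := by omega
    rw [hdiv, pow_add, pow_one, pow_mul] at hcm
    have hc3 : Commute (((h1 ^ 3) ^ ((2 ^ k * j) / 3))⁻¹) t :=
      (Commute.pow_left h3' _).inv_left
    have := hc3.mul_left hcm
    rw [inv_mul_cancel_left] at this
    exact hft (h1t.symm.trans (conj_eq_self_iff.2 this.eq))
  have hnz : n * z = z * n := h.comm_pow h1zc _
  have hnF : ∀ x ∈ F, n * x * n⁻¹ ∈ F := fun x hx => hpowF _ x hx
  have hnE : ∀ x ∈ E, n * x * n⁻¹ ∈ E := by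
    have h1E : ∀ x ∈ E, h1 * x * h1⁻¹ ∈ E := fun x hx =>
      (D.mem_E _).2 ⟨h.comm_mul (h.comm_mul h1zc ((D.mem_E x).1 hx).1) (h.comm_inv h1zc),
        (hX1 x).1 ((D.mem_E x).1 hx).2⟩
    have : ∀ j : ℕ, ∀ x ∈ E, h1 ^ j * x * (h1 ^ j)⁻¹ ∈ E := by
      intro j
      induction j with
      | zero => intro x hx; simpa using hx
      | succ j ih =>
        intro x hx
        rw [show h1 ^ (j + 1) * x * (h1 ^ (j + 1))⁻¹ = h1 * (h1 ^ j * x * (h1 ^ j)⁻¹) * h1⁻¹ by
          rw [pow_succ']; group]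
        exact h1E _ (ih x hx)
    exact this _
  -- odd order fixes `u`
  have hnu : n * u = u * n := by
    obtain ⟨h1', h2', h3', -⟩ := D.perm hnE D.u_E D.u_mem.1 D.u_mem.2.2.1
    have hcase : n * u * n⁻¹ = u ∨ n * u * n⁻¹ = z * u := by
      rcases D.E_Q _ h1' h2' with e | e | e | e
      · exact absurd e h3'
      · exfalso
        refine D.u_mem.2.2.2 ?_
        calc u = n⁻¹ * (n * u * n⁻¹) * n := by group
          _ = n⁻¹ * (z * n) := by rw [e]; group
          _ = z := by rw [← hnz]; group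
      · exact Or.inl e
      · exact Or.inr e
    refine conj_eq_self_iff.1 (hcase.resolve_right fun e => ?_)
    have hpar : ∀ j : ℕ, n ^ (2 * j + 1) * u * (n ^ (2 * j + 1))⁻¹ = z * u := by
      intro j
      induction j with
      | zero => simpa using e
      | succ j ih =>
        rw [show n ^ (2 * (j + 1) + 1) * u * (n ^ (2 * (j + 1) + 1))⁻¹ =
          n * (n * (n ^ (2 * j + 1) * u * (n ^ (2 * j + 1))⁻¹) * n⁻¹) * n⁻¹ by
            rw [show 2 * (j + 1) + 1 = 2 * j + 1 + 1 + 1 by ring, pow_succ', pow_succ']; group, ih]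
        calc n * (n * (z * u) * n⁻¹) * n⁻¹
            = n * ((n * z) * u * n⁻¹) * n⁻¹ := by group
          _ = n * ((z * n) * u * n⁻¹) * n⁻¹ := by rw [hnz]
          _ = (n * z) * (n * u * n⁻¹) * n⁻¹ := by group
          _ = (z * n) * (z * u) * n⁻¹ := by rw [hnz, e]
          _ = z * ((n * z) * u * n⁻¹) := by group
          _ = z * ((z * n) * u * n⁻¹) := by rw [hnz]
          _ = (z * z) * (n * u * n⁻¹) := by group
          _ = z * u := by rw [h.z_sq, one_mul, e]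
    obtain ⟨j, hj⟩ := hmodd
    have := hpar j
    rw [← hj, hnm] at this
    simp only [one_mul, inv_one, mul_one] at this
    exact h.z_ne (mul_eq_right.1 this.symm)
  -- `n` normalizes the alternating factor
  have hnt : ∀ x, x * t = t * x → n * x * n⁻¹ * t = t * (n * x * n⁻¹) := by
    have hnf : n * t * n⁻¹ ∈ F := hnF t T.t_F
    exact fun x hx => ((stabilize D T rfl hnf (conj_ne_one D.t_ne)).1 x).1 hx
  have hnX0 : ∀ y ∈ X0, n * y * n⁻¹ ∈ X0 := by
    obtain ⟨e⟩ := T.iso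
    haveI hs : IsSimpleGroup ↥X0 :=
      haveI : IsSimpleGroup A5 := alternatingGroup.isSimpleGroup (by simp)
      e.isSimpleGroup
    set K := X0.map (MulAut.conj n).toMonoidHom with hK
    have hKt : ∀ k ∈ K, k * t = t * k := by
      rintro _ ⟨y, hy, rfl⟩
      exact hnt y (T.X0_t y hy)
    haveI hKs : IsSimpleGroup ↥K :=
      (X0.equivMapOfInjective _ (MulAut.conj n).injective).symm.isSimpleGroup
    have hn' : (X0.subgroupOf K).Normal := ⟨fun a ha k => T.norm k (hKt k k.2) a ha⟩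
    rcases hn'.eq_bot_or_eq_top with hb | hb
    · exfalso
      -- then the image would centralize the factor
      have hzK : n * z * n⁻¹ ∈ K := ⟨z, T.z_X0, rfl⟩
      have : (⟨n * z * n⁻¹, hzK⟩ : ↥K) ∈ X0.subgroupOf K := by
        show n * z * n⁻¹ ∈ X0
        rw [conj_eq_self_iff.2 hnz]; exact T.z_X0
      rw [hb, Subgroup.mem_bot] at this
      exact conj_ne_one h.z_ne (congrArg Subtype.val this)
    · exact fun y hy => Subgroup.subgroupOf_eq_top.1 hb ⟨y, hy, rfl⟩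
  -- correct by an element of the four group
  set W := E ⊓ X0 with hW
  have hWlist : ∀ w, w ∈ W → w = 1 ∨ w = z ∨ w = u ∨ w = z * u := by
    intro w hw
    refine D.E_Q w hw.1 ?_
    by_cases hw1 : w = 1
    · exact hw1 ▸ Q.one_mem
    exact D.mem_of_conj_z ((D.mem_E w).1 hw.1).1 (conj_z_of_mem D T hw.2 (D.E_sq w hw.1) hw1)
  have hfixW : ∀ w ∈ W, n * w * n⁻¹ = w := by
    intro w hw
    rcases hWlist w hw with e | e | e | e <;> rw [e]
    · group
    · exact conj_eq_self_iff.2 hnz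
    · exact conj_eq_self_iff.2 hnu
    · exact conj_eq_self_iff.2 (Commute.mul_right (show Commute n z from hnz) hnu).eq
  have hgW : ∀ w ∈ W, g * w * g⁻¹ ∈ W := fun w hw =>
    ⟨T.g_E w hw.1, T.norm g (T.X0_t g T.g_mem) w hw.2⟩
  have hdiff : ∀ w, w ∈ W → g⁻¹ * (w * g * w⁻¹) ∈ W := fun w hw => by
    have hgi : g⁻¹ * w * g ∈ W := by
      have hg3 : g ^ 3 = 1 := by rw [← T.g_ord, pow_orderOf_eq_one]
      rw [show g⁻¹ * w * g = g⁻¹ * g ^ 3 * w * (g⁻¹ * g ^ 3)⁻¹ by rw [hg3]; group,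
        show g⁻¹ * g ^ 3 * w * (g⁻¹ * g ^ 3)⁻¹ = g * (g * w * g⁻¹) * g⁻¹ by
          simp only [pow_succ, pow_zero, one_mul]; group]
      exact hgW _ (hgW w hw)
    rw [show g⁻¹ * (w * g * w⁻¹) = (g⁻¹ * w * g) * w⁻¹ by group]
    exact mul_mem hgi (inv_mem hw)
  have hg' : g⁻¹ * (n * g * n⁻¹) ∈ W := by
    have hy : n * g * n⁻¹ ∈ X0 := hnX0 g T.g_mem
    have hmem : g⁻¹ * (n * g * n⁻¹) ∈ X0 := mul_mem (inv_mem T.g_mem) hy
    refine ⟨D.mem_E_of_comm D.z_E (IsConj.refl z) ?_ (T.X0_t _ hmem), hmem⟩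
    have hzW : z ∈ W := ⟨D.z_E, T.z_X0⟩
    have e1 : n * (g * z * g⁻¹) * n⁻¹ = g * z * g⁻¹ := hfixW _ (hgW z hzW)
    refine conj_eq_self_iff.1 ?_
    calc g⁻¹ * (n * g * n⁻¹) * z * (g⁻¹ * (n * g * n⁻¹))⁻¹
        = g⁻¹ * (n * g * (n⁻¹ * z * n) * g⁻¹ * n⁻¹) * g := by group
      _ = g⁻¹ * (n * (g * z * g⁻¹) * n⁻¹) * g := by
          rw [show n⁻¹ * z * n = z by rw [mul_assoc, ← hnz, inv_mul_cancel_left]]; group
      _ = z := by rw [e1]; group
  obtain ⟨w, hw, hwg⟩ : ∃ w ∈ W, w * (n * g * n⁻¹) * w⁻¹ = g := by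
    have hinj : Set.InjOn (fun w => g⁻¹ * (w * g * w⁻¹)) (W : Set G) := by
      intro a ha b hb e
      have e' : a * g * a⁻¹ = b * g * b⁻¹ := mul_left_cancel e
      by_contra hne
      have hab : b⁻¹ * a ∈ W := mul_mem (inv_mem hb) ha
      have hc : (b⁻¹ * a) * g * (b⁻¹ * a)⁻¹ = g := by
        calc (b⁻¹ * a) * g * (b⁻¹ * a)⁻¹ = b⁻¹ * (a * g * a⁻¹) * b := by group
          _ = g := by rw [e']; group
      have hab1 : b⁻¹ * a ≠ 1 := fun e0 => hne (inv_mul_eq_one.1 e0).symm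
      have hzc : IsConj z (b⁻¹ * a) := conj_z_of_mem D T hab.2 (D.E_sq _ hab.1) hab1
      have hgE := D.mem_E_of_comm hab.1 hzc (conj_eq_self_iff.1 hc).symm (T.X0_t g T.g_mem)
      exact T.g_moves (conj_eq_self_iff.2 (D.comm_E hgE D.z_E))
    have himage : (fun w => g⁻¹ * (w * g * w⁻¹)) '' (W : Set G) = (W : Set G) := by
      refine Set.eq_of_subset_of_ncard_le ?_ ?_
      · rintro _ ⟨w, hw, rfl⟩; exact hdiff w hw
      · rw [Set.InjOn.ncard_image hinj]
    obtain ⟨w, hw, e⟩ : g⁻¹ * (n * g * n⁻¹) ∈ (fun w => g⁻¹ * (w * g * w⁻¹)) '' (W : Set G) := by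
      rw [himage]; exact hg'
    refine ⟨w⁻¹, inv_mem hw, ?_⟩
    rw [← mul_left_cancel e]; group
  set n1 := w * n with hn1
  have hwt : w * t = t * w := T.X0_t w hw.2
  have hn1X : ∀ y ∈ X0, n1 * y * n1⁻¹ ∈ X0 := fun y hy => by
    rw [show n1 * y * n1⁻¹ = w * (n * y * n⁻¹) * w⁻¹ by rw [hn1]; group]
    exact T.norm w hwt _ (hnX0 y hy)
  have hn1W : ∀ v ∈ W, n1 * v * n1⁻¹ = v := fun v hv => by
    rw [show n1 * v * n1⁻¹ = w * (n * v * n⁻¹) * w⁻¹ by rw [hn1]; group, hfixW v hv,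
      D.comm_E hw.1 hv.1, mul_inv_cancel_right]
  have hn1c : ∀ y ∈ X0, n1 * y * n1⁻¹ = y := by
    obtain ⟨e⟩ := T.iso
    let φ : ↥X0 →* ↥X0 :=
      { toFun := fun x => ⟨n1 * x * n1⁻¹, hn1X x x.2⟩
        map_one' := Subtype.ext (by show n1 * 1 * n1⁻¹ = 1; group)
        map_mul' := fun a b => Subtype.ext (by
          show n1 * ((a : G) * b) * n1⁻¹ = n1 * a * n1⁻¹ * (n1 * b * n1⁻¹); group) }
    have hφ : Function.Bijective φ := Finite.injective_iff_bijective.1 fun a b e' =>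
      Subtype.ext (mul_left_cancel (mul_right_cancel (congrArg Subtype.val e' :)))
    intro y hy
    have hg3 : g ^ 3 = 1 := by rw [← T.g_ord, pow_orderOf_eq_one]
    have key := eq_self_of_fixed e (MulEquiv.ofBijective φ hφ) (r := ⟨g, T.g_mem⟩) (w := ⟨z, T.z_X0⟩)
      (Subtype.ext hg3) (fun e' => by
        have := T.g_ord
        rw [show g = 1 from congrArg Subtype.val e', orderOf_one] at this; omega)
      (Subtype.ext h.z_sq) (fun e' => h.z_ne (congrArg Subtype.val e'))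
      (Subtype.ext (D.comm_E D.z_E (T.g_E z D.z_E)))
      (Subtype.ext (show n1 * g * n1⁻¹ = g by
        rw [show n1 * g * n1⁻¹ = w * (n * g * n⁻¹) * w⁻¹ by rw [hn1]; group, hwg]))
      (Subtype.ext (hn1W z ⟨D.z_E, T.z_X0⟩)) ⟨y, hy⟩
    exact congrArg Subtype.val key
  have hn1F : ∀ x ∈ F, n1 * x * n1⁻¹ = n * x * n⁻¹ := fun x hx => by
    rw [show n1 * x * n1⁻¹ = w * (n * x * n⁻¹) * w⁻¹ by rw [hn1]; group,
      ← T.comm _ (hnF x hx) w hw.2, mul_inv_cancel_right]
  have hn1z : n1 * z = z * n1 := conj_eq_self_iff.1 (hn1W z ⟨D.z_E, T.z_X0⟩)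
  have hn1u : n1 * u = u * n1 := conj_eq_self_iff.1 (hn1W u ⟨D.u_E, T.u_X0⟩)
  -- the cube lies in `F`
  have h13 : n1 ^ 3 ∈ F := by
    have hcz : ∀ y ∈ X0, Commute (n1 ^ 3) y := fun y hy =>
      (show Commute n1 y from conj_eq_self_iff.1 (hn1c y hy)).pow_left 3
    have ht3 : n1 ^ 3 * t = t * n1 ^ 3 := by
      refine conj_eq_self_iff.1 ?_
      have e1 : ∀ x ∈ F, n1 * x * n1⁻¹ ∈ F := fun x hx => hn1F x hx ▸ hnF x hx
      have hn3 : n ^ 3 * t = t * n ^ 3 := by
        rw [hn, ← pow_mul, mul_comm, pow_mul]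
        exact (Commute.pow_left (show Commute (h1 ^ 3) t from conj_eq_self_iff.1 h3) _).eq
      rw [show n1 ^ 3 * t * (n1 ^ 3)⁻¹ = n1 * (n1 * (n1 * t * n1⁻¹) * n1⁻¹) * n1⁻¹ by
        simp only [pow_succ, pow_zero, one_mul]; group,
        hn1F t T.t_F, hn1F _ (hnF t T.t_F), hn1F _ (hnF _ (hnF t T.t_F)),
        show n * (n * (n * t * n⁻¹) * n⁻¹) * n⁻¹ = n ^ 3 * t * (n ^ 3)⁻¹ by
          simp only [pow_succ, pow_zero, one_mul]; group]
      exact conj_eq_self_iff.2 hn3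
    obtain ⟨f', hf', y, hy, e⟩ := T.decomp _ ht3
    have hy1 : y = 1 := eq_one_of_central D T hy fun x hx => by
      refine mul_left_cancel (a := f') ?_
      calc f' * (x * y) = (f' * x) * y := by group
        _ = (x * f') * y := by rw [T.comm f' hf' x hx]
        _ = x * n1 ^ 3 := by rw [e]; group
        _ = n1 ^ 3 * x := (hcz x hx).symm.eq
        _ = f' * (y * x) := by rw [e]; group
    rw [e, hy1, mul_one]; exact hf'
  have hfree1 : ∀ x ∈ F, x ≠ 1 → n1 * x * n1⁻¹ ≠ x := fun x hx hx1 => by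
    rw [hn1F x hx]; exact hnfree x hx hx1
  have h13' : n1 ^ 3 = 1 := by
    by_contra hne
    refine hfree1 _ h13 hne ?_
    group
  refine ⟨n1, orderOf_eq_prime h13' (fun e => hfree1 t T.t_F D.t_ne (by rw [e]; group)), hn1z, hn1u,
    fun y hy => conj_eq_self_iff.1 (hn1c y hy), fun x hx => hn1F x hx ▸ hnF x hx, hfree1⟩

end CTData

end CfsgLib.J2Type
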