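import Cfsg.Agent.J2Type.CTData
import Cfsg.Agent.InvolChar.Alt5Counts

/-!
The classes in `C(t)` and the order of a group of Hall-Janko type.
-/

set_option autoImplicit false

namespace CfsgLib.J2Type

variable {G : Type*} [Group G] [Finite G] {z u t r g : G} {Q E X0 F : Subgroup G} {img : G → A5}

namespace CTData

variable (D : Data z u t r Q E img) (T : CTData z u t E X0 F g)
include D T

theorem F_sq {f : G} (hf : f ∈ F) : f * f = 1 := D.E_sq f (T.F_le hf)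

theorem F_t {f : G} (hf : f ∈ F) : f * t = t * f := ((D.mem_E f).1 (T.F_le hf)).2

theorem F_notMem {f : G} (hf : f ∈ F) (hf1 : f ≠ 1) : f ∉ Q := fun hQ => hf1 (T.indep f hf (by
  rcases D.E_Q f (T.F_le hf) hQ with e | e | e | e
  · rw [e]; exact X0.one_mem
  · rw [e]; exact T.z_X0
  · rw [e]; exact T.u_X0
  · rw [e]; exact mul_mem T.z_X0 T.u_X0))

theorem exists_conj_z {y : G} (hy : y ∈ X0) (hyy : y * y = 1) (hy1 : y ≠ 1) :
    ∃ c ∈ X0, c * z * c⁻¹ = y := by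
  obtain ⟨e⟩ := T.iso
  obtain ⟨c, hc⟩ := A5Facts.invol_conj (e ⟨z, T.z_X0⟩)
    (by rw [← map_mul, show (⟨z, T.z_X0⟩ : ↥X0) * ⟨z, T.z_X0⟩ = 1 from Subtype.ext D.setup.z_sq,
      map_one])
    (fun h => D.setup.z_ne (congrArg Subtype.val (e.injective (h.trans e.map_one.symm))))
    (e ⟨y, hy⟩)
    (by rw [← map_mul, show (⟨y, hy⟩ : ↥X0) * ⟨y, hy⟩ = 1 from Subtype.ext hyy, map_one])
    (fun h => hy1 (congrArg Subtype.val (e.injective (h.trans e.map_one.symm))))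
  refine ⟨(e.symm c : G), (e.symm c).2, ?_⟩
  have := congrArg (fun p => ((e.symm p : ↥X0) : G)) hc
  simpa using this

theorem conj_z_of_mem {y : G} (hy : y ∈ X0) (hyy : y * y = 1) (hy1 : y ≠ 1) : IsConj z y := by
  obtain ⟨c, -, hc⟩ := exists_conj_z D T hy hyy hy1
  exact isConj_iff.2 ⟨c, hc⟩

theorem conj_t_of_mul {f y : G} (hf : f ∈ F) (hf1 : f ≠ 1) (hy : y ∈ X0) (hyy : y * y = 1) :
    IsConj t (f * y) := by
  have hfE := T.F_le hf
  by_cases hy1 : y = 1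
  · subst hy1
    rw [mul_one]
    exact D.conj_t_of_not_mem ((D.mem_E f).1 hfE).1 (F_sq D T hf) (F_notMem D T hf hf1)
  obtain ⟨c, hc, rfl⟩ := exists_conj_z D T hy hyy hy1
  have h1 : IsConj t (f * z) := D.conj_t_of_not_mem
    ((D.mem_E _).1 (mul_mem hfE D.z_E)).1 (D.E_sq _ (mul_mem hfE D.z_E)) fun hQ =>
      F_notMem D T hf hf1 (by
        rw [show f = f * z * z⁻¹ by group]
        exact Q.mul_mem hQ (Q.inv_mem D.setup.z_mem))
  refine h1.trans (isConj_iff.2 ⟨c, ?_⟩)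
  calc c * (f * z) * c⁻¹ = (c * f) * z * c⁻¹ := by group
    _ = (f * c) * z * c⁻¹ := by rw [T.comm f hf c hc]
    _ = f * (c * z * c⁻¹) := by group

theorem sq_iff {f y : G} (hf : f ∈ F) (hy : y ∈ X0) : f * y * (f * y) = 1 ↔ y * y = 1 := by
  have e : f * y * (f * y) = y * y := by
    calc f * y * (f * y) = f * (y * f) * y := by group
      _ = f * (f * y) * y := by rw [T.comm f hf y hy]
      _ = (f * f) * (y * y) := by group
      _ = _ := by rw [F_sq D T hf, one_mul]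
  rw [e]

theorem card_centralizer : Nat.card ↥(Subgroup.centralizer ({t} : Set G)) = 240 := by
  obtain ⟨e⟩ := T.iso
  have h1 : Nat.card (↥F × ↥X0) = 240 := by
    rw [Nat.card_prod, T.card_F, Nat.card_congr e.toEquiv, A5Facts.card]
  rw [← h1]
  refine (Nat.card_eq_of_bijective (fun p : ↥F × ↥X0 => (⟨(p.1 : G) * p.2,
    mul_mem (mem_cent_iff.2 (F_t D T p.1.2)) (mem_cent_iff.2 (T.X0_t _ p.2.2))⟩ :
      ↥(Subgroup.centralizer ({t} : Set G)))) ⟨?_, ?_⟩).symm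
  · rintro ⟨a, b⟩ ⟨c, d⟩ h
    have h' : (a : G) * b = c * d := congrArg Subtype.val h
    have e1 : (c : G)⁻¹ * a = d * (b : G)⁻¹ := by
      calc (c : G)⁻¹ * a = (c : G)⁻¹ * (a * b) * (b : G)⁻¹ := by group
        _ = d * (b : G)⁻¹ := by rw [h']; group
    have e2 := T.indep _ (mul_mem (inv_mem c.2) a.2) (e1 ▸ mul_mem d.2 (inv_mem b.2))
    rw [e2] at e1
    exact Prod.ext (Subtype.ext (inv_mul_eq_one.1 e2).symm)
      (Subtype.ext (mul_inv_eq_one.1 e1.symm).symm)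
  · rintro ⟨x, hx⟩
    obtain ⟨f, hf, y, hy, rfl⟩ := T.decomp x (mem_cent_iff.1 hx)
    exact ⟨(⟨f, hf⟩, ⟨y, hy⟩), rfl⟩

theorem count_t :
    Nat.card {p : G × G // IsConj z p.1 ∧ IsConj t p.2 ∧ t ∈ Subgroup.zpowers (p.1 * p.2)} = 195 := by
  classical
  obtain ⟨e⟩ := T.iso
  haveI := Fintype.ofFinite ↥X0
  let S := {p : ↥X0 × ↥X0 // (p.1 * p.1 = 1 ∧ p.1 ≠ 1) ∧ p.2 * p.2 = 1 ∧ (p.1 * p.2) ^ 15 = 1}
  let SA := {p : A5 × A5 // (p.1 * p.1 = 1 ∧ p.1 ≠ 1) ∧ p.2 * p.2 = 1 ∧ (p.1 * p.2) ^ 15 = 1}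
  have hSA : Nat.card SA = 195 := by
    let e2 : SA ≃ Σ b : {b : A5 // b * b = 1 ∧ b ≠ 1},
        {x : A5 // x * x = 1 ∧ (b.1 * x) ^ 15 = 1} :=
      { toFun := fun p => ⟨⟨p.1.1, p.2.1⟩, ⟨p.1.2, p.2.2⟩⟩
        invFun := fun p => ⟨(p.1.1, p.2.1), p.1.2, p.2.2⟩
        left_inv := fun _ => rfl
        right_inv := fun _ => rfl }
    rw [Nat.card_congr e2, Nat.card_sigma, Finset.sum_congr rfl fun b _ => by
      rw [Nat.card_eq_fintype_card, Fintype.card_subtype,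
        InvolChar.alt5_count_odd_product b.1 b.2.1 b.2.2],
      Finset.sum_const, Finset.card_univ, Fintype.card_subtype]
    have h15 : (Finset.univ.filter fun b : A5 => b * b = 1 ∧ b ≠ 1).card = 15 := by
      rw [show (Finset.univ.filter fun b : A5 => b * b = 1 ∧ b ≠ 1) =
        (Finset.univ.filter fun b : A5 => b * b = 1).erase 1 by ext x; simp [and_comm],
        Finset.card_erase_of_mem (by simp), InvolChar.alt5_count_sq_one]
    rw [h15]; rfl
  have hS : Nat.card S = Nat.card SA := by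
    refine Nat.card_congr (Equiv.subtypeEquiv (Equiv.prodCongr e.toEquiv e.toEquiv) fun p => ?_)
    obtain ⟨p, q⟩ := p
    show ((p * p = 1 ∧ p ≠ 1) ∧ q * q = 1 ∧ (p * q) ^ 15 = 1) ↔
      ((e p * e p = 1 ∧ e p ≠ 1) ∧ e q * e q = 1 ∧ (e p * e q) ^ 15 = 1)
    rw [← map_mul, ← map_mul, ← map_mul, ← map_pow, map_eq_one_iff e e.injective,
      map_eq_one_iff e e.injective, map_eq_one_iff e e.injective]
    simp only [ne_eq, map_eq_one_iff e e.injective]
  rw [← hSA, ← hS]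
  symm
  refine Nat.card_eq_of_bijective (fun p : S => ⟨((p.1.1 : G), t * (p.1.2 : G)), ?_, ?_, ?_⟩) ⟨?_, ?_⟩
  · exact conj_z_of_mem D T p.1.1.2 (congrArg Subtype.val p.2.1.1)
      fun h => p.2.1.2 (Subtype.ext h)
  · exact conj_t_of_mul D T T.t_F D.t_ne p.1.2.2 (congrArg Subtype.val p.2.2.1)
  · refine Subgroup.mem_zpowers_iff.mpr ⟨15, ?_⟩
    have hc : Commute t ((p.1.1 * p.1.2 : ↥X0) : G) := T.comm t T.t_F _ (p.1.1 * p.1.2).2
    have h : (p.1.1 : G) * (t * (p.1.2 : G)) = t * ((p.1.1 * p.1.2 : ↥X0) : G) := by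
      rw [Subgroup.coe_mul, ← mul_assoc, ← T.comm t T.t_F _ p.1.1.2, mul_assoc]
    show ((p.1.1 : G) * (t * (p.1.2 : G))) ^ (15 : ℤ) = t
    rw [h, show (15 : ℤ) = ((15 : ℕ) : ℤ) from rfl, zpow_natCast, hc.mul_pow,
      ← Subgroup.coe_pow, p.2.2.2]
    simp [pow_succ, D.t_sq]
  · rintro ⟨⟨a, b⟩, _⟩ ⟨⟨a', b'⟩, _⟩ hxy
    have h1 := congrArg (fun q : {q : G × G // _} => q.1.1) hxy
    have h2 := congrArg (fun q : {q : G × G // _} => q.1.2) hxy
    simp only at h1 h2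
    exact Subtype.ext (Prod.ext (Subtype.ext h1) (Subtype.ext (mul_left_cancel h2)))
  · rintro ⟨⟨a, b⟩, ha, hb, hmem⟩
    replace ha : IsConj z a := ha
    replace hb : IsConj t b := hb
    replace hmem : t ∈ Subgroup.zpowers (a * b) := hmem
    have haa := sq_of_isConj D.setup.z_sq ha
    have hbb := sq_of_isConj D.t_sq hb
    obtain ⟨hat, hbt⟩ := commute_of_mem_zpowers_mul haa hbb D.t_sq hmem
    obtain ⟨f1, hf1, y1, hy1, rfl⟩ := T.decomp a hat
    obtain ⟨f2, hf2, y2, hy2, rfl⟩ := T.decomp b hbt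
    have hyy1 := (sq_iff D T hf1 hy1).1 haa
    have hyy2 := (sq_iff D T hf2 hy2).1 hbb
    have hf1' : f1 = 1 := by
      by_contra hne
      exact D.nc (ha.trans (conj_t_of_mul D T hf1 hne hy1 hyy1).symm)
    subst hf1'
    rw [one_mul] at ha haa hmem
    simp only [one_mul]
    have hy1ne : y1 ≠ 1 := ne_one_of_isConj D.setup.z_ne ha
    have hf2ne : f2 ≠ 1 := fun h => by
      subst h
      have hb' : IsConj t (1 * y2) := hb
      rw [one_mul] at hb'
      by_cases hy2' : y2 = 1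
      · exact ne_one_of_isConj D.t_ne hb' hy2'
      · exact D.nc ((conj_z_of_mem D T hy2 hyy2 hy2').trans hb'.symm)
    rw [show y1 * (f2 * y2) = f2 * (y1 * y2) by
      rw [← mul_assoc, ← T.comm f2 hf2 y1 hy1, mul_assoc]] at hmem
    obtain ⟨j, hj⟩ := Subgroup.mem_zpowers_iff.1 hmem
    have hc : Commute f2 (y1 * y2) := T.comm f2 hf2 _ (mul_mem hy1 hy2)
    rw [hc.mul_zpow] at hj
    have hy0 : (y1 * y2) ^ j = 1 := by
      refine T.indep _ ?_ (zpow_mem (mul_mem hy1 hy2) j)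
      rw [show (y1 * y2) ^ j = (f2 ^ j)⁻¹ * (f2 ^ j * (y1 * y2) ^ j) by group, hj]
      exact mul_mem (inv_mem (zpow_mem hf2 j)) T.t_F
    rw [hy0, mul_one] at hj
    have hf2sq : f2 ^ (2 : ℤ) = 1 := by rw [zpow_two, F_sq D T hf2]
    rcases Int.even_or_odd j with ⟨i, hi⟩ | ⟨i, hi⟩
    · exfalso
      rw [hi, ← two_mul, zpow_mul, hf2sq, one_zpow] at hj
      exact D.t_ne hj.symm
    · rw [hi, zpow_add, zpow_mul, hf2sq, one_zpow, one_mul, zpow_one] at hj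
      have h15 : ((⟨y1, hy1⟩ : ↥X0) * ⟨y2, hy2⟩) ^ 15 = 1 := by
        set y : ↥X0 := ⟨y1, hy1⟩ * ⟨y2, hy2⟩ with hy
        have h30 : y ^ (30 : ℤ) = 1 := by
          refine e.injective ?_
          rw [map_zpow, map_one, show (30 : ℤ) = ((30 : ℕ) : ℤ) from rfl, zpow_natCast]
          exact InvolChar.alt5_pow_thirty _
        have hyj : y ^ (2 * i + 1) = 1 := Subtype.ext (by rw [← hi]; exact hy0)
        have : y ^ (15 : ℤ) = 1 := by
          calc y ^ (15 : ℤ) = (y ^ (2 * i + 1)) ^ (15 : ℤ) * ((y ^ (30 : ℤ)) ^ i)⁻¹ := by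
                rw [← zpow_mul, ← zpow_mul, ← zpow_neg, ← zpow_add]; congr 1; ring
            _ = 1 := by rw [hyj, h30]; simp
        rw [← zpow_natCast]
        exact this
      refine ⟨⟨(⟨y1, hy1⟩, ⟨y2, hy2⟩), ⟨Subtype.ext hyy1, fun h => hy1ne (congrArg Subtype.val h)⟩,
        Subtype.ext hyy2, h15⟩, Subtype.ext (Prod.ext rfl ?_)⟩
      show t * y2 = f2 * y2
      rw [hj]

theorem card_G : Nat.card G = 604800 := by
  rw [D.order_formula, card_centralizer D T, count_t D T]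

end CTData

end CfsgLib.J2Type
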