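import Cfsg.Agent.J2Type.ThreeSylow

/-!
The Sylow subgroups for the prime seven and their normalizers.
-/

set_option autoImplicit false

namespace CfsgLib.J2Type

variable {G : Type*} [Group G] [Finite G]

theorem card_sylow_seven (hG : Nat.card G = 604800) [Fact (Nat.Prime 7)] (S : Sylow 7 G) :
    Nat.card (S : Subgroup G) = 7 := by
  obtain ⟨m, hm⟩ := IsPGroup.iff_card.1 S.isPGroup'
  have h1 : 7 ^ 1 ∣ Nat.card (S : Subgroup G) :=
    S.pow_dvd_card_of_pow_dvd_card (by rw [hG]; norm_num)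
  have h2 : 7 ^ m ∣ 604800 := by rw [← hm, ← hG]; exact Subgroup.card_subgroup_dvd_card _
  rw [hm] at h1 ⊢
  have hm2 : 1 ≤ m := (Nat.pow_dvd_pow_iff_le_right (by norm_num)).1 h1
  have hm3 : m < 2 := by
    by_contra hlt
    have := (pow_dvd_pow 7 (show 2 ≤ m by omega)).trans h2
    norm_num at this
  rw [show m = 1 by omega]; norm_num

theorem ThreeData.noncentral_conj {g n : G} {F P X0 : Subgroup G} (V : ThreeData g n F P)
    (hX : Nonempty (↥X0 ≃* A5)) (hgX : g ∈ X0) (hnX : ∀ y ∈ X0, n * y = y * n) {x : G}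
    (hx : x ∈ P) (hxn : x ∉ Subgroup.zpowers n) : IsConj g x := by
  have horb := conj_orbit_card_mul (Subgroup.normalizer (P : Set G)) g
  rw [V.card_inf_cent, V.card_normalizer hX hgX hnX] at horb
  have heq := Set.eq_of_subset_of_ncard_le V.orbit_sub
    (by rw [V.ncard_noncentral]; omega)
  have hm : x ∈ (P : Set G) \ (Subgroup.zpowers n : Set G) := ⟨hx, hxn⟩
  rw [← heq] at hm
  obtain ⟨a, -, rfl⟩ := hm
  exact isConj_iff.2 ⟨a, rfl⟩

theorem dvd_card_cent_of_isConj {a w v : G} (h : IsConj a w) (hc : v * w = w * v) :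
    orderOf v ∣ Nat.card (Subgroup.centralizer ({a} : Set G)) := by
  obtain ⟨c, rfl⟩ := isConj_iff.1 h
  rw [← card_cent_conj c a]
  exact Subgroup.orderOf_dvd_natCard _ (mem_cent_iff.2 hc)

namespace CTData

variable {z u t r g : G} {Q E X0 F : Subgroup G} {img : G → A5}
variable (D : Data z u t r Q E img) (T : CTData z u t E X0 F g)
include D T

theorem sylow_seven {n : G} {P : Subgroup G} (N : EtaData z X0 F n) (V : ThreeData g n F P)
    (S : Sylow 7 G) :
    Subgroup.centralizer ((S : Subgroup G) : Set G) = S ∧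
      Nat.card (Subgroup.normalizer ((S : Subgroup G) : Set G)) = 42 ∧
      ¬ IsMulCommutative (Subgroup.normalizer ((S : Subgroup G) : Set G)) := by
  classical
  haveI : Fact (Nat.Prime 7) := ⟨by norm_num⟩
  haveI : Fact (Nat.Prime 5) := ⟨by norm_num⟩
  haveI : Fact (Nat.Prime 3) := ⟨Nat.prime_three⟩
  haveI : Fact (Nat.Prime 2) := ⟨Nat.prime_two⟩
  have hG := card_G D T
  obtain ⟨s, s2, P5, hsX, W5⟩ := exists_fiveData D T
  have hS7 := card_sylow_seven hG
  obtain ⟨d, hd⟩ := exists_prime_orderOf_dvd_card' (G := ↥(S : Subgroup G)) 7 (by rw [hS7])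
  rw [← Subgroup.orderOf_coe] at hd
  set K := Subgroup.centralizer ({(d : G)} : Set G) with hK
  have hSd : (S : Subgroup G) = Subgroup.zpowers (d : G) := (Subgroup.eq_of_le_of_card_ge
    (Subgroup.zpowers_le.2 d.2) (by rw [hS7, Nat.card_zpowers, hd])).symm
  have hSK : Subgroup.centralizer ((S : Subgroup G) : Set G) = K := by
    refine le_antisymm ?_ fun x hx => ?_
    · intro x hx
      exact mem_cent_iff.2 (Subgroup.mem_centralizer_iff.1 hx (d : G) d.2).symm
    refine Subgroup.mem_centralizer_iff.2 fun y hy => ?_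
    rw [SetLike.mem_coe, hSd] at hy
    exact (commute_of_mem_zpowers (mem_cent_iff.1 hx) hy).symm
  have hno2 : ¬ 2 ∣ Nat.card K := by
    intro h2
    obtain ⟨f, hf⟩ := exists_prime_orderOf_dvd_card' (G := ↥K) 2 h2
    rw [← Subgroup.orderOf_coe] at hf
    have hdf : (d : G) * f = f * d := (mem_cent_iff.1 f.2).symm
    rcases D.hall hf with h | h
    · have h1 := dvd_card_cent_of_isConj h hdf
      rw [hd, D.setup.card_cent] at h1
      norm_num at h1
    · have h1 := dvd_card_cent_of_isConj h hdf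
      rw [hd, card_centralizer D T] at h1
      norm_num at h1
  have hno5 : ¬ 5 ∣ Nat.card K := by
    intro h5
    obtain ⟨f, hf⟩ := exists_prime_orderOf_dvd_card' (G := ↥K) 5 h5
    rw [← Subgroup.orderOf_coe] at hf
    rcases W5.cent_five D.z_ord hf (mem_cent_iff.1 f.2).symm with ⟨c, hc⟩ | h50
    · have h1 := Subgroup.orderOf_dvd_natCard _ (mem_cent_iff.2 hc)
      rw [show orderOf (c * (d : G) * c⁻¹) = orderOf (d : G) from
        MulEquiv.orderOf_eq (MulAut.conj c) _, hd, W5.one.card] at h1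
      norm_num at h1
    · rw [hd] at h50; norm_num at h50
  have hthree : ∀ w ∈ K, ∀ a, IsConj g a → w = a → False := by
    rintro w hw a ha rfl
    have h1 := dvd_card_cent_of_isConj ha (mem_cent_iff.1 hw).symm
    rw [hd, V.one.card] at h1
    norm_num at h1
  have hP : ∀ R : Subgroup G, IsPGroup 3 ↥R → ∃ c, ∀ x ∈ R, c * x * c⁻¹ ∈ P := by
    intro R hR
    obtain ⟨S3, hS3⟩ := V.sylow
    obtain ⟨SR, hSR⟩ := hR.exists_le_sylow
    obtain ⟨c, hc⟩ := MulAction.exists_smul_eq G SR S3
    refine ⟨c, fun x hx => ?_⟩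
    rw [← hS3, ← hc, Sylow.coe_subgroup_smul]
    exact ⟨x, hSR hx, rfl⟩
  have hno9 : ¬ 9 ∣ Nat.card K := by
    intro h9
    obtain ⟨R', hR'⟩ := Sylow.exists_subgroup_card_pow_prime (G := ↥K) 3 (n := 2) (by
      exact h9)
    set R := R'.map K.subtype with hR
    have hR9 : Nat.card R = 9 := by
      rw [hR, Subgroup.card_map_of_injective K.subtype_injective, hR']; norm_num
    obtain ⟨c, hc⟩ := hP R (IsPGroup.of_card (n := 2) (by rw [hR9]; norm_num))
    obtain ⟨x, hxR, hx⟩ : ∃ x ∈ R, c * x * c⁻¹ ∉ Subgroup.zpowers n := by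
      by_contra hcon
      push Not at hcon
      have h1 : Nat.card R ≤ Nat.card (Subgroup.zpowers n) :=
        Nat.card_le_card_of_injective (fun x : ↥R => (⟨c * x * c⁻¹, hcon x x.2⟩ :
          ↥(Subgroup.zpowers n)))
          fun a b e => Subtype.ext (mul_left_cancel (mul_right_cancel (congrArg Subtype.val e :)))
      rw [hR9, Nat.card_zpowers, N.ord] at h1
      omega
    have hconj := V.noncentral_conj T.iso T.g_mem N.comm_X0 (hc x hxR) hx
    exact hthree x (Subgroup.map_subtype_le R' hxR) x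
      (hconj.trans (isConj_iff.2 ⟨c, rfl⟩ : IsConj x (c * x * c⁻¹)).symm) rfl
  have hK7 : 7 ∣ Nat.card K := hd ▸ Subgroup.orderOf_dvd_natCard K (mem_cent_iff.2 rfl)
  have hKG : Nat.card K ∣ 604800 := hG ▸ Subgroup.card_subgroup_dvd_card K
  have hKcases : Nat.card K = 7 ∨ Nat.card K = 21 := by
    obtain ⟨k, hk⟩ := hK7
    rw [hk] at hKG hno2 hno5 hno9 ⊢
    have hk1 : k ∣ 86400 :=
      Nat.dvd_of_mul_dvd_mul_left (by norm_num : 0 < 7) (show 7 * k ∣ 7 * 86400 from hKG)
    have h2 : Nat.Coprime k 128 := by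
      rw [show (128 : ℕ) = 2 ^ 7 by norm_num]
      exact Nat.Coprime.pow_right 7 ((Nat.Prime.coprime_iff_not_dvd Nat.prime_two).2
        fun h => hno2 (h.trans (dvd_mul_left k 7))).symm
    have h5 : Nat.Coprime k 25 := by
      rw [show (25 : ℕ) = 5 ^ 2 by norm_num]
      exact Nat.Coprime.pow_right 2 ((Nat.Prime.coprime_iff_not_dvd (by norm_num)).2
        fun h => hno5 (h.trans (dvd_mul_left k 7))).symm
    have h27 : k ∣ 27 := h5.dvd_of_dvd_mul_right (h2.dvd_of_dvd_mul_right
      (show k ∣ 27 * 25 * 128 from hk1))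
    obtain ⟨i, hi, rfl⟩ := (Nat.dvd_prime_pow Nat.prime_three).1 (show k ∣ 3 ^ 3 from h27)
    have hi2 : i < 2 := by
      by_contra hlt
      exact hno9 (dvd_mul_of_dvd_right ((show (9 : ℕ) = 3 ^ 2 by norm_num) ▸
        pow_dvd_pow 3 (show 2 ≤ i by omega)) 7)
    interval_cases i
    · exact Or.inl (by norm_num)
    · exact Or.inr (by norm_num)
  set M := Subgroup.normalizer ((S : Subgroup G) : Set G) with hM
  have hKM : K ≤ M := by
    rw [← hSK]
    exact Subgroup.centralizer_le_normalizer _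
  have horb := conj_orbit_card_mul M (d : G)
  rw [inf_eq_right.2 (hK ▸ hKM : K ≤ M)] at horb
  set o := {b : G | ∃ h ∈ M, h * (d : G) * h⁻¹ = b}.ncard with ho
  have ho6 : o ≤ 6 := by
    have hsub : {b : G | ∃ h ∈ M, h * (d : G) * h⁻¹ = b} ⊆ ((S : Subgroup G) : Set G) \ {1} := by
      rintro b ⟨a, ha, rfl⟩
      refine ⟨(Subgroup.mem_normalizer_iff.1 ha (d : G)).1 d.2, conj_ne_one fun e => ?_⟩
      rw [e, orderOf_one] at hd
      norm_num at hd
    refine (Set.ncard_le_ncard hsub).trans_eq ?_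
    rw [Set.ncard_sdiff (Set.singleton_subset_iff.2 (one_mem _)), Set.ncard_singleton,
      ← Nat.card_coe_set_eq, SetLike.coe_sort_coe, hS7]
  have hidx : Nat.card M * M.index = 604800 := by rw [M.card_mul_index, hG]
  have hmod : M.index % 7 = 1 := by
    have h := card_sylow_modEq_one 7 G
    rw [S.card_eq_index_normalizer] at h
    exact h
  rw [← horb] at hidx
  rcases hKcases with hK7' | hK21
  · rw [hK7'] at horb hidx
    have hprod : o * M.index = 86400 := by
      rw [show o * 7 * M.index = 7 * (o * M.index) by ring] at hidx; omega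
    have h6 : o = 6 := by
      have hm : o * M.index % 7 = 6 := by rw [hprod]
      rw [Nat.mul_mod, hmod, mul_one, Nat.mod_mod] at hm
      omega
    have h42 : Nat.card M = 42 := by rw [← horb, h6]
    refine ⟨?_, h42, ?_⟩
    · rw [hSK]
      refine (Subgroup.eq_of_le_of_card_ge ?_ (by rw [hS7, hK7'])).symm
      intro x hx
      rw [hSd] at hx
      exact mem_cent_iff.2 (commute_of_mem_zpowers (x := (d : G)) rfl hx).symm
    · intro hc
      have hle : M ≤ K := fun x hx => mem_cent_iff.2 (congrArg Subtype.val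
        ((IsMulCommutative.is_comm (M := ↥M)).comm ⟨x, hx⟩ ⟨d, Subgroup.le_normalizer d.2⟩))
      have := Subgroup.card_dvd_of_le hle
      rw [h42, hK7'] at this
      norm_num at this
  · exfalso
    rw [hK21] at horb hidx
    have hprod : o * 3 * M.index = 86400 := by
      rw [show o * 21 * M.index = 7 * (o * 3 * M.index) by ring] at hidx; omega
    have h2 : o = 2 := by
      have hm : o * 3 * M.index % 7 = 6 := by rw [hprod]
      rw [Nat.mul_mod, hmod, mul_one, Nat.mod_mod] at hm
      omega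
    have h42 : Nat.card M = 42 := by rw [← horb, h2]
    -- an element of order three centralizing `S` is conjugate to `n`
    obtain ⟨w, hw⟩ := exists_prime_orderOf_dvd_card' (G := ↥K) 3 (by rw [hK21]; norm_num)
    rw [← Subgroup.orderOf_coe] at hw
    obtain ⟨c, hc⟩ := hP (Subgroup.zpowers (w : G))
      (IsPGroup.of_card (n := 1) (by rw [Nat.card_zpowers, hw]; rfl))
    have hcw := hc _ (Subgroup.mem_zpowers _)
    have hmem : c * (w : G) * c⁻¹ ∈ Subgroup.zpowers n := by
      by_contra hcon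
      exact hthree w w.2 w ((V.noncentral_conj T.iso T.g_mem N.comm_X0 hcw hcon).trans
        (isConj_iff.2 ⟨c, rfl⟩ : IsConj (w : G) (c * w * c⁻¹)).symm) rfl
    have hne : c * (w : G) * c⁻¹ ≠ 1 := conj_ne_one fun e => by
      rw [e, orderOf_one] at hw; norm_num at hw
    set H := Subgroup.centralizer ({n} : Set G) with hH
    set S' := c • S with hS'
    have hS'coe : (S' : Subgroup G) = (S : Subgroup G).map (MulAut.conj c).toMonoidHom := by
      rw [hS', Sylow.coe_subgroup_smul]; rfl
    have hS'H : (S' : Subgroup G) ≤ H := by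
      rw [hS'coe]
      rintro _ ⟨x, hx, rfl⟩
      refine mem_cent_iff.2 (commute_of_mem_zpowers (s := c * (w : G) * c⁻¹) ?_ ?_)
      · rw [SetLike.mem_coe, hSd] at hx
        have hxw : x * w = w * x := (commute_of_mem_zpowers (mem_cent_iff.1 w.2) hx).symm
        show c * x * c⁻¹ * (c * w * c⁻¹) = c * w * c⁻¹ * (c * x * c⁻¹)
        calc c * x * c⁻¹ * (c * w * c⁻¹) = c * (x * w) * c⁻¹ := by group
          _ = c * (w * x) * c⁻¹ := by rw [hxw]
          _ = _ := by group
      · rw [zpowers_eq_of_prime Nat.prime_three N.ord hmem hne]; exact Subgroup.mem_zpowers n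
    set M' := Subgroup.normalizer ((S' : Subgroup G) : Set G) with hM'
    have hM'42 : Nat.card M' = 42 := by
      have h1 := S.card_eq_index_normalizer
      have h2 := S'.card_eq_index_normalizer
      have h3 : M'.index = M.index := h2.symm.trans h1
      have h4 := M'.card_mul_index
      rw [h3, ← M.card_mul_index] at h4
      rw [Nat.eq_of_mul_eq_mul_right (Nat.pos_of_ne_zero Subgroup.index_ne_zero_of_finite) h4, h42]
    set SH := S'.subtype hS'H with hSH
    have hcS : (SH : Subgroup ↥H) = (S' : Subgroup G).subgroupOf H := Sylow.coe_subtype S' hS'H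
    set L := Subgroup.normalizer ((SH : Subgroup ↥H) : Set ↥H) with hL
    have hLM : L.map H.subtype ≤ M' := by
      rintro _ ⟨a, ha, rfl⟩
      have hfor : ∀ b : ↥H, b ∈ L → ∀ x ∈ (S' : Subgroup G),
          (b : G) * x * (b : G)⁻¹ ∈ (S' : Subgroup G) := by
        intro b hb x hx
        have h1 := (Subgroup.mem_normalizer_iff.1 hb ⟨x, hS'H hx⟩).1 (by rw [hcS]; exact hx)
        rw [hcS] at h1
        exact h1
      refine Subgroup.mem_normalizer_iff.2 fun x => ⟨hfor a ha x, fun hx => ?_⟩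
      have h1 := hfor a⁻¹ (inv_mem ha) _ hx
      simpa [mul_assoc] using h1
    have hL42 : Nat.card L ∣ 42 := by
      rw [← hM'42, ← Subgroup.card_map_of_injective (K := L) H.subtype_injective]
      exact Subgroup.card_dvd_of_le hLM
    have hL7 : 7 ∣ Nat.card L := by
      have h1 : Nat.card (SH : Subgroup ↥H) ∣ Nat.card L :=
        Subgroup.card_dvd_of_le Subgroup.le_normalizer
      rwa [hcS, Nat.card_congr (Subgroup.subgroupOfEquivOfLe hS'H).toEquiv, hS7] at h1
    have hL3 : 3 ∣ Nat.card L := by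
      have hnH : n ∈ H := mem_cent_iff.2 rfl
      have hnL : (⟨n, hnH⟩ : ↥H) ∈ L := by
        refine Subgroup.mem_normalizer_iff.2 fun y => ?_
        rw [show (⟨n, hnH⟩ : ↥H) * y * (⟨n, hnH⟩ : ↥H)⁻¹ = y from Subtype.ext
          (conj_eq_self_iff.2 (mem_cent_iff.1 y.2).symm)]
      have := Subgroup.orderOf_dvd_natCard L hnL
      rwa [Subgroup.orderOf_mk, N.ord] at this
    -- the order of the centralizer of `n`
    have hPH : P ≤ H := fun x hx => mem_cent_iff.2 (V.central x hx)
    have h27 : 27 ∣ Nat.card H := V.card ▸ Subgroup.card_dvd_of_le hPH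
    have h5 : 5 ∣ Nat.card H :=
      W5.one.ord ▸ Subgroup.orderOf_dvd_natCard H (mem_cent_iff.2 (N.comm_X0 s hsX).symm)
    have h25 : ¬ 25 ∣ Nat.card H := by
      intro h25
      obtain ⟨R', hR'⟩ := Sylow.exists_subgroup_card_pow_prime (G := ↥H) 5 (n := 2) (by exact h25)
      obtain ⟨SR, hSR⟩ := ((IsPGroup.of_card hR').map H.subtype).exists_le_sylow
      obtain ⟨S5, hS5⟩ := W5.sylow
      obtain ⟨e, he⟩ := MulAction.exists_smul_eq G SR S5
      have hR25 : R'.map H.subtype = (SR : Subgroup G) := by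
        refine Subgroup.eq_of_le_of_card_ge hSR ?_
        rw [Subgroup.card_map_of_injective H.subtype_injective, hR']
        have hcard5 : Nat.card (S5 : Subgroup G) = 25 := by rw [hS5, W5.card]
        rw [← he, Sylow.coe_subgroup_smul] at hcard5
        rw [show Nat.card (SR : Subgroup G) = 25 from by
          rw [← hcard5]
          exact (Subgroup.card_map_of_injective (f := (MulAut.conj e).toMonoidHom)
            (MulAut.conj e).injective).symm]
        norm_num
      have hs2 : s2 ∈ (SR : Subgroup G).map (MulAut.conj e).toMonoidHom := by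
        have : s2 ∈ (S5 : Subgroup G) := hS5 ▸ W5.mem2
        rwa [← he, Sylow.coe_subgroup_smul] at this
      obtain ⟨y, hy, hye⟩ := hs2
      rw [SetLike.mem_coe, ← hR25] at hy
      obtain ⟨y', -, rfl⟩ := hy
      have h1 : e * n * e⁻¹ * s2 = s2 * (e * n * e⁻¹) := by
        rw [← hye]
        show e * n * e⁻¹ * (e * (y' : G) * e⁻¹) = e * y' * e⁻¹ * (e * n * e⁻¹)
        calc e * n * e⁻¹ * (e * (y' : G) * e⁻¹) = e * (n * y') * e⁻¹ := by group
          _ = e * (y' * n) * e⁻¹ := by rw [mem_cent_iff.1 y'.2]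
          _ = _ := by group
      have h3 := Subgroup.orderOf_dvd_natCard _ (mem_cent_iff.2 h1)
      rw [show orderOf (e * n * e⁻¹) = orderOf n from MulEquiv.orderOf_eq (MulAut.conj e) _, N.ord,
        W5.card_cent2 D.z_ord] at h3
      norm_num at h3
    have h7H : 7 ∣ Nat.card H := hS7 S' ▸ Subgroup.card_dvd_of_le hS'H
    have h945 : 945 ∣ Nat.card H := by
      rw [show (945 : ℕ) = 27 * 5 * 7 by norm_num]
      exact Nat.Coprime.mul_dvd_of_dvd_of_dvd (by norm_num)
        (Nat.Coprime.mul_dvd_of_dvd_of_dvd (by norm_num) h27 h5) h7H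
    obtain ⟨J, hJ⟩ := h945
    have hJ128 : J ∣ 128 := by
      have h1 : J ∣ 640 := Nat.dvd_of_mul_dvd_mul_left (by norm_num : 0 < 945)
        (show 945 * J ∣ 945 * 640 by
          rw [← hJ, show (945 : ℕ) * 640 = Nat.card G by rw [hG]]
          exact Subgroup.card_subgroup_dvd_card H)
      have h2 : ¬ 5 ∣ J := fun h => h25 (hJ ▸ (show 25 ∣ 945 * J from
        (show (25 : ℕ) = 5 * 5 by norm_num) ▸ mul_dvd_mul (by norm_num : (5 : ℕ) ∣ 945) h))
      exact Nat.Coprime.dvd_of_dvd_mul_left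
        ((Nat.Prime.coprime_iff_not_dvd (by norm_num)).2 h2).symm (show J ∣ 5 * 128 from h1)
    have hidxH : Nat.card L * L.index = 945 * J := by rw [L.card_mul_index, hJ]
    have hmodH : L.index % 7 = 1 := by
      have h := card_sylow_modEq_one 7 ↥H
      rw [SH.card_eq_index_normalizer] at h
      exact h
    obtain ⟨i, hi, hJi⟩ := (Nat.dvd_prime_pow Nat.prime_two).1 (show J ∣ 2 ^ 7 from hJ128)
    obtain ⟨l, hl⟩ : 21 ∣ Nat.card L :=
      Nat.Coprime.mul_dvd_of_dvd_of_dvd (by norm_num : Nat.Coprime 3 7) hL3 hL7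
    have hl2 : l ∣ 2 :=
      Nat.dvd_of_mul_dvd_mul_left (by norm_num : 0 < 21) (show 21 * l ∣ 21 * 2 from hl ▸ hL42)
    have hlc : l = 1 ∨ l = 2 := (Nat.dvd_prime Nat.prime_two).1 hl2
    rw [hl, hJi] at hidxH
    rcases hlc with rfl | rfl <;> interval_cases i <;> omega

end CTData

end CfsgLib.J2Type
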