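import Cfsg.Agent.J2Type.FiveCent

/-!
The two kinds of elements of order three: the centralizer of the one in the alternating factor of
`C(t)`, and a Sylow subgroup containing both.
-/

set_option autoImplicit false

namespace CfsgLib.J2Type

variable {G : Type*} [Group G] [Finite G]

/-- An element of order three centralizing the alternating factor and permuting `F`. -/
structure EtaData (z : G) (X0 F : Subgroup G) (n : G) : Prop where
  ord : orderOf n = 3
  comm_z : n * z = z * n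
  comm_X0 : ∀ y ∈ X0, n * y = y * n
  map_F : ∀ f ∈ F, n * f * n⁻¹ ∈ F
  free : ∀ f ∈ F, f ≠ 1 → n * f * n⁻¹ ≠ f

/-- The centralizer of `g` and the inversion of `n`. -/
structure ThreeOne (g n : G) (F : Subgroup G) : Prop where
  card : Nat.card (Subgroup.centralizer ({g} : Set G)) = 36
  sq_mem : ∀ x, x * g = g * x → x * x = 1 → x ∈ F
  not_conj : ∀ a, a * g * a⁻¹ ∉ Subgroup.zpowers n
  inverted : ∃ c, c * n * c⁻¹ = n⁻¹

theorem card_cent_A5_three {a : A5} (h3 : a ^ 3 = 1) (h1 : a ≠ 1) :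
    Subgroup.centralizer ({a} : Set A5) = Subgroup.zpowers a := by
  classical
  haveI := Fintype.ofFinite ↥(Subgroup.centralizer ({a} : Set A5))
  refine (Subgroup.eq_of_le_of_card_ge (Subgroup.zpowers_le.2 (mem_cent_iff.2 rfl)) ?_).symm
  haveI : Fact (Nat.Prime 3) := ⟨Nat.prime_three⟩
  rw [Nat.card_zpowers, orderOf_eq_prime h3 h1]
  refine le_of_eq (Eq.trans ?_ (A5Facts.cent_three _ h3 h1))
  rw [Nat.card_eq_fintype_card, Fintype.card_subtype]
  exact congrArg Finset.card (Finset.ext fun x => by simp [mem_cent_iff])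

namespace CTData

variable {z u t r g : G} {Q E X0 F : Subgroup G} {img : G → A5}
variable (D : Data z u t r Q E img) (T : CTData z u t E X0 F g)
include D T

theorem exists_etaData : ∃ n, EtaData z X0 F n := by
  obtain ⟨n, h1, h2, -, h4, h5, h6⟩ := exists_eta D T
  exact ⟨n, h1, h2, h4, h5, h6⟩

theorem mem_zpowers_g {y : G} (hy : y ∈ X0) (hc : y * g = g * y) : y ∈ Subgroup.zpowers g := by
  obtain ⟨e⟩ := T.iso
  have ho : orderOf (e ⟨g, T.g_mem⟩) = 3 := by rw [MulEquiv.orderOf_eq, Subgroup.orderOf_mk, T.g_ord]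
  have h1 : e ⟨g, T.g_mem⟩ ≠ 1 := fun e' => by rw [e', orderOf_one] at ho; norm_num at ho
  have hmem : e ⟨y, hy⟩ ∈ Subgroup.centralizer ({e ⟨g, T.g_mem⟩} : Set A5) := mem_cent_iff.2 (by
    rw [← map_mul, ← map_mul]; exact congrArg e (Subtype.ext hc))
  rw [card_cent_A5_three (orderOf_dvd_iff_pow_eq_one.1 (dvd_of_eq ho)) h1] at hmem
  obtain ⟨j, hj⟩ := Subgroup.mem_zpowers_iff.1 hmem
  rw [← map_zpow] at hj
  refine Subgroup.mem_zpowers_iff.2 ⟨j, ?_⟩
  simpa using congrArg Subtype.val (e.injective hj)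

theorem g_notMem {n : G} (N : EtaData z X0 F n) : g ∉ Subgroup.zpowers n := fun h =>
  T.g_moves (conj_eq_self_iff.2 (commute_of_mem_zpowers N.comm_z.symm h).symm)

theorem threeOne {n : G} (N : EtaData z X0 F n) : ThreeOne g n F := by
  classical
  haveI : Fact (Nat.Prime 5) := ⟨by norm_num⟩
  haveI : Fact (Nat.Prime 3) := ⟨Nat.prime_three⟩
  haveI : Fact (Nat.Prime 2) := ⟨Nat.prime_two⟩
  have h := D.setup
  set H := Subgroup.centralizer ({g} : Set G) with hH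
  have hsX : ∀ {x}, x ∈ Subgroup.zpowers g → x ∈ X0 := fun {x} hx =>
    Subgroup.zpowers_le.2 T.g_mem hx
  have hFH : F ≤ H := fun f hf => mem_cent_iff.2 (T.comm f hf g T.g_mem)
  have hnH : n ∈ H := mem_cent_iff.2 (N.comm_X0 g T.g_mem)
  set Z := (Subgroup.zpowers g).subgroupOf H with hZ
  haveI hZn : Z.Normal := ⟨fun a (ha : (a : G) ∈ Subgroup.zpowers g) b => by
    show (b : G) * a * (b : G)⁻¹ ∈ Subgroup.zpowers g
    rw [commute_of_mem_zpowers (mem_cent_iff.1 b.2) ha, mul_inv_cancel_right]; exact ha⟩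
  have hZcard : Nat.card Z = 3 := by
    rw [hZ, Nat.card_congr (Subgroup.subgroupOfEquivOfLe
      (Subgroup.zpowers_le.2 (mem_cent_iff.2 rfl))).toEquiv, Nat.card_zpowers, T.g_ord]
  let mk : ↥H →* ↥H ⧸ Z := QuotientGroup.mk' Z
  have hmk1 : ∀ a : ↥H, mk a = 1 ↔ (a : G) ∈ Subgroup.zpowers g := fun a => by
    rw [QuotientGroup.mk'_apply, QuotientGroup.eq_one_iff]; rfl
  set W := (F.subgroupOf H).map mk with hW
  have hFinj : ∀ f ∈ F, f ∈ Subgroup.zpowers g → f = 1 := fun f hf hfz => T.indep f hf (hsX hfz)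
  have hsmall : ∀ c ∈ Subgroup.zpowers g, c * c = 1 → c = 1 := fun c hc hcc => by
    have h3 := Subgroup.orderOf_dvd_natCard _ hc
    rw [Nat.card_zpowers, T.g_ord] at h3
    exact orderOf_eq_one_iff.1 (Nat.eq_one_of_dvd_coprimes (by norm_num : Nat.Coprime 3 2) h3
      (orderOf_dvd_of_pow_eq_one (by rw [sq, hcc])))
  have hW4 : Nat.card W = 4 := by
    rw [← T.card_F]
    refine (Nat.card_eq_of_bijective (fun f : ↥F =>
      (⟨mk ⟨f, hFH f.2⟩, Subgroup.mem_map_of_mem mk (show (⟨(f : G), hFH f.2⟩ : ↥H) ∈ F.subgroupOf H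
        from f.2)⟩ : ↥W)) ⟨?_, ?_⟩).symm
    · intro a b hab
      have h1 : mk ((⟨a, hFH a.2⟩ : ↥H)⁻¹ * ⟨b, hFH b.2⟩) = 1 := by
        rw [map_mul, map_inv, show mk ⟨a, hFH a.2⟩ = mk ⟨b, hFH b.2⟩ from congrArg Subtype.val hab,
          inv_mul_cancel]
      exact Subtype.ext (inv_mul_eq_one.1 (hFinj _ (mul_mem (inv_mem a.2) b.2) ((hmk1 _).1 h1)))
    · rintro ⟨_, f, hf, rfl⟩
      exact ⟨⟨(f : G), hf⟩, rfl⟩
  have hsq : ∀ w ∈ W, w * w = 1 := by
    rintro _ ⟨f, (hf : (f : G) ∈ F), rfl⟩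
    rw [← map_mul, show f * f = 1 from Subtype.ext (F_sq D T hf), map_one]
  have hcent : ∀ w ∈ W, w ≠ 1 → ∀ y, y * w = w * y → y ∈ W := by
    rintro _ ⟨f, (hf : (f : G) ∈ F), rfl⟩ hne y hy
    obtain ⟨a, rfl⟩ := QuotientGroup.mk'_surjective Z y
    have hf1 : (f : G) ≠ 1 := fun e => hne (by rw [show f = 1 from Subtype.ext e, map_one])
    have h1 : (a : G) * f * (a : G)⁻¹ * (f : G)⁻¹ ∈ Subgroup.zpowers g := (hmk1 (a * f * a⁻¹ * f⁻¹)).1 (by
      simp only [map_mul, map_inv]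
      rw [show mk a * mk f = mk f * mk a from hy]; group)
    set c := (a : G) * f * (a : G)⁻¹ * (f : G)⁻¹ with hc
    have hcf : (f : G) * c = c * f := T.comm f hf c (hsX h1)
    have hcc : c * c = 1 := by
      calc c * c = c * c * ((f : G) * f) := by rw [F_sq D T hf, mul_one]
        _ = c * (c * f) * f := by group
        _ = c * (f * c) * f := by rw [hcf]
        _ = (c * f) * (c * f) := by group
        _ = (a : G) * ((f : G) * f) * (a : G)⁻¹ := by rw [hc]; group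
        _ = 1 := by rw [F_sq D T hf]; group
    have hcomm : (a : G) * f = f * a :=
      conj_eq_self_iff.1 (mul_inv_eq_one.1 (hc ▸ hsmall c h1 hcc))
    have hat : (a : G) * t = t * a := by
      have : (a : G) ∈ Subgroup.centralizer ({(f : G)} : Set G) := mem_cent_iff.2 hcomm
      rw [cent_eq D T hf hf1] at this
      exact mem_cent_iff.1 this
    obtain ⟨f', hf', w, hw, e⟩ := T.decomp _ hat
    have hws : w * g = g * w := by
      rw [show w = f'⁻¹ * a by rw [e]; group]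
      exact (Commute.mul_left (Commute.inv_left (T.comm f' hf' g T.g_mem))
        (show Commute (a : G) g from mem_cent_iff.1 a.2)).eq
    have h2 : mk (⟨f', hFH hf'⟩⁻¹ * a) = 1 := (hmk1 _).2 (by
      show f'⁻¹ * (a : G) ∈ _
      rw [e, inv_mul_cancel_left]; exact mem_zpowers_g D T hw hws)
    rw [map_mul, map_inv, inv_mul_eq_one] at h2
    exact ⟨⟨f', hFH hf'⟩, hf', h2⟩
  set n' := mk ⟨n, hnH⟩ with hn'
  have hnW : n' ∉ W := by
    rintro ⟨f, hf, e⟩
    have h1 : (f : G)⁻¹ * n ∈ Subgroup.zpowers g := (hmk1 (f⁻¹ * ⟨n, hnH⟩)).1 (by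
      rw [map_mul, map_inv, e, hn', inv_mul_cancel])
    refine N.free t T.t_F D.t_ne (conj_eq_self_iff.2 ?_)
    rw [show n = f * ((f : G)⁻¹ * n) by group]
    exact (Commute.mul_left (show Commute (f : G) t from F_t D T hf)
      (show Commute ((f : G)⁻¹ * n) t from T.X0_t _ (hsX h1))).eq
  have hnn : ∀ w ∈ W, n' * w * n'⁻¹ ∈ W := by
    rintro _ ⟨f, hf, rfl⟩
    rw [hn', ← map_inv, ← map_mul, ← map_mul]
    exact Subgroup.mem_map_of_mem mk (N.map_F f hf)
  have hcard : Nat.card ↥H = Nat.card (↥H ⧸ Z) * 3 := by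
    rw [Subgroup.card_eq_card_quotient_mul_card_subgroup Z, hZcard]
  have hY : Nat.card (↥H ⧸ Z) = 12 ∨ Nat.card (↥H ⧸ Z) = 60 := by
    rcases klein_cases W hW4 hsq hcent hnn hnW with ⟨h12, -⟩ | ⟨⟨e⟩⟩
    · exact Or.inl h12
    · exact Or.inr (by rw [Nat.card_congr e.toEquiv, A5Facts.card])
  have hinto : ∀ x, x * g = g * x → x * x = 1 → x ≠ 1 → ∃ c ∈ H, c * x * c⁻¹ ∈ F := by
    intro x hxg hxx hx1
    refine conj_into (p := 2) (n := 2) hFH (by rw [T.card_F]; rfl) ?_ (mem_cent_iff.2 hxg : x ∈ H)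
      (k := 1) (by rw [orderOf_two_iff.2 ⟨hxx, hx1⟩]; rfl)
    rw [hcard]
    rcases hY with e | e <;> rw [e] <;> norm_num
  have hinv : ∀ x, x * g = g * x → x * x = 1 → x ≠ 1 → IsConj t x := by
    intro x hxg hxx hx1
    obtain ⟨c, -, hcf⟩ := hinto x hxg hxx hx1
    have h1 := conj_t_of_mul D T hcf (conj_ne_one hx1) X0.one_mem (one_mul 1)
    rw [mul_one] at h1
    exact h1.trans (isConj_iff.2 ⟨c, rfl⟩ : IsConj x (c * x * c⁻¹)).symm
  have hnc : ∀ a, a * g * a⁻¹ ∉ Subgroup.zpowers n := by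
    intro a ha
    have hz : z * (a * g * a⁻¹) = a * g * a⁻¹ * z := commute_of_mem_zpowers N.comm_z.symm ha
    refine D.nc ((isConj_iff.2 ⟨a⁻¹, rfl⟩ : IsConj z (a⁻¹ * z * a⁻¹⁻¹)).trans
      (hinv _ ?_ (conj_sq h.z_sq) (conj_ne_one h.z_ne)).symm)
    calc a⁻¹ * z * a⁻¹⁻¹ * g = a⁻¹ * (z * (a * g * a⁻¹)) * a := by group
      _ = a⁻¹ * (a * g * a⁻¹ * z) * a := by rw [hz]
      _ = _ := by group
  have hY12 : Nat.card (↥H ⧸ Z) = 12 := by
    refine hY.resolve_right fun h60 => ?_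
    obtain ⟨v, hv⟩ := exists_prime_orderOf_dvd_card' (G := ↥H) 5 (by rw [hcard, h60]; norm_num)
    rw [← Subgroup.orderOf_coe] at hv
    obtain ⟨s, s2, P, hsX0, V⟩ := exists_fiveData D T
    rcases V.cent_five D.z_ord hv (mem_cent_iff.1 v.2).symm with ⟨c, hc⟩ | h50
    · obtain ⟨d, -, hd⟩ := conj_into (p := 3) (n := 1) (F := Subgroup.zpowers n)
        (H := Subgroup.centralizer ({s} : Set G))
        (Subgroup.zpowers_le.2 (mem_cent_iff.2 (N.comm_X0 s hsX0)))
        (by rw [Nat.card_zpowers, N.ord]; rfl) (by rw [V.one.card]; norm_num) (mem_cent_iff.2 hc)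
        (k := 1) (by
          rw [show orderOf (c * g * c⁻¹) = orderOf g from MulEquiv.orderOf_eq (MulAut.conj c) g,
            T.g_ord]
          rfl)
      exact hnc (d * c) (by
        rwa [show d * c * g * (d * c)⁻¹ = d * (c * g * c⁻¹) * d⁻¹ by group])
    · rw [T.g_ord] at h50; norm_num at h50
  have hnorm : ∀ y, ∀ w ∈ W, y * w * y⁻¹ ∈ W := by
    rcases klein_cases W hW4 hsq hcent hnn hnW with ⟨-, hn⟩ | ⟨⟨e⟩⟩
    · exact hn
    · rw [Nat.card_congr e.toEquiv, A5Facts.card] at hY12; norm_num at hY12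
  refine ⟨by rw [hcard, hY12], ?_, hnc, ?_⟩
  · intro x hxg hxx
    by_cases hx1 : x = 1
    · rw [hx1]; exact F.one_mem
    obtain ⟨c, hc, hcf⟩ := hinto x hxg hxx hx1
    obtain ⟨f', hf', e⟩ : mk ⟨x, mem_cent_iff.2 hxg⟩ ∈ W := by
      have h1 := hnorm (mk ⟨c, hc⟩)⁻¹ _ (Subgroup.mem_map_of_mem mk
        (show (⟨c, hc⟩ : ↥H) * ⟨x, mem_cent_iff.2 hxg⟩ * ⟨c, hc⟩⁻¹ ∈ F.subgroupOf H from hcf))
      rw [inv_inv, ← map_inv, ← map_mul, ← map_mul] at h1
      rwa [show (⟨c, hc⟩ : ↥H)⁻¹ * (⟨c, hc⟩ * ⟨x, mem_cent_iff.2 hxg⟩ * ⟨c, hc⟩⁻¹) * ⟨c, hc⟩ =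
        ⟨x, mem_cent_iff.2 hxg⟩ by group] at h1
    have h2 : (f' : G)⁻¹ * x ∈ Subgroup.zpowers g := (hmk1 (f'⁻¹ * ⟨x, mem_cent_iff.2 hxg⟩)).1 (by
      rw [map_mul, map_inv, e, inv_mul_cancel])
    have hf'' : (f' : G) ∈ F := hf'
    set k := (f' : G)⁻¹ * x with hk
    have hkk : k * k = 1 := by
      have hcfk : (f' : G) * k = k * f' := T.comm _ hf'' k (hsX h2)
      calc k * k = ((f' : G) * f') * (k * k) := by rw [F_sq D T hf'', one_mul]
        _ = f' * (f' * k) * k := by group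
        _ = f' * (k * f') * k := by rw [hcfk]
        _ = (f' * k) * (f' * k) := by group
        _ = 1 := by rw [hk, mul_inv_cancel_left, hxx]
    rw [show x = f' * k by rw [hk]; group, hsmall k h2 hkk, mul_one]
    exact hf''
  · -- inversion inside the centralizer of `z`
    have hnz := N.comm_z
    have hn3 : n ^ 3 = 1 := orderOf_dvd_iff_pow_eq_one.1 (dvd_of_eq N.ord)
    have hi3 : img n ^ 3 = 1 := by rw [← h.img_pow hnz, hn3, h.img_one]
    have hi1 : img n ≠ 1 := fun e => by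
      have := orderOf_dvd_of_pow_eq_one (h.pow_four ((h.ker n hnz).1 e))
      rw [N.ord] at this
      norm_num at this
    obtain ⟨j, -, -, hj⟩ := A5Facts.invert_three _ hi3 hi1
    obtain ⟨c, hc, rfl⟩ := h.surj j
    set Cz := Subgroup.centralizer ({z} : Set G) with hCz
    obtain ⟨φ, -, hφ, -⟩ := h.exists_hom
    set M := ((Subgroup.zpowers (img n)).comap φ).map Cz.subtype with hM
    have hmemM : ∀ x, x ∈ M ↔ x * z = z * x ∧ img x ∈ Subgroup.zpowers (img n) := by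
      intro x
      constructor
      · rintro ⟨a, ha, rfl⟩
        exact ⟨mem_cent_iff.1 a.2, hφ a ▸ ha⟩
      · rintro ⟨hx, hxi⟩
        exact ⟨⟨x, mem_cent_iff.2 hx⟩, show φ ⟨x, mem_cent_iff.2 hx⟩ ∈ Subgroup.zpowers (img n) by
          rw [hφ]; exact hxi, rfl⟩
    have hM9 : ¬ 3 ^ 2 ∣ Nat.card M := fun hd => by
      have h1 := hd.trans (Subgroup.card_dvd_of_le (Subgroup.map_subtype_le _ : M ≤ Cz))
      rw [h.card_cent] at h1
      norm_num at h1
    have hcn : c * n * c⁻¹ * z = z * (c * n * c⁻¹) :=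
      h.comm_mul (h.comm_mul hc hnz) (h.comm_inv hc)
    have himgc : img (c * n * c⁻¹) = (img n)⁻¹ := by rw [h.img_conj hc hnz, hj]
    obtain ⟨d, hd, hdn⟩ := conj_into (p := 3) (n := 1) (F := Subgroup.zpowers n) (H := M)
      (Subgroup.zpowers_le.2 ((hmemM n).2 ⟨hnz, Subgroup.mem_zpowers _⟩))
      (by rw [Nat.card_zpowers, N.ord]; rfl) hM9
      (show c * n * c⁻¹ ∈ M from (hmemM _).2 ⟨hcn, himgc ▸ inv_mem (Subgroup.mem_zpowers _)⟩)
      (k := 1) (by
        rw [show orderOf (c * n * c⁻¹) = orderOf n from MulEquiv.orderOf_eq (MulAut.conj c) n, N.ord]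
        rfl)
    obtain ⟨hdz, hdi⟩ := (hmemM d).1 hd
    have hres : img (d * (c * n * c⁻¹) * d⁻¹) = (img n)⁻¹ := by
      rw [h.img_conj hdz hcn, himgc]
      obtain ⟨i, hi⟩ := Subgroup.mem_zpowers_iff.1 hdi
      rw [← hi]; group
    refine ⟨d * c, ?_⟩
    rw [show d * c * n * (d * c)⁻¹ = d * (c * n * c⁻¹) * d⁻¹ by group]
    obtain ⟨i, hi, e⟩ := mem_zpowers_cases (by norm_num) N.ord hdn
    rw [e] at hres ⊢
    rw [h.img_pow hnz] at hres
    interval_cases i
    · exfalso; rw [pow_zero] at hres; exact hi1 (inv_eq_one.1 hres.symm)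
    · exfalso
      rw [pow_one] at hres
      exact hi1 (by
        calc img n = img n ^ 3 * (img n * img n)⁻¹ := by group
          _ = 1 := by rw [hi3]; nth_rw 1 [hres]; simp)
    · rw [eq_comm, inv_eq_iff_mul_eq_one, ← pow_succ', hn3]

end CTData

end CfsgLib.J2Type
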