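import Cfsg.Agent.J2Type.Three
import Cfsg.Agent.PGroup.Extraspecial

/-!
The Sylow subgroups for the prime three, their normalizers, and the classes of elements of order
three.
-/

set_option autoImplicit false

namespace CfsgLib.J2Type

open scoped commutatorElement

variable {G : Type*} [Group G] [Finite G]

/-- A Sylow subgroup for three with centre generated by `n`. -/
structure ThreeData (g n : G) (F P : Subgroup G) : Prop where
  one : ThreeOne g n F
  n_ord : orderOf n = 3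
  g_ord : orderOf g = 3
  sylow : ∃ S : Sylow 3 G, (S : Subgroup G) = P
  card : Nat.card P = 27
  n_mem : n ∈ P
  g_mem : g ∈ P
  central : ∀ x ∈ P, x * n = n * x
  center : ∀ c ∈ P, (∀ x ∈ P, x * c = c * x) → c ∈ Subgroup.zpowers n
  comm : ∀ a ∈ P, ∀ b ∈ P, a * b * a⁻¹ * b⁻¹ ∈ Subgroup.zpowers n
  g_not : g ∉ Subgroup.zpowers n
  free : ∀ f ∈ F, f ≠ 1 → n * f * n⁻¹ ≠ f
  map_F : ∀ f ∈ F, n * f * n⁻¹ ∈ F
  F_sq : ∀ f ∈ F, f * f = 1
  order : Nat.card G = 604800

namespace CTData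

variable {z u t r g : G} {Q E X0 F : Subgroup G} {img : G → A5}
variable (D : Data z u t r Q E img) (T : CTData z u t E X0 F g)
include D T

theorem exists_threeData :
    ∃ (n : G) (P : Subgroup G), EtaData z X0 F n ∧ ThreeData g n F P := by
  classical
  haveI : Fact (Nat.Prime 3) := ⟨Nat.prime_three⟩
  obtain ⟨n, N⟩ := exists_etaData D T
  have O := threeOne D T N
  set H := Subgroup.centralizer ({g} : Set G) with hH
  have hsup : IsPGroup 3 ↥(Subgroup.zpowers n ⊔ Subgroup.zpowers g) := by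
    refine IsPGroup.to_sup_of_normal_right'
      (IsPGroup.of_card (n := 1) (by rw [Nat.card_zpowers, N.ord]; rfl))
      (IsPGroup.of_card (n := 1) (by rw [Nat.card_zpowers, T.g_ord]; rfl)) ?_
    rw [Subgroup.zpowers_le]
    refine Subgroup.mem_normalizer_iff.2 fun x => ?_
    constructor
    · intro hx
      rw [commute_of_mem_zpowers (N.comm_X0 g T.g_mem) hx, mul_inv_cancel_right]; exact hx
    · intro hx
      have h1 := commute_of_mem_zpowers (N.comm_X0 g T.g_mem) hx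
      have h2 : n * (n * x * n⁻¹) * n⁻¹ = n * x * n⁻¹ := by rw [h1, mul_inv_cancel_right]
      have h3 := mul_left_cancel (mul_right_cancel h2)
      rwa [h3] at hx
  obtain ⟨S, hS⟩ := hsup.exists_le_sylow
  set P := (S : Subgroup G) with hP
  have hnP : n ∈ P := hS (Subgroup.mem_sup_left (Subgroup.mem_zpowers n))
  have hgP : g ∈ P := hS (Subgroup.mem_sup_right (Subgroup.mem_zpowers g))
  have hP27 : Nat.card P = 27 := by
    obtain ⟨m, hm⟩ := IsPGroup.iff_card.1 S.isPGroup'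
    have h1 : 3 ^ 3 ∣ Nat.card (S : Subgroup G) :=
      S.pow_dvd_card_of_pow_dvd_card (by rw [card_G D T]; norm_num)
    have h2 : 3 ^ m ∣ 604800 := by rw [← hm, ← card_G D T]; exact Subgroup.card_subgroup_dvd_card _
    rw [hP, hm] at *
    have hm2 : 3 ≤ m := (Nat.pow_dvd_pow_iff_le_right (by norm_num)).1 h1
    have hm3 : m < 4 := by
      by_contra hlt
      have := (pow_dvd_pow 3 (show 4 ≤ m by omega)).trans h2
      norm_num at this
    rw [show m = 3 by omega]; norm_num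
  have hg0 := g_notMem D T N
  -- the nine elements commuting with `g`
  set A := P ⊓ H with hA
  have hnA : n ∈ A := ⟨hnP, mem_cent_iff.2 (N.comm_X0 g T.g_mem)⟩
  have hgA : g ∈ A := ⟨hgP, mem_cent_iff.2 rfl⟩
  have hind : ∀ x ∈ Subgroup.zpowers n, x ∈ Subgroup.zpowers g → x = 1 := fun x hx hx' => by
    by_contra hx1
    refine hg0 ?_
    have h1 := zpowers_eq_of_prime Nat.prime_three T.g_ord hx' hx1
    exact (Subgroup.zpowers_le.2 hx) (h1 ▸ Subgroup.mem_zpowers g)
  have hinj : Function.Injective (fun p : ↥(Subgroup.zpowers n) × ↥(Subgroup.zpowers g) =>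
      (⟨(p.1 : G) * p.2, mul_mem (Subgroup.zpowers_le.2 hnA p.1.2)
        (Subgroup.zpowers_le.2 hgA p.2.2)⟩ : ↥A)) := by
    rintro ⟨a, b⟩ ⟨a', b'⟩ h
    have h' : (a : G) * b = a' * b' := congrArg Subtype.val h
    have e1 : (a' : G)⁻¹ * a = b' * (b : G)⁻¹ := by
      calc (a' : G)⁻¹ * a = (a' : G)⁻¹ * (a * b) * (b : G)⁻¹ := by group
        _ = b' * (b : G)⁻¹ := by rw [h']; group
    have e2 := hind _ (mul_mem (inv_mem a'.2) a.2) (e1 ▸ mul_mem b'.2 (inv_mem b.2))
    rw [e2] at e1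
    exact Prod.ext (Subtype.ext (inv_mul_eq_one.1 e2).symm)
      (Subtype.ext (mul_inv_eq_one.1 e1.symm).symm)
  have hA9 : Nat.card A = 9 := by
    have h1 := Nat.card_le_card_of_injective _ hinj
    rw [Nat.card_prod, Nat.card_zpowers, Nat.card_zpowers, N.ord, T.g_ord] at h1
    obtain ⟨m, hm, e⟩ := (Nat.dvd_prime_pow Nat.prime_three).1
      (show Nat.card A ∣ 3 ^ 3 by
        rw [show (3 : ℕ) ^ 3 = 27 by norm_num, ← hP27]; exact Subgroup.card_dvd_of_le inf_le_left)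
    have h2 : Nat.card A ∣ 36 := O.card ▸ Subgroup.card_dvd_of_le inf_le_right
    rw [e] at h1 h2 ⊢
    interval_cases m <;> first | rfl | omega | (exfalso; norm_num at h2)
  have hdec : ∀ x ∈ A, ∃ a ∈ Subgroup.zpowers n, ∃ b ∈ Subgroup.zpowers g, x = a * b := by
    intro x hx
    obtain ⟨⟨a, b⟩, e⟩ := ((Nat.bijective_iff_injective_and_card _).2
      ⟨hinj, by rw [Nat.card_prod, Nat.card_zpowers, Nat.card_zpowers, N.ord, T.g_ord, hA9]⟩).2 ⟨x, hx⟩
    exact ⟨a, a.2, b, b.2, (congrArg Subtype.val e).symm⟩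
  obtain ⟨w, hwP, hwg⟩ : ∃ w ∈ P, w * g ≠ g * w := by
    by_contra hcon
    push Not at hcon
    have h1 := Subgroup.card_dvd_of_le (show P ≤ H from fun x hx => mem_cent_iff.2 (hcon x hx))
    rw [hP27, O.card] at h1
    norm_num at h1
  -- the centre of `P`
  set Z := (Subgroup.center ↥P).map P.subtype with hZ
  have hmemZ : ∀ c, c ∈ Z ↔ c ∈ P ∧ ∀ x ∈ P, x * c = c * x := by
    intro c
    constructor
    · rintro ⟨c, hc, rfl⟩
      exact ⟨c.2, fun x hx => congrArg Subtype.val (Subgroup.mem_center_iff.1 hc ⟨x, hx⟩)⟩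
    · rintro ⟨hc, hall⟩
      exact ⟨⟨c, hc⟩, Subgroup.mem_center_iff.2 fun x => Subtype.ext (hall x x.2), rfl⟩
  have hZA : Z ≤ A := fun c hc => ⟨((hmemZ c).1 hc).1,
    mem_cent_iff.2 (((hmemZ c).1 hc).2 g hgP).symm⟩
  have hgZ : g ∉ Z := fun hg => hwg (((hmemZ g).1 hg).2 w hwP)
  have hZ3 : Nat.card Z = 3 := by
    obtain ⟨m, hm, e⟩ := (Nat.dvd_prime_pow Nat.prime_three).1
      (show Nat.card Z ∣ 3 ^ 2 by
        rw [show (3 : ℕ) ^ 2 = 9 by norm_num, ← hA9]; exact Subgroup.card_dvd_of_le hZA)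
    have hne : m ≠ 0 := by
      rintro rfl
      haveI : Nontrivial ↥P := (Subgroup.nontrivial_iff_ne_bot _).2 fun e' => by
        rw [e', Subgroup.card_bot] at hP27; norm_num at hP27
      have hnt := S.isPGroup'.center_nontrivial
      have h1 : Nat.card (Subgroup.center ↥P) = 1 := by
        rw [← Subgroup.card_map_of_injective P.subtype_injective, ← hZ, e]; rfl
      haveI := (Nat.card_eq_one_iff_unique.1 h1).1
      exact not_nontrivial _ hnt
    have hne2 : m ≠ 2 := by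
      rintro rfl
      exact hgZ (by rw [Subgroup.eq_of_le_of_card_ge hZA (by rw [hA9, e]; norm_num)]; exact hgA)
    rw [e, show m = 1 by omega, pow_one]
  haveI : Fact (Nat.Prime 3) := ⟨Nat.prime_three⟩
  have hquot : ∀ a ∈ P, ∀ b ∈ P, a * b * a⁻¹ * b⁻¹ ∈ Z := by
    intro a ha b hb
    have hcard : Nat.card (↥P ⧸ Subgroup.center ↥P) = 3 ^ 2 := by
      have h1 := Subgroup.card_eq_card_quotient_mul_card_subgroup (Subgroup.center ↥P)
      have h2 : Nat.card (Subgroup.center ↥P) = 3 := by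
        rw [← Subgroup.card_map_of_injective P.subtype_injective, ← hZ, hZ3]
      rw [h2, hP27] at h1
      omega
    haveI := IsPGroup.isMulCommutative_of_card_eq_prime_sq hcard
    refine ⟨⟨a, ha⟩ * ⟨b, hb⟩ * ⟨a, ha⟩⁻¹ * ⟨b, hb⟩⁻¹, ?_, rfl⟩
    rw [SetLike.mem_coe, ← QuotientGroup.eq_one_iff]
    simp only [QuotientGroup.mk_mul, QuotientGroup.mk_inv]
    rw [(IsMulCommutative.is_comm (M := ↥P ⧸ Subgroup.center ↥P)).comm
      (QuotientGroup.mk ⟨a, ha⟩) (QuotientGroup.mk ⟨b, hb⟩)]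
    group
  have hn3 : n ^ 3 = 1 := orderOf_dvd_iff_pow_eq_one.1 (dvd_of_eq N.ord)
  have hg3 : g ^ 3 = 1 := orderOf_dvd_iff_pow_eq_one.1 (dvd_of_eq T.g_ord)
  have hZn : Z = Subgroup.zpowers n := by
    set k := w * g * w⁻¹ * g⁻¹ with hk
    have hkZ : k ∈ Z := hquot w hwP g hgP
    have hk1 : k ≠ 1 := fun e => hwg (conj_eq_self_iff.1 (mul_inv_eq_one.1 e))
    obtain ⟨a, ha, b, hb, hkab⟩ := hdec k (hZA hkZ)
    obtain ⟨i, hi, rfl⟩ := mem_zpowers_cases (by norm_num) N.ord ha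
    obtain ⟨j, hj, rfl⟩ := mem_zpowers_cases (by norm_num) T.g_ord hb
    have hc : Commute n g := N.comm_X0 g T.g_mem
    have hw1 : w * g * w⁻¹ = k * g := by rw [hk]; group
    have hw2 : w ^ 2 * g * (w ^ 2)⁻¹ = k * k * g := by
      have hwk : w * k = k * w := ((hmemZ k).1 hkZ).2 w hwP
      calc w ^ 2 * g * (w ^ 2)⁻¹ = w * (w * g * w⁻¹) * w⁻¹ := by simp only [pow_two]; group
        _ = w * (k * g) * w⁻¹ := by rw [hw1]
        _ = (w * k) * g * w⁻¹ := by group
        _ = (k * w) * g * w⁻¹ := by rw [hwk]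
        _ = k * (w * g * w⁻¹) := by group
        _ = k * k * g := (congrArg (k * ·) hw1).trans (mul_assoc k k g).symm
    have hj0 : j = 0 := by
      interval_cases j
      · rfl
      · exfalso
        refine O.not_conj (w ^ 2) ?_
        rw [hw2, hkab, pow_one,
          show n ^ i * g * (n ^ i * g) * g = n ^ i * (g * n ^ i) * (g * g) by group,
          ← (hc.pow_left i).eq, show n ^ i * (n ^ i * g) * (g * g) = n ^ i * n ^ i * g ^ 3 by
            simp only [pow_succ, pow_zero, one_mul, mul_assoc],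
          hg3, mul_one]
        exact mul_mem (Subgroup.pow_mem _ (Subgroup.mem_zpowers n) i)
          (Subgroup.pow_mem _ (Subgroup.mem_zpowers n) i)
      · exfalso
        refine O.not_conj w ?_
        rw [hw1, hkab, mul_assoc, ← pow_succ, hg3, mul_one]
        exact Subgroup.pow_mem _ (Subgroup.mem_zpowers n) i
    rw [hj0, pow_zero, mul_one] at hkab
    have hkn : k ∈ Subgroup.zpowers n := hkab ▸ Subgroup.pow_mem _ (Subgroup.mem_zpowers n) i
    have h1 := zpowers_eq_of_prime Nat.prime_three N.ord hkn hk1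
    refine (Subgroup.eq_of_le_of_card_ge ?_ (by rw [hZ3, Nat.card_zpowers, N.ord])).symm
    rw [← h1]
    exact Subgroup.zpowers_le.2 hkZ
  refine ⟨n, P, N, O, N.ord, T.g_ord, ⟨S, rfl⟩, hP27, hnP, hgP, fun x hx => ?_, fun c hc hall => ?_,
    fun a ha b hb => hZn ▸ hquot a ha b hb, hg0, N.free, N.map_F, fun f hf => F_sq D T hf,
    card_G D T⟩
  · exact ((hmemZ n).1 (hZn ▸ Subgroup.mem_zpowers n)).2 x hx
  · exact hZn ▸ (hmemZ c).2 ⟨hc, hall⟩

end CTData

namespace ThreeData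

variable {g n : G} {F P : Subgroup G} (V : ThreeData g n F P)
include V

theorem mem_norm {a : G} :
    a ∈ Subgroup.normalizer (P : Set G) ↔ ∀ x ∈ P, a * x * a⁻¹ ∈ P := by
  refine ⟨fun hn f hf => (Subgroup.mem_normalizer_iff.1 hn f).1 hf, fun hn => ?_⟩
  refine Subgroup.mem_normalizer_iff.2 fun x => ⟨hn x, fun hx => ?_⟩
  have himg : (fun y => a * y * a⁻¹) '' (P : Set G) = (P : Set G) :=
    Set.eq_of_subset_of_ncard_le (by rintro _ ⟨y, hy, rfl⟩; exact hn y hy) (by
      rw [Set.ncard_image_of_injective _ fun b c e => mul_left_cancel (mul_right_cancel e)])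
  rw [← SetLike.mem_coe, ← himg] at hx
  obtain ⟨y, hy, e⟩ := hx
  exact (mul_left_cancel (mul_right_cancel e) : y = x) ▸ hy

theorem n_ne : n ≠ 1 := fun e => by
  have := V.n_ord; rw [e, orderOf_one] at this; norm_num at this

theorem conj_n {a : G} (ha : a ∈ Subgroup.normalizer (P : Set G)) :
    a * n * a⁻¹ = n ∨ a * n * a⁻¹ = n⁻¹ := by
  have hmem : a * n * a⁻¹ ∈ Subgroup.zpowers n := by
    refine V.center _ (V.mem_norm.1 ha n V.n_mem) fun x hx => ?_
    have h1 := V.central (a⁻¹ * x * a) (by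
      have := V.mem_norm.1 (inv_mem ha) x hx
      rwa [inv_inv] at this)
    calc x * (a * n * a⁻¹) = a * (a⁻¹ * x * a * n) * a⁻¹ := by group
      _ = a * (n * (a⁻¹ * x * a)) * a⁻¹ := by rw [h1]
      _ = a * n * a⁻¹ * x := by group
  obtain ⟨i, hi, e⟩ := mem_zpowers_cases (by norm_num) V.n_ord hmem
  have hn3 : n ^ 3 = 1 := orderOf_dvd_iff_pow_eq_one.1 (dvd_of_eq V.n_ord)
  interval_cases i
  · exfalso; rw [pow_zero] at e; exact conj_ne_one V.n_ne e
  · left; rw [e, pow_one]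
  · right; rw [e]; rw [pow_succ] at hn3; exact eq_inv_of_mul_eq_one_left hn3

theorem inverted_norm : ∃ a ∈ Subgroup.normalizer (P : Set G), a * n * a⁻¹ = n⁻¹ := by
  haveI : Fact (Nat.Prime 3) := ⟨Nat.prime_three⟩
  obtain ⟨S, rfl⟩ := V.sylow
  obtain ⟨c, hc⟩ := V.one.inverted
  have hn : n ∈ Subgroup.centralizer ((S : Subgroup G) : Set G) :=
    Subgroup.mem_centralizer_iff.2 fun x hx => V.central x hx
  obtain ⟨a, ha, e⟩ := S.conj_eq_normalizer_conj_of_mem_centralizer n c⁻¹ hn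
    (by rw [inv_inv, hc]; exact inv_mem hn)
  refine ⟨a⁻¹, inv_mem ha, ?_⟩
  rw [inv_inv, ← e, inv_inv, hc]

theorem card_inf_cent :
    Nat.card ↥(Subgroup.normalizer (P : Set G) ⊓ Subgroup.centralizer ({g} : Set G)) = 9 := by
  classical
  haveI : Fact (Nat.Prime 2) := ⟨Nat.prime_two⟩
  haveI : Fact (Nat.Prime 3) := ⟨Nat.prime_three⟩
  set H := Subgroup.centralizer ({g} : Set G) with hH
  set K := Subgroup.normalizer (P : Set G) ⊓ H with hK
  have hA9 : 9 ∣ Nat.card ↥(P ⊓ H) := by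
    have hle : Subgroup.zpowers n ⊔ Subgroup.zpowers g ≤ P ⊓ H := sup_le
      (Subgroup.zpowers_le.2 ⟨V.n_mem, mem_cent_iff.2 (V.central g V.g_mem).symm⟩)
      (Subgroup.zpowers_le.2 ⟨V.g_mem, mem_cent_iff.2 rfl⟩)
    obtain ⟨m, hm, e⟩ := (Nat.dvd_prime_pow Nat.prime_three).1
      (show Nat.card ↥(P ⊓ H) ∣ 3 ^ 3 by
        rw [show (3 : ℕ) ^ 3 = 27 by norm_num, ← V.card]; exact Subgroup.card_dvd_of_le inf_le_left)
    rw [e]
    rcases m with _ | _ | m
    · exfalso
      rw [pow_zero, Subgroup.card_eq_one] at e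
      exact V.n_ne (Subgroup.mem_bot.1 (e ▸ hle (Subgroup.mem_sup_left (Subgroup.mem_zpowers n))))
    · exfalso
      have h1 : Subgroup.zpowers n = P ⊓ H := Subgroup.eq_of_le_of_card_ge
        (le_sup_left.trans hle) (by rw [e, Nat.card_zpowers, V.n_ord]; norm_num)
      exact V.g_not (h1 ▸ hle (Subgroup.mem_sup_right (Subgroup.mem_zpowers g)))
    · exact ⟨3 ^ m, by ring⟩
  have h36 : Nat.card K ∣ 36 := V.one.card ▸ Subgroup.card_dvd_of_le inf_le_right
  have h9 : 9 ∣ Nat.card K :=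
    hA9.trans (Subgroup.card_dvd_of_le (inf_le_inf_right _ Subgroup.le_normalizer))
  have hodd : ¬ 2 ∣ Nat.card K := by
    intro h2
    obtain ⟨f, hf⟩ := exists_prime_orderOf_dvd_card' (G := ↥K) 2 h2
    rw [← Subgroup.orderOf_coe] at hf
    obtain ⟨hff, hf1⟩ := orderOf_two_iff.1 hf
    have hfg : (f : G) * g = g * f := mem_cent_iff.1 f.2.2
    have hfF := V.one.sq_mem _ hfg hff
    refine V.free _ hfF hf1 ?_
    have hng : n * g = g * n := (V.central g V.g_mem).symm
    set k := (f : G) * n * (f : G)⁻¹ * n⁻¹ with hk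
    have hkF : k ∈ F := by
      rw [hk, show (f : G) * n * (f : G)⁻¹ * n⁻¹ = f * (n * (f : G)⁻¹ * n⁻¹) by group,
        inv_of_sq hff]
      exact mul_mem hfF (V.map_F _ hfF)
    have hkP : k ∈ P := mul_mem (V.mem_norm.1 f.2.1 n V.n_mem) (inv_mem V.n_mem)
    have hk1 : k = 1 := by
      have h1 := Subgroup.orderOf_dvd_natCard P hkP
      rw [V.card] at h1
      exact orderOf_eq_one_iff.1 (Nat.eq_one_of_dvd_coprimes (by norm_num : Nat.Coprime 27 2) h1
        (orderOf_dvd_of_pow_eq_one (by rw [sq]; exact V.F_sq k hkF)))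
    have hfn : (f : G) * n = n * f := conj_eq_self_iff.1 (mul_inv_eq_one.1 hk1)
    rw [← hfn, mul_inv_cancel_right]
  obtain ⟨j, hj⟩ := h9
  rw [hj] at h36 hodd ⊢
  have hj4 : j ∣ 4 := Nat.dvd_of_mul_dvd_mul_left (by norm_num : 0 < 9) (show 9 * j ∣ 9 * 4 from h36)
  obtain ⟨m, hm, rfl⟩ := (Nat.dvd_prime_pow Nat.prime_two).1 (show j ∣ 2 ^ 2 from hj4)
  interval_cases m <;> first | rfl | (exfalso; norm_num at hodd)

theorem g_ne : g ≠ 1 := fun e => V.g_not (e ▸ one_mem _)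

theorem orbit_sub :
    {b : G | ∃ a ∈ Subgroup.normalizer (P : Set G), a * g * a⁻¹ = b} ⊆
      (P : Set G) \ (Subgroup.zpowers n : Set G) := by
  rintro b ⟨a, ha, rfl⟩
  exact ⟨V.mem_norm.1 ha g V.g_mem, V.one.not_conj a⟩

theorem ncard_noncentral : ((P : Set G) \ (Subgroup.zpowers n : Set G)).ncard = 24 := by
  rw [Set.ncard_sdiff (Subgroup.zpowers_le.2 V.n_mem), ← Nat.card_coe_set_eq, ← Nat.card_coe_set_eq,
    SetLike.coe_sort_coe, SetLike.coe_sort_coe, V.card, Nat.card_zpowers, V.n_ord]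

theorem card_norm_cent {X0 : Subgroup G} (hX : Nonempty (↥X0 ≃* A5)) (hgX : g ∈ X0)
    (hnX : ∀ y ∈ X0, n * y = y * n) :
    ∃ a ∈ Subgroup.normalizer (P : Set G), a * n = n * a ∧ a ∉ P := by
  classical
  haveI : Fact (Nat.Prime 3) := ⟨Nat.prime_three⟩
  by_contra hcon
  push Not at hcon
  obtain ⟨e⟩ := hX
  haveI hs : IsSimpleGroup ↥X0 :=
    haveI : IsSimpleGroup A5 := alternatingGroup.isSimpleGroup (by simp)
    e.isSimpleGroup
  set H := Subgroup.centralizer ({n} : Set G) with hH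
  have hPH : P ≤ H := fun x hx => mem_cent_iff.2 (V.central x hx)
  have hXH : X0 ≤ H := fun y hy => mem_cent_iff.2 (hnX y hy).symm
  set Z := (Subgroup.zpowers n).subgroupOf H with hZ
  haveI hZn : Z.Normal := ⟨fun a (ha : (a : G) ∈ Subgroup.zpowers n) b => by
    show (b : G) * a * (b : G)⁻¹ ∈ Subgroup.zpowers n
    rw [commute_of_mem_zpowers (mem_cent_iff.1 b.2) ha, mul_inv_cancel_right]; exact ha⟩
  let mk : ↥H →* ↥H ⧸ Z := QuotientGroup.mk' Z
  have hmk1 : ∀ a : ↥H, mk a = 1 ↔ (a : G) ∈ Subgroup.zpowers n := fun a => by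
    rw [QuotientGroup.mk'_apply, QuotientGroup.eq_one_iff]; rfl
  obtain ⟨S, hS⟩ := V.sylow
  subst hS
  set SH := S.subtype hPH with hSH
  have hcS : (SH : Subgroup ↥H) = (S : Subgroup G).subgroupOf H := Sylow.coe_subtype S hPH
  set SY := SH.mapSurjective (QuotientGroup.mk'_surjective Z) with hSY
  have hcY : (SY : Subgroup (↥H ⧸ Z)) = ((S : Subgroup G).subgroupOf H).map mk := by
    rw [hSY, Sylow.coe_mapSurjective, hcS]
  have hNC : Subgroup.normalizer ((SY : Subgroup (↥H ⧸ Z)) : Set (↥H ⧸ Z)) ≤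
      Subgroup.centralizer ((SY : Subgroup (↥H ⧸ Z)) : Set (↥H ⧸ Z)) := by
    intro y hy
    obtain ⟨a, rfl⟩ := QuotientGroup.mk'_surjective Z y
    rw [hcY] at hy ⊢
    have hcl : ∀ b : ↥H, mk b ∈ ((S : Subgroup G).subgroupOf H).map mk →
        (b : G) ∈ (S : Subgroup G) := by
      rintro b ⟨c, hc, ec⟩
      have h1 : (c : G)⁻¹ * b ∈ Subgroup.zpowers n := (hmk1 (c⁻¹ * b)).1 (by
        rw [map_mul, map_inv, ec, inv_mul_cancel])
      rw [show (b : G) = c * ((c : G)⁻¹ * b) by group]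
      exact mul_mem (show (c : G) ∈ (S : Subgroup G) from hc) (Subgroup.zpowers_le.2 V.n_mem h1)
    have haN : (a : G) ∈ Subgroup.normalizer ((S : Subgroup G) : Set G) := V.mem_norm.2 fun x hx => by
      have h1 := (Subgroup.mem_normalizer_iff.1 hy (mk ⟨x, hPH hx⟩)).1
        (Subgroup.mem_map_of_mem mk (show (⟨x, hPH hx⟩ : ↥H) ∈ (S : Subgroup G).subgroupOf H from hx))
      exact hcl (a * ⟨x, hPH hx⟩ * a⁻¹) (by rw [map_mul, map_mul, map_inv]; exact h1)
    have haS : (a : G) ∈ (S : Subgroup G) := hcon a haN (mem_cent_iff.1 a.2)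
    refine Subgroup.mem_centralizer_iff.2 ?_
    rintro _ ⟨b, hb, rfl⟩
    have h1 : mk (a * b * a⁻¹ * b⁻¹) = 1 := (hmk1 _).2 (V.comm a haS b hb)
    rw [map_mul, map_mul, map_mul, map_inv, map_inv, mul_inv_eq_one, mul_inv_eq_iff_eq_mul] at h1
    exact h1.symm
  set τ := MonoidHom.transferSylow SY hNC with hτ
  set ψ := (τ.comp mk).comp (Subgroup.inclusion hXH) with hψ
  rcases ψ.normal_ker.eq_bot_or_eq_top with hb | hb
  · have hinj := (MonoidHom.ker_eq_bot_iff ψ).1 hb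
    have h1 := Nat.card_le_card_of_injective ψ hinj
    have h2 : Nat.card (SY : Subgroup (↥H ⧸ Z)) ≤ 27 := by
      rw [hcY]
      refine Nat.le_of_dvd (by norm_num) ?_
      have h3 := ((S : Subgroup G).subgroupOf H).card_map_dvd mk
      rwa [Nat.card_congr (Subgroup.subgroupOfEquivOfLe hPH).toEquiv, V.card] at h3
    rw [Nat.card_congr e.toEquiv, A5Facts.card] at h1
    omega
  · have hgH : g ∈ H := hXH hgX
    have hgS : mk ⟨g, hgH⟩ ∈ (SY : Subgroup (↥H ⧸ Z)) := by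
      rw [hcY]; exact Subgroup.mem_map_of_mem mk V.g_mem
    have h1 : τ (mk ⟨g, hgH⟩) = 1 := MonoidHom.mem_ker.1
      (show (⟨g, hgX⟩ : ↥X0) ∈ ψ.ker from hb ▸ Subgroup.mem_top _)
    rw [hτ, MonoidHom.transferSylow_eq_pow SY hNC _ hgS] at h1
    have h2 : mk ⟨g, hgH⟩ ^ (SY : Subgroup (↥H ⧸ Z)).index = 1 := congrArg Subtype.val h1
    have hg3 : mk ⟨g, hgH⟩ ^ 3 = 1 := by
      rw [← map_pow, show (⟨g, hgH⟩ : ↥H) ^ 3 = 1 from Subtype.ext (by
        show g ^ 3 = 1
        exact orderOf_dvd_iff_pow_eq_one.1 (dvd_of_eq V.g_ord)), map_one]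
    have hone := Nat.eq_one_of_dvd_coprimes
      ((Nat.Prime.coprime_iff_not_dvd Nat.prime_three).2 SY.not_dvd_index)
      (orderOf_dvd_of_pow_eq_one hg3) (orderOf_dvd_of_pow_eq_one h2)
    exact V.g_not ((hmk1 _).1 (orderOf_eq_one_iff.1 hone))

theorem card_normalizer {X0 : Subgroup G} (hX : Nonempty (↥X0 ≃* A5)) (hgX : g ∈ X0)
    (hnX : ∀ y ∈ X0, n * y = y * n) :
    Nat.card (Subgroup.normalizer (P : Set G)) = 216 := by
  classical
  haveI : Fact (Nat.Prime 3) := ⟨Nat.prime_three⟩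
  set N := Subgroup.normalizer (P : Set G) with hN
  have horb := conj_orbit_card_mul N g
  rw [V.card_inf_cent] at horb
  have ho : {b : G | ∃ a ∈ N, a * g * a⁻¹ = b}.ncard ≤ 24 :=
    (Set.ncard_le_ncard V.orbit_sub).trans_eq V.ncard_noncentral
  have horbn := conj_orbit_card_mul N n
  have hne : n ≠ n⁻¹ := fun e => by
    have h5 := orderOf_dvd_of_pow_eq_one (show n ^ 2 = 1 by rw [sq]; nth_rw 2 [e]; simp)
    rw [V.n_ord] at h5
    norm_num at h5
  have hon : {b : G | ∃ a ∈ N, a * n * a⁻¹ = b} = {n, n⁻¹} := by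
    ext b
    constructor
    · rintro ⟨a, ha, rfl⟩
      rcases V.conj_n ha with e | e <;> rw [e] <;> simp
    · intro hb
      rcases hb with rfl | hb
      · exact ⟨1, N.one_mem, by simp⟩
      · rw [Set.mem_singleton_iff.1 hb]; exact V.inverted_norm
  rw [hon, Set.ncard_pair hne] at horbn
  set N0 := N ⊓ Subgroup.centralizer ({n} : Set G) with hN0
  have hPN0 : P ≤ N0 := le_inf Subgroup.le_normalizer fun x hx => mem_cent_iff.2 (V.central x hx)
  obtain ⟨m, hm⟩ : 27 ∣ Nat.card N0 := V.card ▸ Subgroup.card_dvd_of_le hPN0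
  have hm1 : m ≠ 1 := by
    intro e
    obtain ⟨a, haN, han, haP⟩ := V.card_norm_cent hX hgX hnX
    refine haP ?_
    rw [Subgroup.eq_of_le_of_card_ge hPN0 (by rw [hm, e, V.card])]
    exact Subgroup.mem_inf.2 ⟨haN, mem_cent_iff.2 han⟩
  have hidx : Nat.card N * N.index = 604800 := by rw [N.card_mul_index, V.order]
  have hmod : N.index % 3 = 1 := by
    obtain ⟨S, hS⟩ := V.sylow
    have h := card_sylow_modEq_one 3 G
    rw [S.card_eq_index_normalizer] at h
    rw [hN, ← hS]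
    exact h
  rw [hm] at horbn
  have hm0 : m ≠ 0 := by
    have := Nat.card_pos (α := ↥N0)
    omega
  have hm4 : m ≤ 4 := by omega
  rw [← horbn] at hidx
  have hprod : m * N.index = 11200 := by
    rw [show 2 * (27 * m) * N.index = 54 * (m * N.index) by ring] at hidx; omega
  interval_cases m <;> omega

theorem class_cases {X0 : Subgroup G} (hX : Nonempty (↥X0 ≃* A5)) (hgX : g ∈ X0)
    (hnX : ∀ y ∈ X0, n * y = y * n) {x : G} (hx : x ∈ P) (hx1 : x ≠ 1) :
    IsConj x n ∨ (IsConj x g ∧ x ^ 3 = 1) := by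
  classical
  by_cases hxn : x ∈ Subgroup.zpowers n
  · left
    obtain ⟨i, hi, rfl⟩ := mem_zpowers_cases (by norm_num) V.n_ord hxn
    interval_cases i
    · simp at hx1
    · rw [pow_one]
    · have hn3 : n ^ 3 = 1 := orderOf_dvd_iff_pow_eq_one.1 (dvd_of_eq V.n_ord)
      rw [pow_succ] at hn3
      rw [eq_inv_of_mul_eq_one_left hn3]
      obtain ⟨c, hc⟩ := V.one.inverted
      exact (isConj_iff.2 ⟨c, hc⟩ : IsConj n n⁻¹).symm
  · right
    have horb := conj_orbit_card_mul (Subgroup.normalizer (P : Set G)) g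
    rw [V.card_inf_cent, V.card_normalizer hX hgX hnX] at horb
    have heq := Set.eq_of_subset_of_ncard_le V.orbit_sub
      (by rw [V.ncard_noncentral]; omega)
    have hm : x ∈ (P : Set G) \ (Subgroup.zpowers n : Set G) := ⟨hx, hxn⟩
    rw [← heq] at hm
    obtain ⟨a, -, rfl⟩ := hm
    refine ⟨(isConj_iff.2 ⟨a, rfl⟩ : IsConj g _).symm, ?_⟩
    rw [conj_pow, orderOf_dvd_iff_pow_eq_one.1 (dvd_of_eq V.g_ord)]; group

theorem extraspecial {X0 : Subgroup G} (hX : Nonempty (↥X0 ≃* A5)) (hgX : g ∈ X0)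
    (hnX : ∀ y ∈ X0, n * y = y * n) : Cfsg.IsExtraspecial 3 ↥P := by
  haveI : Fact (Nat.Prime 3) := ⟨Nat.prime_three⟩
  have hmemc : ∀ c : ↥P, c ∈ Subgroup.center ↥P ↔ (c : G) ∈ Subgroup.zpowers n := fun c => by
    constructor
    · intro hc
      exact V.center c c.2 fun x hx => congrArg Subtype.val (Subgroup.mem_center_iff.1 hc ⟨x, hx⟩)
    · intro hc
      exact Subgroup.mem_center_iff.2 fun x =>
        Subtype.ext (commute_of_mem_zpowers (V.central x x.2) hc)
  have hcen : Subgroup.center ↥P = (Subgroup.zpowers n).subgroupOf P := by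
    ext c; exact hmemc c
  refine PGroup.isExtraspecial_of (IsPGroup.of_card (n := 3) (by rw [V.card]; norm_num)) ?_ ?_ ?_ ?_
  · rw [hcen, Nat.card_congr (Subgroup.subgroupOfEquivOfLe (Subgroup.zpowers_le.2 V.n_mem)).toEquiv,
      Nat.card_zpowers, V.n_ord]
  · by_contra hcon
    push Not at hcon
    exact V.g_not (V.center g V.g_mem fun x hx =>
      congrArg Subtype.val (hcon ⟨x, hx⟩ ⟨g, V.g_mem⟩))
  · intro a b
    exact (hmemc _).2 (V.comm a a.2 b b.2)
  · intro a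
    by_cases ha : a = 1
    · rw [ha, one_pow]; exact one_mem _
    rcases V.class_cases hX hgX hnX a.2 (fun e => ha (Subtype.ext e)) with h | ⟨-, h⟩
    · obtain ⟨c, hc⟩ := isConj_iff.1 h.symm
      refine (hmemc _).2 ?_
      rw [SubgroupClass.coe_pow, ← hc, conj_pow,
        orderOf_dvd_iff_pow_eq_one.1 (dvd_of_eq V.n_ord), mul_one, mul_inv_cancel]
      exact one_mem _
    · refine (hmemc _).2 ?_
      rw [SubgroupClass.coe_pow, h]
      exact one_mem _

theorem conclusion {X0 : Subgroup G} (hX : Nonempty (↥X0 ≃* A5)) (hgX : g ∈ X0)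
    (hnX : ∀ y ∈ X0, n * y = y * n) (S : Sylow 3 G) :
    Cfsg.IsExtraspecial 3 (S : Subgroup G) ∧ Nat.card S = 27 ∧
      Nat.card (Subgroup.normalizer ((S : Subgroup G) : Set G)) = 216 ∧
      ∃ a b : G, orderOf a = 3 ∧ orderOf b = 3 ∧ ¬ IsConj a b ∧
        ∀ c : G, orderOf c = 3 → IsConj c a ∨ IsConj c b := by
  haveI : Fact (Nat.Prime 3) := ⟨Nat.prime_three⟩
  obtain ⟨S0, hS0⟩ := V.sylow
  obtain ⟨c, hc⟩ := MulAction.exists_smul_eq G S0 S
  have hS : (S : Subgroup G) = P.map (MulAut.conj c).toMonoidHom := by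
    rw [← hc, Sylow.coe_subgroup_smul, ← hS0]; rfl
  refine ⟨?_, ?_, ?_, n, g, V.n_ord, V.g_ord, ?_, ?_⟩
  · rw [hS]
    exact LargeExtraspecial.isExtraspecial_of_mulEquiv
      (P.equivMapOfInjective _ (MulAut.conj c).injective) (V.extraspecial hX hgX hnX)
  · show Nat.card (S : Subgroup G) = 27
    rw [hS, Subgroup.card_map_of_injective (f := (MulAut.conj c).toMonoidHom) (MulAut.conj c).injective,
      V.card]
  · have h1 := S0.card_eq_index_normalizer
    have h2 := S.card_eq_index_normalizer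
    have h3 : (Subgroup.normalizer ((S : Subgroup G) : Set G)).index =
        (Subgroup.normalizer (P : Set G)).index := by rw [← hS0]; exact h2.symm.trans h1
    have h4 := (Subgroup.normalizer ((S : Subgroup G) : Set G)).card_mul_index
    rw [h3, ← (Subgroup.normalizer (P : Set G)).card_mul_index] at h4
    rw [Nat.eq_of_mul_eq_mul_right (Nat.pos_of_ne_zero Subgroup.index_ne_zero_of_finite) h4,
      V.card_normalizer hX hgX hnX]
  · intro h
    obtain ⟨a, ha⟩ := isConj_iff.1 h.symm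
    exact V.one.not_conj a (ha ▸ Subgroup.mem_zpowers n)
  · intro x hx
    obtain ⟨Sx, hSx⟩ := (IsPGroup.of_card (p := 3) (n := 1)
      (show Nat.card (Subgroup.zpowers x) = 3 ^ 1 by rw [Nat.card_zpowers, hx]; rfl)).exists_le_sylow
    obtain ⟨d, hd⟩ := MulAction.exists_smul_eq G Sx S0
    have hmem : d * x * d⁻¹ ∈ P := by
      rw [← hS0, ← hd, Sylow.coe_subgroup_smul]
      exact ⟨x, hSx (Subgroup.mem_zpowers x), rfl⟩
    have hx1 : x ≠ 1 := fun e => by rw [e, orderOf_one] at hx; norm_num at hx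
    have hxc : IsConj x (d * x * d⁻¹) := isConj_iff.2 ⟨d, rfl⟩
    exact (V.class_cases hX hgX hnX hmem (conj_ne_one hx1)).imp hxc.trans fun h => hxc.trans h.1

end ThreeData

end CfsgLib.J2Type
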